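import Mathlib
import Cfsg.Agent.Lib.Helper18.SLMDefs

/-!
# Project SLM (helper18, S2332), piece NUM (helper19): two numerical facts
-/

set_option autoImplicit false

namespace Cfsg.Agent.Lib.Helper18.SLM

open Matrix

theorem num_wsum43 : wsum 4 3 = 21 := by
  simp [wsum, Finset.sum_range_succ]

theorem num_wsum24 : wsum 2 4 = 15 := by
  simp [wsum, Finset.sum_range_succ]

-- piece NUM
theorem num44 (d : ℕ) (h1 : 18 ≤ d)
    (h : (d + (4 ^ 3 - 1)) ∣ (4 ^ 4 - 1) * wsum 4 3 * (d - 1)) : wsum 4 3 ≤ d := by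
  rw [num_wsum43] at h ⊢
  by_contra hcon
  have hd : d < 21 := by omega
  interval_cases d <;> revert h <;> decide

theorem num52 (d : ℕ) (h1 : 10 ≤ d)
    (h : (d + (2 ^ 4 - 1)) ∣ (2 ^ 5 - 1) * wsum 2 4 * (d - 1)) : wsum 2 4 ≤ d := by
  rw [num_wsum24] at h ⊢
  by_contra hcon
  have hd : d < 15 := by omega
  interval_cases d <;> revert h <;> decide

end Cfsg.Agent.Lib.Helper18.SLM
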