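import Mathlib
import Cfsg.Prelude.Def_Classical
import Cfsg.Agent.Lib.Helper18.UEDefs

/-!
# Project UE (helper18, S2335), piece NORM

At most `q + 1` elements of given norm `a * a ^ q`.
-/

set_option autoImplicit false

namespace Cfsg.Agent.Lib.Helper18.UE

open Matrix

universe u

variable {F : Type u} [Field F] {m : ℕ}

-- piece NORM
theorem card_norm_le [Fintype F] {q : ℕ} (hF : Fintype.card F = q ^ 2) (c : F) :
    Nat.card {a : F | a * a ^ q = c} ≤ q + 1 := by
  classical
  have hset : {a : F | a * a ^ q = c} = ↑(Polynomial.nthRoots (q + 1) c).toFinset := by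
    ext a
    simp only [Set.mem_setOf_eq, Finset.mem_coe, Multiset.mem_toFinset,
      Polynomial.mem_nthRoots (Nat.succ_pos q)]
    rw [pow_succ']
  rw [hset, Nat.card_coe_set_eq, Set.ncard_coe_finset]
  exact le_trans (Multiset.toFinset_card_le _) (Polynomial.card_nthRoots _ _)

end Cfsg.Agent.Lib.Helper18.UE
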