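import Mathlib
import Cfsg.Agent.Lib.Helper81.AQDefs

/-! Project AQ (S3911, architect helper81), piece CYCA (helper19). -/

set_option autoImplicit false

namespace Cfsg.Agent.Lib.Helper81.AQ

variable {G : Type*} [Group G]

-- piece CYCA
theorem exists_order_sq [Finite G] (hB : Star G) (M : Subgroup G) [M.Normal] (p : ℕ) [Fact p.Prime]
    (hpM : p ∣ Nat.card M) (hpI : p ∣ M.index) : ∃ x : G, orderOf x = p ^ 2 := by
  classical
  have hp : p.Prime := Fact.out
  obtain ⟨P⟩ : Nonempty (Sylow p G) := inferInstance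
  have hPM : ¬ (P : Subgroup G) ≤ M := by
    intro hle
    exact P.not_dvd_index (dvd_trans hpI (Subgroup.index_dvd_of_le hle))
  obtain ⟨x, hxP, hxM⟩ := SetLike.not_le_iff_exists.mp hPM
  obtain ⟨e, he⟩ : ∃ e : ℕ, orderOf x = p ^ e := by
    obtain ⟨k, hk⟩ := (IsPGroup.iff_orderOf.mp P.isPGroup') ⟨x, hxP⟩
    exact ⟨k, by rw [← hk, Subgroup.orderOf_mk]⟩
  have hx1 : x ≠ 1 := by
    rintro rfl
    exact hxM M.one_mem
  have he0 : e ≠ 0 := by
    rintro rfl
    rw [pow_zero, orderOf_eq_one_iff] at he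
    exact hx1 he
  have he1 : e ≠ 1 := by
    rintro rfl
    rw [pow_one] at he
    obtain ⟨y, hy⟩ := exists_prime_orderOf_dvd_card' (G := ↥M) p hpM
    have hyG : orderOf (y : G) = p := by
      rw [Subgroup.orderOf_coe]
      exact hy
    have hcard : Nat.card ↥(Subgroup.zpowers (y : G)) = Nat.card ↥(Subgroup.zpowers x) := by
      rw [Nat.card_zpowers, Nat.card_zpowers, hyG, he]
    obtain ⟨g, hg⟩ := hB (Subgroup.zpowers (y : G)) (Subgroup.zpowers x) inferInstance
      inferInstance hcard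
    have hxm : x ∈ (Subgroup.zpowers (y : G)).map (MulAut.conj g).toMonoidHom := by
      rw [← hg]
      exact Subgroup.mem_zpowers x
    obtain ⟨w, hw, hwx⟩ := Subgroup.mem_map.mp hxm
    have hwM : w ∈ M := (Subgroup.zpowers_le.mpr y.2) hw
    apply hxM
    rw [← hwx]
    show g * w * g⁻¹ ∈ M
    exact (inferInstance : M.Normal).conj_mem w hwM g
  have he2 : 2 ≤ e := by omega
  refine ⟨x ^ (p ^ (e - 2)), ?_⟩
  have hdvd : p ^ (e - 2) ∣ orderOf x := by
    rw [he]
    exact pow_dvd_pow p (by omega)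
  rw [orderOf_pow_of_dvd (pow_ne_zero _ hp.ne_zero) hdvd, he, Nat.pow_div (by omega) hp.pos]
  congr 1
  omega

end Cfsg.Agent.Lib.Helper81.AQ
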