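import Cfsg.Agent.Lib.Helper32.BG10Basic

/-!
# B&G Section 10, piece Q11K (helper15's board, for S1414): `M_β` is a Hall `β(M)`-subgroup of
`M` and of `G`.
-/

set_option autoImplicit false

open Cfsg Cfsg.Agent.Lib.Helper32 Cfsg.Agent.Lib.Helper32.BG10

namespace Cfsg.Agent.Lib.Helper19.BG10

universe u

variable {G : Type u} [Group G] [Finite G]

theorem bg10_11k (hG : IsMinSimpleOddOrder G) (hUT : UT G) (hder : SigDer G) {M : Subgroup G}
    (hM : IsCoatom M)
    (hT : ∀ p : ℕ, p.Prime → p ∈ beta M →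
      ¬ p ∣ (piCoreOf (beta M) ⁅M, M⁆).relIndex ⁅M, M⁆)
    (hTn : Subgroup.normalizer ((⁅M, M⁆ : Subgroup G) : Set G) ≤
      Subgroup.normalizer ((piCoreOf (beta M) ⁅M, M⁆ : Subgroup G) : Set G)) :
    IsPiHallOf (beta M) (piCoreOf (beta M) M) M ∧ IsPiHall (beta M) (piCoreOf (beta M) M) := by
  set D : Subgroup G := ⁅M, M⁆ with hDdef
  set T : Subgroup G := piCoreOf (beta M) D with hTdef
  set B : Subgroup G := piCoreOf (beta M) M with hBdef
  have hDM : D ≤ M := Subgroup.commutator_le_self M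
  have hTD : T ≤ D := Subgroup.map_subtype_le _
  have hBM : B ≤ M := Subgroup.map_subtype_le _
  have hDcomm : (commutator ↥M).map M.subtype = D := Subgroup.map_subtype_commutator M
  -- (1) primes of `B` and `T`
  have hBpi : ∀ p : ℕ, p.Prime → p ∣ Nat.card B → p ∈ beta M := by
    intro p hp hdvd
    have h1 : Nat.card B = Nat.card (piCore (beta M) ↥M) :=
      Cfsg.Agent.Lib.Helper30.card_map_subtype _
    rw [h1] at hdvd
    exact Cfsg.Agent.Lib.Helper66.isPi_piCore (G := ↥M) (beta M) p hp hdvd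
  have hTpi : ∀ p : ℕ, p.Prime → p ∣ Nat.card T → p ∈ beta M := by
    intro p hp hdvd
    have h1 : Nat.card T = Nat.card (piCore (beta M) ↥D) :=
      Cfsg.Agent.Lib.Helper30.card_map_subtype _
    rw [h1] at hdvd
    exact Cfsg.Agent.Lib.Helper66.isPi_piCore (G := ↥D) (beta M) p hp hdvd
  -- (2) `T ≤ B`
  have hMD : M ≤ Subgroup.normalizer (D : Set G) := by
    rw [← hDcomm]
    exact le_normalizer_map_subtype M (commutator ↥M)
  have hMT : M ≤ Subgroup.normalizer (T : Set G) := hMD.trans hTn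
  have hTM : T ≤ M := hTD.trans hDM
  have hTB : T ≤ B := by
    have hnorm : (T.subgroupOf M).Normal := by
      constructor
      intro n hn g
      rw [Subgroup.mem_subgroupOf] at hn ⊢
      exact (Subgroup.mem_normalizer_iff.1 (hMT g.2) n).1 hn
    have hcard : Nat.card (T.subgroupOf M) = Nat.card T :=
      Nat.card_congr (Subgroup.subgroupOfEquivOfLe hTM).toEquiv
    have hle : T.subgroupOf M ≤ piCore (beta M) ↥M := by
      apply le_sSup
      refine ⟨hnorm, fun p hp hdvd => ?_⟩
      rw [hcard] at hdvd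
      exact hTpi p hp hdvd
    have h2 := Subgroup.map_mono (f := M.subtype) hle
    rw [Subgroup.map_subgroupOf_eq_of_le hTM] at h2
    exact h2
  -- (3) Sylow subgroups for `p ∈ β(M)`
  have hSyl : ∀ p : ℕ, p ∈ beta M → ∃ (_ : Fact p.Prime) (S : Sylow p ↥M),
      (S : Subgroup ↥M).map M.subtype ≤ B ∧
      (S : Subgroup ↥M).map M.subtype ∈ sylSet p (⊤ : Subgroup G) := by
    intro p hpb
    have hp : p.Prime := hpb.1.1
    haveI : Fact p.Prime := ⟨hp⟩
    have hσ : p ∈ sigma M := alpha_sub_sigma hG hUT hM hpb.1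
    obtain ⟨S⟩ : Nonempty (Sylow p ↥M) := inferInstance
    refine ⟨⟨hp⟩, S, ?_, (sigma_sylow hσ S).2⟩
    have hSD : (S : Subgroup ↥M).map M.subtype ≤ D := by
      rw [← hDcomm]
      exact Subgroup.map_mono (hder M hM p hσ S)
    have hSp : IsPGroup p ((S : Subgroup ↥M).map M.subtype : Subgroup G) :=
      S.isPGroup'.map M.subtype
    have hSp' : IsPGroup p (((S : Subgroup ↥M).map M.subtype).subgroupOf D) :=
      hSp.comap_of_injective D.subtype (Subgroup.subtype_injective D)
    obtain ⟨S₂, hS₂⟩ := hSp'.exists_le_sylow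
    have hidx : (piCore (beta M) ↥D).index = T.relIndex D := by
      unfold Subgroup.relIndex
      rw [hTdef]
      unfold piCoreOf
      rw [Subgroup.subgroupOf, Subgroup.comap_map_eq_self_of_injective
        (Subgroup.subtype_injective D)]
    have hcop : ((piCore (beta M) ↥D).index).Coprime p := by
      rw [hidx, Nat.coprime_comm]
      exact (Nat.Prime.coprime_iff_not_dvd hp).2 (hT p hp hpb)
    have h3 := sylow_le_of_index_coprime p S₂ (piCore (beta M) ↥D) hcop
    have h4 := Subgroup.map_mono (f := D.subtype) (hS₂.trans h3)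
    rw [Subgroup.map_subgroupOf_eq_of_le hSD] at h4
    exact h4.trans hTB
  refine ⟨⟨hBM, hBpi, ?_⟩, hBpi, ?_⟩
  · intro p hp hpb hdvd
    obtain ⟨_, S, hSB, -⟩ := hSyl p hpb
    have h1 : B.relIndex M ∣ ((S : Subgroup ↥M).map M.subtype).relIndex M :=
      Subgroup.relIndex_dvd_of_le_left M hSB
    have h2 : ((S : Subgroup ↥M).map M.subtype).relIndex M = (S : Subgroup ↥M).index := by
      unfold Subgroup.relIndex
      rw [Subgroup.subgroupOf, Subgroup.comap_map_eq_self_of_injective
        (Subgroup.subtype_injective M)]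
    rw [h2] at h1
    exact S.not_dvd_index (hdvd.trans h1)
  · intro p hp hpb hdvd
    obtain ⟨_, S, hSB, hS⟩ := hSyl p hpb
    have h1 : B.index ∣ ((S : Subgroup ↥M).map M.subtype).index := Subgroup.index_dvd_of_le hSB
    have h2 := Subgroup.card_mul_index ((S : Subgroup ↥M).map M.subtype)
    rw [hS.2, Subgroup.card_top] at h2
    have h3 : ((S : Subgroup ↥M).map M.subtype).index =
        Nat.card G / p ^ (Nat.card G).factorization p :=
      (Nat.div_eq_of_eq_mul_right (pow_pos hp.pos _) h2.symm).symm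
    rw [h3] at h1
    exact Nat.not_dvd_ordCompl hp Nat.card_pos.ne' (hdvd.trans h1)

end Cfsg.Agent.Lib.Helper19.BG10
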