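import Cfsg.Agent.Lib.Helper3.BG12Defs

/-!
# B&G Section 12, piece P17A (for helper3): `C_N(E) ≤ N'` for a normal Hall subgroup `N` of `M`
with complement `E` and `N ≤ M'` (transfer).
-/

set_option autoImplicit false

open Cfsg Cfsg.Agent.Lib.Helper32 Cfsg.Agent.Lib.Helper32.BG10 Cfsg.Agent.Lib.Helper3.BG12

namespace Cfsg.Agent.Lib.Helper19.BG12

universe u

open scoped commutatorElement

variable {G : Type u} [Group G] [Finite G]

open scoped IsMulCommutative in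
/-- transfer: a central element of `Λ` lying in a commutative subgroup `A` of order coprime to
its index and in the derived subgroup of `Λ` is trivial -/
theorem p17a_transfer_aux {Λ : Type*} [Group Λ] [Finite Λ] (A : Subgroup Λ) [IsMulCommutative A]
    (hcop : (Nat.card A).Coprime A.index) {c : Λ} (hcA : c ∈ A) (hcZ : c ∈ Subgroup.center Λ)
    (hcD : c ∈ commutator Λ) : c = 1 := by
  have key : ∀ (k : ℕ) (g₀ : Λ), g₀⁻¹ * c ^ k * g₀ ∈ A → g₀⁻¹ * c ^ k * g₀ = c ^ k := by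
    intro k g₀ _
    have h : c ^ k ∈ Subgroup.center Λ := Subgroup.pow_mem _ hcZ k
    rw [Subgroup.mem_center_iff] at h
    rw [mul_assoc, ← h g₀, inv_mul_cancel_left]
  have h1 := MonoidHom.transfer_eq_pow (MonoidHom.id A) c key
  have h2 : MonoidHom.transfer (MonoidHom.id A) c = 1 :=
    MonoidHom.mem_ker.mp
      (Abelianization.commutator_subset_ker (MonoidHom.transfer (MonoidHom.id A)) hcD)
  rw [h2] at h1
  have h3 : c ^ A.index = 1 := by
    have h := congrArg Subtype.val h1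
    exact h.symm
  have h4 : c ^ Nat.card A = 1 := by
    have h := pow_card_eq_one' (G := A) (x := ⟨c, hcA⟩)
    exact congrArg Subtype.val h
  have h5 : orderOf c ∣ Nat.gcd (Nat.card A) A.index :=
    Nat.dvd_gcd (orderOf_dvd_of_pow_eq_one h4) (orderOf_dvd_of_pow_eq_one h3)
  rw [Nat.Coprime.gcd_eq_one hcop] at h5
  exact orderOf_eq_one_iff.mp (Nat.dvd_one.mp h5)

omit [Finite G] in
/-- the order of `M = A B` with `A ∩ B = 1` -/
theorem p17a_card_of_complIn {A B M : Subgroup G} (h : IsComplIn A B M) :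
    Nat.card M = Nat.card A * Nat.card B := by
  obtain ⟨hA, hB, hAB, hprod⟩ := h
  rw [← Nat.card_prod]
  symm
  apply Nat.card_congr
  refine Equiv.ofBijective
    (fun x : ↥A × ↥B => (⟨x.1.1 * x.2.1, M.mul_mem (hA x.1.2) (hB x.2.2)⟩ : ↥M)) ⟨?_, ?_⟩
  · rintro ⟨⟨a, ha⟩, ⟨b, hb⟩⟩ ⟨⟨a', ha'⟩, ⟨b', hb'⟩⟩ hx
    have hx' : a * b = a' * b' := congrArg Subtype.val hx
    have h1 : a'⁻¹ * a = b' * b⁻¹ := by
      calc a'⁻¹ * a = a'⁻¹ * (a * b) * b⁻¹ := by group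
        _ = a'⁻¹ * (a' * b') * b⁻¹ := by rw [hx']
        _ = b' * b⁻¹ := by group
    have h2 : a'⁻¹ * a ∈ A ⊓ B :=
      ⟨A.mul_mem (A.inv_mem ha') ha, h1 ▸ B.mul_mem hb' (B.inv_mem hb)⟩
    rw [hAB, Subgroup.mem_bot] at h2
    have h3 : a' = a := inv_mul_eq_one.mp h2
    subst h3
    have h4 : b = b' := mul_left_cancel hx'
    subst h4
    rfl
  · rintro ⟨m, hm⟩
    obtain ⟨a, ha, b, hb, rfl⟩ := hprod m hm
    exact ⟨(⟨a, ha⟩, ⟨b, hb⟩), rfl⟩

/-- P17A -/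
theorem cent_compl_le_der {N E M : Subgroup G} (hE : IsComplIn E N M)
    (hNn : M ≤ Subgroup.normalizer (N : Set G)) (hNM : N ≤ ⁅M, M⁆)
    (hcop : (Nat.card N).Coprime (Nat.card E)) :
    N ⊓ Subgroup.centralizer (E : Set G) ≤ ⁅N, N⁆ := by
  have hcardM := p17a_card_of_complIn hE
  obtain ⟨hEM, hNleM, hEN, hprod⟩ := hE
  -- `M` normalizes `⁅N, N⁆`
  have hconj : ∀ m ∈ M, ∀ h ∈ ⁅N, N⁆, m * h * m⁻¹ ∈ ⁅N, N⁆ := by
    intro m hm
    have hmN := hNn hm
    rw [Subgroup.mem_normalizer_iff] at hmN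
    have hle : ⁅N, N⁆ ≤ (⁅N, N⁆).comap (MulAut.conj m).toMonoidHom := by
      rw [Subgroup.commutator_le]
      intro a ha b hb
      rw [Subgroup.mem_comap]
      show MulAut.conj m ⁅a, b⁆ ∈ _
      rw [map_commutatorElement]
      apply Subgroup.commutator_mem_commutator
      · rw [MulAut.conj_apply]
        exact (hmN a).mp ha
      · rw [MulAut.conj_apply]
        exact (hmN b).mp hb
    intro h hh
    have h1 := hle hh
    rw [Subgroup.mem_comap] at h1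
    exact h1
  haveI hD'n : ((⁅N, N⁆).subgroupOf M).Normal := ⟨fun x hx g => by
    rw [Subgroup.mem_subgroupOf] at hx ⊢
    exact hconj g.1 g.2 x.1 hx⟩
  haveI hN'n : (N.subgroupOf M).Normal := ⟨fun x hx g => by
    rw [Subgroup.mem_subgroupOf] at hx ⊢
    exact ((Subgroup.mem_normalizer_iff.mp (hNn g.2)) x.1).mp hx⟩
  -- the quotient `Λ = M / ⁅N, N⁆` and the image `A` of `N`
  have hπ : Function.Surjective (QuotientGroup.mk' ((⁅N, N⁆).subgroupOf M)) :=
    QuotientGroup.mk'_surjective _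
  haveI hAn : ((N.subgroupOf M).map (QuotientGroup.mk' ((⁅N, N⁆).subgroupOf M))).Normal :=
    Subgroup.Normal.map hN'n _ hπ
  have hmk : ∀ a b : ↥M, (a.1)⁻¹ * b.1 ∈ ⁅N, N⁆ →
      QuotientGroup.mk' ((⁅N, N⁆).subgroupOf M) a =
        QuotientGroup.mk' ((⁅N, N⁆).subgroupOf M) b := by
    intro a b hab
    show ((a : ↥M) : ↥M ⧸ (⁅N, N⁆).subgroupOf M) = ((b : ↥M) : ↥M ⧸ (⁅N, N⁆).subgroupOf M)
    rw [QuotientGroup.eq, Subgroup.mem_subgroupOf]
    exact hab
  haveI hAc : IsMulCommutative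
      ↥((N.subgroupOf M).map (QuotientGroup.mk' ((⁅N, N⁆).subgroupOf M))) := by
    apply IsMulCommutative.of_comm
    rintro ⟨x, hx⟩ ⟨y, hy⟩
    obtain ⟨a, ha, rfl⟩ := Subgroup.mem_map.mp hx
    obtain ⟨b, hb, rfl⟩ := Subgroup.mem_map.mp hy
    apply Subtype.ext
    show QuotientGroup.mk' ((⁅N, N⁆).subgroupOf M) a * QuotientGroup.mk' _ b =
      QuotientGroup.mk' _ b * QuotientGroup.mk' _ a
    rw [← map_mul, ← map_mul]
    apply hmk
    rw [Subgroup.mem_subgroupOf] at ha hb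
    have h1 : ((a * b : ↥M) : G)⁻¹ * ((b * a : ↥M) : G) = ⁅(b : G)⁻¹, (a : G)⁻¹⁆ := by
      rw [commutatorElement_def]
      simp [mul_assoc]
    rw [h1]
    exact Subgroup.commutator_mem_commutator (N.inv_mem hb) (N.inv_mem ha)
  -- coprimality
  have hcardN' : Nat.card (N.subgroupOf M) = Nat.card N :=
    Nat.card_congr (Subgroup.subgroupOfEquivOfLe hNleM).toEquiv
  have hindN' : (N.subgroupOf M).index = Nat.card E := by
    have h1 := Subgroup.card_mul_index (N.subgroupOf M)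
    rw [hcardN', hcardM, mul_comm] at h1
    exact Nat.eq_of_mul_eq_mul_right Nat.card_pos h1
  have hcopA : (Nat.card ((N.subgroupOf M).map (QuotientGroup.mk' ((⁅N, N⁆).subgroupOf M)))).Coprime
      ((N.subgroupOf M).map (QuotientGroup.mk' ((⁅N, N⁆).subgroupOf M))).index := by
    have d1 : Nat.card ((N.subgroupOf M).map (QuotientGroup.mk' ((⁅N, N⁆).subgroupOf M))) ∣
        Nat.card N := by
      rw [← hcardN']
      exact Subgroup.card_map_dvd _ _
    have d2 : ((N.subgroupOf M).map (QuotientGroup.mk' ((⁅N, N⁆).subgroupOf M))).index ∣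
        Nat.card E := by
      rw [← hindN']
      exact Subgroup.index_map_dvd _ hπ
    exact Nat.Coprime.of_dvd d1 d2 hcop
  -- the element
  intro c hc
  obtain ⟨hcN, hcE⟩ := Subgroup.mem_inf.mp hc
  have hcM : c ∈ M := hNleM hcN
  rw [Subgroup.mem_centralizer_iff] at hcE
  have hcA : QuotientGroup.mk' ((⁅N, N⁆).subgroupOf M) ⟨c, hcM⟩ ∈
      (N.subgroupOf M).map (QuotientGroup.mk' ((⁅N, N⁆).subgroupOf M)) :=
    Subgroup.mem_map_of_mem _ (Subgroup.mem_subgroupOf.mpr hcN)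
  have hcZ : QuotientGroup.mk' ((⁅N, N⁆).subgroupOf M) ⟨c, hcM⟩ ∈
      Subgroup.center (↥M ⧸ (⁅N, N⁆).subgroupOf M) := by
    rw [Subgroup.mem_center_iff]
    intro g
    obtain ⟨m, rfl⟩ := hπ g
    rw [← map_mul, ← map_mul]
    apply hmk
    obtain ⟨e, he, n, hn, hmen⟩ := hprod m.1 m.2
    have hec : e * c = c * e := hcE e he
    have h1 : ((m * ⟨c, hcM⟩ : ↥M) : G)⁻¹ * ((⟨c, hcM⟩ * m : ↥M) : G) = ⁅c⁻¹, n⁻¹⁆ := by
      rw [commutatorElement_def]
      show (m.1 * c)⁻¹ * (c * m.1) = c⁻¹ * n⁻¹ * c⁻¹⁻¹ * n⁻¹⁻¹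
      rw [hmen]
      calc (e * n * c)⁻¹ * (c * (e * n)) = c⁻¹ * n⁻¹ * e⁻¹ * (c * e) * n := by group
        _ = c⁻¹ * n⁻¹ * e⁻¹ * (e * c) * n := by rw [hec]
        _ = c⁻¹ * n⁻¹ * c⁻¹⁻¹ * n⁻¹⁻¹ := by group
    rw [h1]
    exact Subgroup.commutator_mem_commutator (N.inv_mem hcN) (N.inv_mem hn)
  have hcD : QuotientGroup.mk' ((⁅N, N⁆).subgroupOf M) ⟨c, hcM⟩ ∈
      commutator (↥M ⧸ (⁅N, N⁆).subgroupOf M) := by
    have h1 : c ∈ (commutator ↥M).map M.subtype := by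
      rw [Subgroup.map_subtype_commutator]
      exact hNM hcN
    obtain ⟨x, hx, hxc⟩ := Subgroup.mem_map.mp h1
    have hxe : x = ⟨c, hcM⟩ := Subtype.ext hxc
    rw [← hxe]
    have h2 : (commutator ↥M).map (QuotientGroup.mk' ((⁅N, N⁆).subgroupOf M)) ≤
        commutator (↥M ⧸ (⁅N, N⁆).subgroupOf M) := by
      rw [commutator_def, Subgroup.map_commutator, commutator_def]
      exact Subgroup.commutator_mono le_top le_top
    exact h2 (Subgroup.mem_map_of_mem _ hx)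
  have hone := p17a_transfer_aux _ hcopA hcA hcZ hcD
  have h2 : (⟨c, hcM⟩ : ↥M) ∈ (⁅N, N⁆).subgroupOf M := by
    have h3 : ((⟨c, hcM⟩ : ↥M) : ↥M ⧸ (⁅N, N⁆).subgroupOf M) = 1 := hone
    exact (QuotientGroup.eq_one_iff _).mp h3
  exact Subgroup.mem_subgroupOf.mp h2

end Cfsg.Agent.Lib.Helper19.BG12
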