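import Cfsg.Agent.Lib.Helper46.BSW0
import Cfsg.Agent.Lib.Helper4.CharExp2
import Cfsg.Agent.Lib.Helper87.BSWG0
import Cfsg.Agent.Lib.Helper92.BSWG1
import Cfsg.Agent.Lib.Helper59.BSWR

/-!
# Piece FINP of S3282 (helper46's job board): the case `δ = 1` of Brauer–Suzuki–Wall
-/

set_option autoImplicit false

namespace Cfsg.Agent.Lib.Helper19.BSWFinp

open Cfsg Cfsg.Agent.Lib.Helper4 Cfsg.Agent.Lib.Helper46.BSW

universe u

variable {G : Type u} [Group G]

theorem off_conj (K : Subgroup G) (g z : G) : Off K (g * z * g⁻¹) ↔ Off K z := by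
  unfold Off
  constructor
  · intro h y
    have := h (y * g⁻¹)
    simpa [mul_assoc] using this
  · intro h y
    have := h (y * g)
    simpa [mul_assoc] using this

theorem off_not_mem {K : Subgroup G} {z : G} (h : Off K z) : z ∉ K := by
  have := h 1
  simpa using this

end Cfsg.Agent.Lib.Helper19.BSWFinp

namespace Cfsg.Agent.Lib.Helper46.BSW

open Cfsg Cfsg.Agent.Lib.Helper4 Cfsg.Agent.Lib.Helper19.BSWFinp

universe u

variable {G : Type u} [Group G]

theorem concl_pos [Finite G] {t s : G} {K : Subgroup G} (h : Setup t s K)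
    (hk : 4 ≤ Nat.card K) (Δ : IrrCharacter G) (hS : Stage1 K 1 Δ) : Concl G := by
  classical
  -- `E₀` is nonempty
  have hE0 := hS.card_E0
  have hE0pos : 0 < Nat.card {z : G // Off K z ∧ (Δ : G → ℂ) z = 0} := by
    have h4 : (4 : ℤ) ≤ (Nat.card K : ℤ) := by exact_mod_cast hk
    have : (0 : ℤ) < (Nat.card {z : G // Off K z ∧ (Δ : G → ℂ) z = 0} : ℤ) := by
      rw [hE0]
      nlinarith
    exact_mod_cast this
  obtain ⟨⟨z₀, hz₀off, hz₀Δ⟩⟩ := (Nat.card_pos_iff.1 hE0pos).1
  have hinv := hS.a.inv_pos rfl z₀ hz₀off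
  rw [hz₀Δ, mul_zero, add_zero] at hinv
  have hinv' : invCount z₀ = 2 * Nat.card K + 1 := by exact_mod_cast hinv
  have hpos : 0 < invCount z₀ := by omega
  obtain ⟨⟨u, hu, huz⟩⟩ := (Nat.card_pos_iff.1 hpos).1
  obtain ⟨s', K', h', hK'card, hOff⟩ := setup_conj h u hu
  have hz₀off' : Off K' z₀ := (hOff z₀).2 hz₀off
  obtain ⟨hQab, -, hQinv, hQcent, hQoff, hQcard, hQnorm⟩ := strongly_real h' z₀ hz₀off' huz
  set Q := Subgroup.centralizer ({z₀} : Set G) with hQ
  have hQq : Nat.card Q = 2 * Nat.card K + 1 := by rw [← hQcard]; exact hinv'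
  -- the nontrivial elements of `Q` lie in `E₀`
  have hQE : ∀ y ∈ Q, y ≠ 1 → Off K y ∧ (Δ : G → ℂ) y = 0 := by
    intro y hy hy1
    have hyoff' := hQoff y hy hy1
    have hyoff := (hOff y).1 hyoff'
    refine ⟨hyoff, ?_⟩
    obtain ⟨-, -, -, -, -, hcard, -⟩ := strongly_real h' y hyoff' (hQinv y hy)
    rw [hQcent y hy hy1] at hcard
    have h1 := hS.a.inv_pos rfl y hyoff
    rw [hcard, hQq] at h1
    have hk0 : (Nat.card K : ℂ) ≠ 0 := by
      have : Nat.card K ≠ 0 := by omega
      exact_mod_cast this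
    have h2 : (Nat.card K : ℂ) * (Δ : G → ℂ) y = 0 := by
      push_cast at h1
      linear_combination -h1
    exact (mul_eq_zero.1 h2).resolve_left hk0
  set N := Subgroup.normalizer (Q : Set G) with hN
  -- counting the conjugates of `Q`
  have hcount : N.index * (2 * Nat.card K) ≤
      Nat.card {z : G // Off K z ∧ (Δ : G → ℂ) z = 0} := by
    let f : (G ⧸ N) × ↥((Q : Set G) \ {1}) → {z : G // Off K z ∧ (Δ : G → ℂ) z = 0} :=
      fun p => ⟨p.1.out * p.2.1 * p.1.out⁻¹, by
        obtain ⟨ho, hd⟩ := hQE p.2.1 p.2.2.1 p.2.2.2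
        exact ⟨(off_conj K _ _).2 ho, by rw [isClassFunction_irr Δ]; exact hd⟩⟩
    have hf : Function.Injective f := by
      rintro ⟨c, y, hy, hy1⟩ ⟨c', y', hy', hy1'⟩ heq
      have heq' : c.out * y * c.out⁻¹ = c'.out * y' * c'.out⁻¹ := congrArg Subtype.val heq
      set n := c.out⁻¹ * c'.out with hn_def
      have hyn : y = n * y' * n⁻¹ := by
        have : y = c.out⁻¹ * (c.out * y * c.out⁻¹) * c.out := by group
        rw [this, heq', hn_def]
        group
      have hn : n ∈ N := by
        rw [hN, Subgroup.mem_normalizer_iff]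
        intro a
        have e1 : a ∈ Q ↔ a * y' = y' * a := by
          rw [← hQcent y' hy' hy1', Subgroup.mem_centralizer_singleton_iff]
        have e2 : n * a * n⁻¹ ∈ Q ↔ (n * a * n⁻¹) * y = y * (n * a * n⁻¹) := by
          rw [← hQcent y hy hy1, Subgroup.mem_centralizer_singleton_iff]
        rw [e1, e2, hyn]
        constructor
        · intro hc
          calc n * a * n⁻¹ * (n * y' * n⁻¹) = n * (a * y') * n⁻¹ := by group
            _ = n * (y' * a) * n⁻¹ := by rw [hc]
            _ = n * y' * n⁻¹ * (n * a * n⁻¹) := by group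
        · intro hc
          have : n * (a * y') * n⁻¹ = n * (y' * a) * n⁻¹ := by
            calc n * (a * y') * n⁻¹ = n * a * n⁻¹ * (n * y' * n⁻¹) := by group
              _ = n * y' * n⁻¹ * (n * a * n⁻¹) := hc
              _ = n * (y' * a) * n⁻¹ := by group
          exact mul_left_cancel (mul_right_cancel this)
      have hc : c = c' := by
        rw [← QuotientGroup.out_eq' c, ← QuotientGroup.out_eq' c', QuotientGroup.eq]
        exact hn
      subst hc
      have hyy : y = y' := by
        rw [hyn, hn_def]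
        group
      subst hyy
      rfl
    have h1 := Nat.card_le_card_of_injective f hf
    rw [Nat.card_prod] at h1
    have h2 : Nat.card ↥((Q : Set G) \ {1}) = 2 * Nat.card K := by
      rw [Nat.card_coe_set_eq, Set.ncard_sdiff_singleton_of_mem (Q.one_mem),
        ← Nat.card_coe_set_eq]
      have : Nat.card ↥(Q : Set G) = Nat.card Q := rfl
      rw [this, hQq]
      omega
    rw [h2] at h1
    exact h1
  -- lower bound for `|N(Q)|`
  have hidx : N.index ≤ 2 * Nat.card K + 2 := by
    have h1 : ((N.index * (2 * Nat.card K) : ℕ) : ℤ) ≤ (2 * (Nat.card K : ℤ) + 1) ^ 2 - 1 := by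
      rw [← hE0]
      exact_mod_cast hcount
    have h4 : (4 : ℤ) ≤ (Nat.card K : ℤ) := by exact_mod_cast hk
    push_cast at h1
    have h2 : (N.index : ℤ) ≤ 2 * (Nat.card K : ℤ) + 2 := by
      by_contra hlt
      push Not at hlt
      nlinarith
    exact_mod_cast h2
  have hG : Nat.card G = 2 * Nat.card K * ((2 * Nat.card K + 1) * (Nat.card K + 1)) := by
    have := hS.a.index
    exact_mod_cast this
  have hlow : (2 * Nat.card K + 1) * Nat.card K ≤ Nat.card N := by
    have hmul := Subgroup.card_mul_index N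
    rw [hG] at hmul
    have h1 : Nat.card N * N.index ≤ Nat.card N * (2 * Nat.card K + 2) :=
      Nat.mul_le_mul_left _ hidx
    rw [hmul] at h1
    have h2 : (2 * Nat.card K + 1) * Nat.card K * (2 * Nat.card K + 2) ≤
        Nat.card N * (2 * Nat.card K + 2) := by
      calc (2 * Nat.card K + 1) * Nat.card K * (2 * Nat.card K + 2)
          = 2 * Nat.card K * ((2 * Nat.card K + 1) * (Nat.card K + 1)) := by ring
        _ ≤ Nat.card N * (2 * Nat.card K + 2) := h1
    exact Nat.le_of_mul_le_mul_right h2 (by omega)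
  -- upper bound for `|N(Q)|`
  have hup : Nat.card N ≤ Nat.card Q * Nat.card (N ⊓ K' : Subgroup G) := by
    have hex : ∀ g : N, ∃ p : Q × (N ⊓ K' : Subgroup G), (g : G) = (p.1 : G) * (p.2 : G) := by
      intro g
      obtain ⟨a, ha, w, hw, hgw⟩ := hQnorm g.1 g.2
      have hwN : w ∈ N := by
        have : w = a⁻¹ * g.1 := by rw [hgw]; group
        rw [this]
        exact Subgroup.mul_mem _ (Subgroup.inv_mem _ (Subgroup.le_normalizer ha)) g.2
      exact ⟨(⟨a, ha⟩, ⟨w, hwN, hw⟩), hgw⟩
    choose F hF using hex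
    have hFinj : Function.Injective F := by
      intro g g' hgg
      apply Subtype.ext
      rw [hF g, hF g', hgg]
    have := Nat.card_le_card_of_injective F hFinj
    rwa [Nat.card_prod] at this
  have hK'N : K' ≤ N := by
    have h1 : Nat.card K' ≤ Nat.card (N ⊓ K' : Subgroup G) := by
      rw [hQq] at hup
      have h3 : (2 * Nat.card K + 1) * Nat.card K ≤
          (2 * Nat.card K + 1) * Nat.card (N ⊓ K' : Subgroup G) := le_trans hlow hup
      rw [hK'card]
      exact Nat.le_of_mul_le_mul_left h3 (by omega)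
    have h2 : N ⊓ K' = K' := Subgroup.eq_of_le_of_card_ge inf_le_right h1
    rw [← h2]
    exact inf_le_left
  have hK'bot : K' ≠ ⊥ := by
    intro hb
    have := h'.htK
    rw [hb, Subgroup.mem_bot] at this
    rw [this, orderOf_one] at hu
    norm_num at hu
  -- normalizers of the nontrivial subgroups of `K'`
  have key : ∀ Y : Subgroup G, Y ≤ K' → Y ≠ ⊥ →
      Subgroup.normalizer (Y : Set G) = Subgroup.centralizer ({u} : Set G) := by
    intro Y hY hYbot
    apply le_antisymm
    · intro g hg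
      obtain ⟨⟨x, hxY⟩, hx1⟩ := Subgroup.ne_bot_iff_exists_ne_one.1 hYbot
      have hx1' : x ≠ 1 := fun h0 => hx1 (Subtype.ext h0)
      have hgx : g * x * g⁻¹ ∈ Y := (Subgroup.mem_normalizer_iff.1 hg x).1 hxY
      exact setup_ti h' g x (hY hxY) hx1' (hY hgx)
    · have hconj : ∀ g ∈ Subgroup.centralizer ({u} : Set G), ∀ x ∈ Y, g * x * g⁻¹ ∈ Y := by
        intro g hg x hx
        rcases setup_cent_mem h' g hg with hgK | ⟨hgs, -⟩
        · have : g * x * g⁻¹ = x := by
            rw [h'.hKab g hgK x (hY hx)]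
            group
          rw [this]
          exact hx
        · have : g * x * g⁻¹ = x⁻¹ := by
            set w := g * s'⁻¹ with hw
            have hg' : g = w * s' := by rw [hw]; group
            rw [hg']
            calc w * s' * x * (w * s')⁻¹ = w * (s' * x * s'⁻¹) * w⁻¹ := by group
              _ = w * x⁻¹ * w⁻¹ := by rw [h'.hinv x (hY hx)]
              _ = x⁻¹ := by
                rw [h'.hKab w hgs x⁻¹ (K'.inv_mem (hY hx))]
                group
          rw [this]
          exact Y.inv_mem hx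
      exact Subgroup.le_normalizer_iff.2 hconj
  refine ⟨Q, K', ?_, hQcent, ⟨⟨fun a b => Subtype.ext (h'.hKab a a.2 b b.2)⟩⟩, ?_, ?_, ?_, ?_⟩
  · rw [hQq]
    have h1 := hS.a.card
    have e : 2 * Nat.card K + 1 - 1 = 2 * Nat.card K := by omega
    rw [e]
    zify
    rw [h1]
    ring
  · rw [hK'card, hQq]
  · rw [eq_bot_iff]
    intro x hx
    rw [Subgroup.mem_bot]
    by_contra hx1
    exact off_not_mem (hQoff x hx.1 hx1) hx.2
  · apply le_antisymm
    · intro g hg
      obtain ⟨a, ha, w, hw, rfl⟩ := hQnorm g hg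
      exact Subgroup.mul_mem_sup ha hw
    · exact sup_le Subgroup.le_normalizer hK'N
  · intro X hXD hXbot
    refine ⟨by rw [key X hXD hXbot, key K' le_rfl hK'bot], s', h'.hs, h'.hsK, h'.hinv, ?_⟩
    rw [key K' le_rfl hK'bot, h'.hH]

end Cfsg.Agent.Lib.Helper46.BSW
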