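import Mathlib
import Cfsg.Agent.Lib.Helper10.BWDefs
import Cfsg.Agent.Lib.Helper10.BR1
import Cfsg.Agent.Lib.Helper5.BRL4
import Cfsg.Agent.Lib.Helper73.BRI1

/-!
# S0997 case B2 (project BW, helper10): piece BW-PS1

`Σ_{u ∈ P} θ(u) = p` for the exceptional character `θ`.
-/

set_option autoImplicit false
set_option linter.style.haveILetI false
set_option linter.unusedSectionVars false

namespace Cfsg.Agent.Lib.Helper10.BW

open Cfsg
open Cfsg.Agent.Lib.Helper83 (trivIrr)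
open Cfsg.Agent.Lib.Helper10.BR (psum)
open scoped ComplexConjugate

universe u

variable {G : Type u} [Group G] [Fintype G]

variable {p e : ℕ} {P : Subgroup G} {θ θ' : IrrCharacter G}
  {Xp Xm D : Finset (IrrCharacter G)}

/-- `θ(x)` is real with `θ(x)² = θ(x) + e/2` on `P \ {1}` -/
theorem ps1_conj (h : VTab G p e P θ θ' Xp Xm D) (x : G) (hx : x ∈ P) (hx1 : x ≠ 1) :
    (θ : G → ℂ) x * conj ((θ : G → ℂ) x) = (θ : G → ℂ) x + (e : ℂ) / 2 := by
  have hsq := h.sq x hx hx1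
  have hpe : (p : ℂ) = 2 * (e : ℂ) + 1 := by
    rw [h.hpe]
    push_cast
    ring
  obtain ⟨r, hr⟩ : ∃ r : ℝ, (r : ℂ) ^ 2 = (p : ℂ) :=
    ⟨Real.sqrt p, by
      rw [← Complex.ofReal_pow, Real.sq_sqrt (Nat.cast_nonneg p)]
      simp⟩
  have hfac : (2 * (θ : G → ℂ) x - 1 - r) * (2 * (θ : G → ℂ) x - 1 + r) = 0 := by
    linear_combination hsq - hr
  have hreal : conj (2 * (θ : G → ℂ) x - 1) = 2 * (θ : G → ℂ) x - 1 := by
    rcases mul_eq_zero.1 hfac with h1 | h1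
    · have h2 : 2 * (θ : G → ℂ) x - 1 = (r : ℂ) := by linear_combination h1
      rw [h2, Complex.conj_ofReal]
    · have h2 : 2 * (θ : G → ℂ) x - 1 = ((-r : ℝ) : ℂ) := by
        push_cast
        linear_combination h1
      rw [h2, Complex.conj_ofReal]
  have hc : conj ((θ : G → ℂ) x) = (θ : G → ℂ) x := by
    have h3 : conj (2 * (θ : G → ℂ) x - 1) = 2 * conj ((θ : G → ℂ) x) - 1 := by
      simp only [map_sub, map_mul, map_one, map_ofNat]
    rw [h3] at hreal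
    linear_combination (1 / 2 : ℂ) * hreal
  rw [hc]
  linear_combination (1 / 4 : ℂ) * hsq + (1 / 4 : ℂ) * hpe

/-- splitting a sum over `P` at the identity -/
theorem ps1_split (P : Subgroup G) [Fintype P] [DecidableEq P] (f : G → ℂ) :
    psum P f 1 = f 1 + ∑ u ∈ (Finset.univ.erase (1 : P)), f (u : G) := by
  rw [Cfsg.Agent.Lib.Helper10.BR.psum_eq_sum,
    ← Finset.add_sum_erase Finset.univ _ (Finset.mem_univ (1 : P))]
  simp only [one_mul, Subgroup.coe_one]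

/-- the multiplicity of the trivial character of `P` in `θ` is at least one -/
theorem ps1_ge (h : VTab G p e P θ θ' Xp Xm D) (N : ℕ)
    (hN : psum P (θ : G → ℂ) 1 = (Nat.card P : ℂ) * (N : ℂ)) : 1 ≤ N := by
  classical
  haveI : Fintype P := Fintype.ofFinite P
  haveI : Fact p.Prime := ⟨h.hp⟩
  have hp0 : 0 < p := h.hp.pos
  have hpe : (p : ℂ) = 2 * (e : ℂ) + 1 := by
    rw [h.hpe]
    push_cast
    ring
  have hcardS : ((Finset.univ.erase (1 : P)).card : ℂ) = 2 * (e : ℂ) := by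
    rw [Finset.card_erase_of_mem (Finset.mem_univ _), Finset.card_univ,
      ← Nat.card_eq_fintype_card, h.cardP, h.hpe]
    push_cast
    ring
  have hmem : ∀ u ∈ Finset.univ.erase (1 : P), ((u : P) : G) ∈ P ∧ ((u : P) : G) ≠ 1 := by
    intro u hu
    refine ⟨u.2, fun h1 => ?_⟩
    exact (Finset.ne_of_mem_erase hu) (Subtype.ext h1)
  -- abelian
  have hab : ∀ a ∈ P, ∀ b ∈ P, a * b = b * a := by
    haveI : IsCyclic P := isCyclic_of_prime_card h.cardP
    obtain ⟨g, hg⟩ := IsCyclic.exists_generator (α := ↥P)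
    intro a ha b hb
    obtain ⟨i, hi⟩ := Subgroup.mem_zpowers_iff.1 (hg ⟨a, ha⟩)
    obtain ⟨j, hj⟩ := Subgroup.mem_zpowers_iff.1 (hg ⟨b, hb⟩)
    have h1 : (⟨a, ha⟩ : P) * ⟨b, hb⟩ = ⟨b, hb⟩ * ⟨a, ha⟩ := by
      rw [← hi, ← hj]
      exact zpow_mul_comm g i j
    exact congrArg Subtype.val h1
  have hge := Cfsg.Agent.Lib.Helper10.BR.abelian_norm_ge P hab (θ : G → ℂ)
    (Cfsg.Agent.Lib.Helper10.BR.isChar_irr θ)
  have hA := ps1_split P (θ : G → ℂ)
  rw [h.degθ, hN, h.cardP] at hA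
  have hB := ps1_split P (fun g => (θ : G → ℂ) g * conj ((θ : G → ℂ) g))
  have hsum : ∑ u ∈ Finset.univ.erase (1 : P),
      (θ : G → ℂ) (u : G) * conj ((θ : G → ℂ) (u : G)) =
      ∑ u ∈ Finset.univ.erase (1 : P), (θ : G → ℂ) (u : G) + 2 * (e : ℂ) * ((e : ℂ) / 2) := by
    rw [← hcardS, ← nsmul_eq_mul, ← Finset.sum_const, ← Finset.sum_add_distrib]
    exact Finset.sum_congr rfl fun u hu => ps1_conj h _ (hmem u hu).1 (hmem u hu).2
  have hB' : psum P (fun g => (θ : G → ℂ) g * conj ((θ : G → ℂ) g)) 1 =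
      ((p * (e + N) : ℕ) : ℂ) := by
    rw [hB, hsum, h.degθ]
    have h1 : conj ((e : ℂ) + 1) = (e : ℂ) + 1 := by
      simp only [map_add, map_natCast, map_one]
    rw [h1]
    push_cast
    linear_combination (-1 : ℂ) * hA - (e : ℂ) * hpe
  rw [hB', h.degθ, h.cardP] at hge
  have h2 : (((e : ℂ) + 1).re) = ((e + 1 : ℕ) : ℝ) := by simp
  rw [h2, Complex.natCast_re] at hge
  have h3 : (e + 1) * p ≤ p * (e + N) := by exact_mod_cast hge
  have h4 : p * (e + 1) ≤ p * (e + N) := by rwa [mul_comm] at h3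
  have h5 := Nat.le_of_mul_le_mul_left h4 hp0
  omega

/-- BW-PS1 -/
theorem psum_one (h : VTab G p e P θ θ' Xp Xm D) : psum P (θ : G → ℂ) 1 = (p : ℂ) := by
  classical
  haveI : Fintype P := Fintype.ofFinite P
  have hp0 : 0 < p := h.hp.pos
  have hpe : (p : ℂ) = 2 * (e : ℂ) + 1 := by
    rw [h.hpe]
    push_cast
    ring
  obtain ⟨N, hN⟩ := Cfsg.Agent.Lib.Helper10.BR.BRI1aux.psum_nat P θ
  obtain ⟨N', hN'⟩ := Cfsg.Agent.Lib.Helper10.BR.BRI1aux.psum_nat P θ'
  have h1 := ps1_ge h N hN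
  have h1' := ps1_ge h.symm N' hN'
  have hcardS : ((Finset.univ.erase (1 : P)).card : ℂ) = 2 * (e : ℂ) := by
    rw [Finset.card_erase_of_mem (Finset.mem_univ _), Finset.card_univ,
      ← Nat.card_eq_fintype_card, h.cardP, h.hpe]
    push_cast
    ring
  have hmem : ∀ u ∈ Finset.univ.erase (1 : P), ((u : P) : G) ∈ P ∧ ((u : P) : G) ≠ 1 := by
    intro u hu
    refine ⟨u.2, fun h1 => ?_⟩
    exact (Finset.ne_of_mem_erase hu) (Subtype.ext h1)
  have hA := ps1_split P (θ : G → ℂ)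
  have hA' := ps1_split P (θ' : G → ℂ)
  have hsum : ∑ u ∈ Finset.univ.erase (1 : P), (θ : G → ℂ) (u : G) +
      ∑ u ∈ Finset.univ.erase (1 : P), (θ' : G → ℂ) (u : G) = 2 * (e : ℂ) := by
    rw [← Finset.sum_add_distrib, ← hcardS, ← mul_one ((Finset.univ.erase (1 : P)).card : ℂ),
      ← nsmul_eq_mul, ← Finset.sum_const]
    exact Finset.sum_congr rfl fun u hu => h.sumθ _ (hmem u hu).1 (hmem u hu).2
  rw [h.degθ, hN, h.cardP] at hA
  rw [h.degθ', hN', h.cardP] at hA'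
  have htot : ((p * (N + N') : ℕ) : ℂ) = ((p * 2 : ℕ) : ℂ) := by
    push_cast
    linear_combination hA + hA' + hsum - 2 * hpe
  have h2 : p * (N + N') = p * 2 := Nat.cast_injective htot
  have h3 : N + N' = 2 := Nat.eq_of_mul_eq_mul_left hp0 h2
  have h4 : N = 1 := by omega
  rw [hN, h.cardP, h4]
  simp

end Cfsg.Agent.Lib.Helper10.BW
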