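import Mathlib
import Cfsg.Prelude.Def_Solvable
import Cfsg.Agent.Lib.Helper89.BaerP1
import Cfsg.Agent.Lib.Helper21.BaerP4
import Cfsg.Agent.Lib.Helper21.BaerP5

set_option autoImplicit false

/-!
# Piece P8b of S4125 (helper80's job board): the mixed case, step 1
-/

namespace Cfsg.Agent.Lib.Helper19

open Cfsg.Agent.Lib.Helper89 Cfsg.Agent.Lib.Helper21

variable {G : Type*} [Group G] [Finite G]

namespace BaerP8b

/-- a subgroup of index prime to `q` contains every normal `q`-subgroup -/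
theorem normal_pgroup_le_of_index_coprime (q : ℕ) [Fact q.Prime] (O C : Subgroup G) [O.Normal]
    (hO : IsPGroup q O) (hC : ¬ q ∣ C.index) : O ≤ C := by
  obtain ⟨x, hx⟩ := hO.nonempty_fixed_point_of_prime_not_dvd_card (G ⧸ C) hC
  induction x using QuotientGroup.induction_on with
  | H g =>
    intro o ho
    have hmem : g * o * g⁻¹ ∈ O := Subgroup.Normal.conj_mem inferInstance o ho g
    have h1 := hx ⟨g * o * g⁻¹, hmem⟩
    have h2 : ((g * o * g⁻¹ * g : G) : G ⧸ C) = (g : G ⧸ C) := h1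
    rw [QuotientGroup.eq] at h2
    have h3 : (g * o * g⁻¹ * g)⁻¹ * g = o⁻¹ := by group
    rw [h3] at h2
    exact (Subgroup.inv_mem_iff _).1 h2

theorem pCore_normal_aux (q : ℕ) : (Cfsg.pCore q G).Normal :=
  Subgroup.sSup_normal _ (fun _ hK => hK.1)

theorem pCore_isPGroup_aux (q : ℕ) : IsPGroup q (Cfsg.pCore q G) :=
  Sylow.sSup_of_normal _ (fun _ hK => hK.2) (fun _ hK => hK.1)

theorem index_inf_of_coprime (A B : Subgroup G) (h : Nat.Coprime A.index B.index) :
    (A ⊓ B).index = A.index * B.index := by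
  have h1 : A.index ∣ (A ⊓ B).index := Subgroup.index_dvd_of_le inf_le_left
  have h2 : B.index ∣ (A ⊓ B).index := Subgroup.index_dvd_of_le inf_le_right
  have h3 := Nat.Coprime.mul_dvd_of_dvd_of_dvd h h1 h2
  have h4 : (A ⊓ B).index ≠ 0 := Subgroup.index_ne_zero_of_finite
  exact Nat.le_antisymm Subgroup.index_inf_le (Nat.le_of_dvd (Nat.pos_of_ne_zero h4) h3)

end BaerP8b

open BaerP8b in
theorem mem_pCore_of_mixed (q : ℕ) [Fact q.Prime]
    (hBaer : ∀ x : G, (∃ k : ℕ, orderOf x = q ^ k) → ∃ (r : ℕ) (a : ℕ), r.Prime ∧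
      (Subgroup.centralizer ({x} : Set G)).index = r ^ a)
    (y : G) (hy : ∃ k : ℕ, orderOf y = q ^ k)
    (hyi : ∃ b : ℕ, (Subgroup.centralizer ({y} : Set G)).index = q ^ b)
    (hyn : Subgroup.centralizer ({y} : Set G) ≠ ⊤)
    (w : G) (hw : ∃ k : ℕ, orderOf w = q ^ k) : w ∈ Cfsg.pCore q G := by
  have hq : q.Prime := Fact.out
  obtain ⟨r, a, hr, hwi⟩ := hBaer w hw
  by_cases hrq : r = q
  · subst hrq
    exact qelt_mem_pCore_of_qindex r w hw ⟨a, hwi⟩
  have hyO : y ∈ Cfsg.pCore q G := qelt_mem_pCore_of_qindex q y hy hyi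
  haveI := pCore_normal_aux (G := G) q
  have hOC : Cfsg.pCore q G ≤ Subgroup.centralizer ({w} : Set G) := by
    apply normal_pgroup_le_of_index_coprime q _ _ (pCore_isPGroup_aux q)
    rw [hwi]
    intro h
    exact hrq ((Nat.prime_dvd_prime_iff_eq hq hr).1 (hq.dvd_of_dvd_pow h)).symm
  have hcomm : w * y = y * w := by
    have := hOC hyO
    rw [Subgroup.mem_centralizer_iff] at this
    exact this w rfl
  have hwy : ∃ k : ℕ, orderOf (w * y) = q ^ k := by
    obtain ⟨k1, hk1⟩ := hw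
    obtain ⟨k2, hk2⟩ := hy
    have h1 : (w * y) ^ (q ^ (k1 + k2)) = 1 := by
      have hc : Commute w y := hcomm
      rw [hc.mul_pow]
      have e1 : w ^ q ^ (k1 + k2) = 1 := by
        rw [pow_add, pow_mul, ← hk1, pow_orderOf_eq_one, one_pow]
      have e2 : y ^ q ^ (k1 + k2) = 1 := by
        rw [pow_add, mul_comm, pow_mul, ← hk2, pow_orderOf_eq_one, one_pow]
      rw [e1, e2, one_mul]
    obtain ⟨k, -, hk⟩ := (Nat.dvd_prime_pow hq).1 (orderOf_dvd_of_pow_eq_one h1)
    exact ⟨k, hk⟩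
  obtain ⟨s, c, hs, hwyi⟩ := hBaer (w * y) hwy
  obtain ⟨b, hyi'⟩ := hyi
  have hdvd : s ^ c ∣ r ^ a * q ^ b := by
    rw [← hwyi, ← hwi, ← hyi']
    rw [← index_inf_of_coprime _ _ (by
      rw [hwi, hyi']
      exact Nat.Coprime.pow _ _ ((Nat.coprime_primes hr hq).2 hrq))]
    apply Subgroup.index_dvd_of_le
    intro g hg
    rw [Subgroup.mem_inf, Subgroup.mem_centralizer_iff, Subgroup.mem_centralizer_iff] at hg
    rw [Subgroup.mem_centralizer_iff]
    intro h hh
    rw [Set.mem_singleton_iff] at hh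
    subst hh
    have h1 := hg.1 w rfl
    have h2 := hg.2 y rfl
    rw [mul_assoc, h2, ← mul_assoc, h1, mul_assoc]
  -- the index of `C(w y)` is a power of `r` or a power of `q`
  have hcases : (∃ c' : ℕ, (Subgroup.centralizer ({w * y} : Set G)).index = q ^ c') ∨
      (∃ c' : ℕ, (Subgroup.centralizer ({w * y} : Set G)).index = r ^ c') := by
    rcases Nat.eq_zero_or_pos c with hc0 | hcpos
    · left
      exact ⟨0, by rw [hwyi, hc0, pow_zero, pow_zero]⟩
    · have h1 : s ∣ r ^ a * q ^ b := dvd_trans (dvd_pow_self s hcpos.ne') hdvd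
      rcases (Nat.Prime.dvd_mul hs).1 h1 with h | h
      · right
        have := (Nat.prime_dvd_prime_iff_eq hs hr).1 (hs.dvd_of_dvd_pow h)
        exact ⟨c, by rw [hwyi, this]⟩
      · left
        have := (Nat.prime_dvd_prime_iff_eq hs hq).1 (hs.dvd_of_dvd_pow h)
        exact ⟨c, by rw [hwyi, this]⟩
  rcases hcases with ⟨c', hc'⟩ | ⟨c', hc'⟩
  · -- power of `q`
    obtain ⟨S, hSn, hSp, hS⟩ := pair_lemma q r hq hr (Ne.symm hrq) y w hcomm.symm ⟨b, hyi'⟩
      ⟨a, hwi⟩ ⟨c', by rw [← hcomm]; exact hc'⟩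
    haveI := hSn
    exact mem_pCore_of_comm_mem q S hSp w hw hS
  · -- power of `r`
    exfalso
    obtain ⟨S, hSn, hSp, hS⟩ := pair_lemma r q hr hq hrq w y hcomm ⟨a, hwi⟩ ⟨b, hyi'⟩ ⟨c', hc'⟩
    haveI := hSn
    haveI : Fact r.Prime := ⟨hr⟩
    obtain ⟨k, hk⟩ := index_centralizer_of_comm_mem r q hrq S hSp y hy hS
    have h1 : (Subgroup.centralizer ({y} : Set G)).index = 1 := by
      rcases Nat.eq_zero_or_pos k with hk0 | hkpos
      · rw [hk, hk0, pow_zero]
      · exfalso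
        have h2 : r ∣ q ^ b := by
          rw [← hyi', hk]
          exact dvd_pow_self r hkpos.ne'
        exact hrq ((Nat.prime_dvd_prime_iff_eq hr hq).1 (hr.dvd_of_dvd_pow h2))
    exact hyn (Subgroup.index_eq_one.1 h1)

end Cfsg.Agent.Lib.Helper19
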