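import Mathlib
import Cfsg.Agent.S0727

/-!
# S5748, piece PERM (helper19 for helper80): transport of S0727 to a faithful action
-/

set_option autoImplicit false
set_option linter.style.haveILetI false

namespace Cfsg.Agent.Lib.Helper19.CTPERM

/-- piece PERM -/
theorem perm_to_PGL {G : Type*} [Group G] [Finite G] {Ω : Type*} [MulAction G Ω] [Finite Ω]
    [FaithfulSMul G Ω] {f : ℕ} (hf : 1 ≤ f) (hΩ : Nat.card Ω = 2 ^ f + 1)
    (h3 : MulAction.IsMultiplyPretransitive G Ω 3)
    (hsharp : ∀ x : Fin 3 ↪ Ω, MulAction.stabilizer G x = ⊥) :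
    ∃ (F : Type) (_ : Field F) (_ : Fintype F), Fintype.card F = 2 ^ f ∧
      Nonempty (G ≃* Matrix.ProjGenLinGroup (Fin 2) F) := by
  classical
  letI : Fintype Ω := Fintype.ofFinite Ω
  have hinj : Function.Injective (MulAction.toPermHom G Ω) := MulAction.toPerm_injective
  obtain ⟨G', hG'⟩ : ∃ G' : Subgroup (Equiv.Perm Ω), G' = (MulAction.toPermHom G Ω).range :=
    ⟨_, rfl⟩
  subst hG'
  obtain ⟨e, he⟩ : ∃ e : G ≃* (MulAction.toPermHom G Ω).range,
      ∀ (g : G) (a : Ω), (e g) • a = g • a :=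
    ⟨MonoidHom.ofInjective hinj, fun g a => rfl⟩
  have h3' : MulAction.IsMultiplyPretransitive (MulAction.toPermHom G Ω).range Ω 3 := by
    refine ⟨fun x y => ?_⟩
    obtain ⟨g, hg⟩ := MulAction.exists_smul_eq G x y
    refine ⟨e g, ?_⟩
    ext i
    have h1 : (g • x) i = y i := congrArg (fun z : Fin 3 ↪ Ω => z i) hg
    have h2 : g • x i = y i := h1
    show e g • x i = y i
    rw [he, h2]
  have hsharp' : ∀ x : Fin 3 ↪ Ω,
      MulAction.stabilizer (MulAction.toPermHom G Ω).range x = ⊥ := by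
    intro x
    rw [eq_bot_iff]
    intro g' hg'
    obtain ⟨g, rfl⟩ := e.surjective g'
    have hg : g ∈ MulAction.stabilizer G x := by
      rw [MulAction.mem_stabilizer_iff] at hg' ⊢
      ext i
      have h1 : (e g • x) i = x i := congrArg (fun z : Fin 3 ↪ Ω => z i) hg'
      have h2 : e g • x i = x i := h1
      show g • x i = x i
      rw [← he, h2]
    rw [hsharp x, Subgroup.mem_bot] at hg
    rw [hg, map_one]
    exact Subgroup.mem_bot.2 rfl
  obtain ⟨F, hF1, hF2, hcard, ⟨ψ⟩⟩ := Cfsg.Agent.S0727.result hf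
    (by rw [← hΩ, Nat.card_eq_fintype_card]) (MulAction.toPermHom G Ω).range h3' hsharp'
  exact ⟨F, hF1, hF2, hcard, ⟨e.trans ψ⟩⟩

end Cfsg.Agent.Lib.Helper19.CTPERM
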