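import Mathlib

/-!
# Iterated cores of two conjugate subgroups: abstract lemmas (piece CS of S5751, helper36's board)
-/

set_option autoImplicit false

namespace Cfsg.Agent.Lib.Helper36.CoreSeq

variable {G : Type*} [Group G]

/-- one step of the iterated core sequence: the core in `M` of `X ⊓ M` -/
def step (M X : Subgroup G) : Subgroup G := (X.subgroupOf M).normalCore.map M.subtype

/-- CS1 -/
theorem mem_step (M X : Subgroup G) (x : G) :
    x ∈ step M X ↔ x ∈ M ∧ ∀ p ∈ M, p * x * p⁻¹ ∈ X := by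
  unfold step
  rw [Subgroup.mem_map]
  constructor
  · rintro ⟨y, hy, rfl⟩
    refine ⟨y.2, fun p hp => ?_⟩
    have h1 : (⟨p, hp⟩ : M) * y * (⟨p, hp⟩ : M)⁻¹ ∈ X.subgroupOf M := hy ⟨p, hp⟩
    exact Subgroup.mem_subgroupOf.1 h1
  · rintro ⟨hx, h⟩
    refine ⟨⟨x, hx⟩, ?_, rfl⟩
    intro b
    rw [Subgroup.mem_subgroupOf]
    exact h b.1 b.2

/-- the hypotheses on the two sequences -/
structure Seq (M₁ M₂ : Subgroup G) (n : G) (A B : ℕ → Subgroup G) : Prop where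
  conj : M₂ = M₁.map (MulAut.conj n).toMonoidHom
  sq : n * n ∈ M₁
  A0 : A 0 = M₁
  B0 : B 0 = M₂
  As : ∀ i, A (i + 1) = ((A i ⊓ B i).subgroupOf M₁).normalCore.map M₁.subtype
  Bs : ∀ i, B (i + 1) = ((A i ⊓ B i).subgroupOf M₂).normalCore.map M₂.subtype

variable {M₁ M₂ : Subgroup G} {n : G} {A B : ℕ → Subgroup G}

private theorem Seq.mem_A_succ (h : Seq M₁ M₂ n A B) (i : ℕ) (x : G) :
    x ∈ A (i + 1) ↔ x ∈ M₁ ∧ ∀ p ∈ M₁, p * x * p⁻¹ ∈ A i ⊓ B i := by
  rw [h.As i]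
  exact mem_step M₁ (A i ⊓ B i) x

private theorem Seq.mem_B_succ (h : Seq M₁ M₂ n A B) (i : ℕ) (x : G) :
    x ∈ B (i + 1) ↔ x ∈ M₂ ∧ ∀ p ∈ M₂, p * x * p⁻¹ ∈ A i ⊓ B i := by
  rw [h.Bs i]
  exact mem_step M₂ (A i ⊓ B i) x

private theorem Seq.mem_M₂ (h : Seq M₁ M₂ n A B) (x : G) : x ∈ M₂ ↔ n⁻¹ * x * n ∈ M₁ := by
  rw [h.conj, Subgroup.mem_map]
  constructor
  · rintro ⟨y, hy, rfl⟩
    have : n⁻¹ * (MulAut.conj n).toMonoidHom y * n = y := by
      simp [MulAut.conj_apply, mul_assoc]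
    rw [this]
    exact hy
  · intro hx
    refine ⟨n⁻¹ * x * n, hx, ?_⟩
    simp [MulAut.conj_apply, mul_assoc]

/-- CS2 -/
theorem Seq.A_le (h : Seq M₁ M₂ n A B) (i : ℕ) : A i ≤ M₁ := by
  cases i with
  | zero => rw [h.A0]
  | succ i =>
    intro x hx
    exact ((h.mem_A_succ i x).1 hx).1

private theorem Seq.A_succ_le (h : Seq M₁ M₂ n A B) (i : ℕ) : A (i + 1) ≤ A i ⊓ B i := by
  intro x hx
  have := ((h.mem_A_succ i x).1 hx).2 1 (Subgroup.one_mem _)
  simpa using this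

/-- CS3 -/
theorem Seq.A_anti (h : Seq M₁ M₂ n A B) {i k : ℕ} (hik : i ≤ k) : A k ≤ A i := by
  induction hik with
  | refl => exact le_rfl
  | step _ ih => exact le_trans (le_trans (h.A_succ_le _) inf_le_left) ih

/-- CS4 -/
theorem Seq.A_normal (h : Seq M₁ M₂ n A B) (i : ℕ) (p : G) (hp : p ∈ M₁) (x : G) (hx : x ∈ A i) :
    p * x * p⁻¹ ∈ A i := by
  cases i with
  | zero =>
    rw [h.A0] at hx ⊢
    exact Subgroup.mul_mem _ (Subgroup.mul_mem _ hp hx) (Subgroup.inv_mem _ hp)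
  | succ i =>
    rw [h.mem_A_succ] at hx ⊢
    refine ⟨Subgroup.mul_mem _ (Subgroup.mul_mem _ hp hx.1) (Subgroup.inv_mem _ hp), ?_⟩
    intro q hq
    have := hx.2 (q * p) (Subgroup.mul_mem _ hq hp)
    have e : q * (p * x * p⁻¹) * q⁻¹ = q * p * x * (q * p)⁻¹ := by group
    rw [e]
    exact this

/-- CS5 -/
theorem Seq.mem_B_iff (h : Seq M₁ M₂ n A B) (i : ℕ) (x : G) : x ∈ B i ↔ n⁻¹ * x * n ∈ A i := by
  induction i generalizing x with
  | zero => rw [h.B0, h.A0, h.mem_M₂]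
  | succ i ih =>
    have hnn : n * n ∈ M₁ := h.sq
    have hnn' : (n * n)⁻¹ ∈ M₁ := Subgroup.inv_mem _ hnn
    -- the key equivalence
    have key : ∀ y : G, n * y * n⁻¹ ∈ A i ⊓ B i ↔ y ∈ A i ⊓ B i := by
      intro y
      have ea : n * y * n⁻¹ ∈ B i ↔ y ∈ A i := by
        rw [ih]
        have : n⁻¹ * (n * y * n⁻¹) * n = y := by group
        rw [this]
      have eb : n * y * n⁻¹ ∈ A i ↔ y ∈ B i := by
        rw [ih y]
        constructor
        · intro h1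
          have := h.A_normal i _ hnn' _ h1
          have e : (n * n)⁻¹ * (n * y * n⁻¹) * ((n * n)⁻¹)⁻¹ = n⁻¹ * y * n := by group
          rw [e] at this
          exact this
        · intro h1
          have := h.A_normal i _ hnn _ h1
          have e : n * n * (n⁻¹ * y * n) * (n * n)⁻¹ = n * y * n⁻¹ := by group
          rw [e] at this
          exact this
      rw [Subgroup.mem_inf, Subgroup.mem_inf, ea, eb]
      exact and_comm
    rw [h.mem_B_succ, h.mem_A_succ, h.mem_M₂]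
    constructor
    · rintro ⟨hx, hall⟩
      refine ⟨hx, fun p hp => ?_⟩
      have hm : n * p * n⁻¹ ∈ M₂ := by
        rw [h.mem_M₂]
        have : n⁻¹ * (n * p * n⁻¹) * n = p := by group
        rw [this]
        exact hp
      have := hall _ hm
      have e : n * p * n⁻¹ * x * (n * p * n⁻¹)⁻¹ = n * (p * (n⁻¹ * x * n) * p⁻¹) * n⁻¹ := by group
      rw [e] at this
      exact (key _).1 this
    · rintro ⟨hx, hall⟩
      refine ⟨hx, fun m hm => ?_⟩
      have hp : n⁻¹ * m * n ∈ M₁ := (h.mem_M₂ m).1 hm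
      have := (key _).2 (hall _ hp)
      have e : n * (n⁻¹ * m * n * (n⁻¹ * x * n) * (n⁻¹ * m * n)⁻¹) * n⁻¹ = m * x * m⁻¹ := by group
      rw [e] at this
      exact this

/-- CS6: lower bounds for `A` -/
theorem Seq.le_A_succ (h : Seq M₁ M₂ n A B) (i : ℕ) (Q : Subgroup G) (hQA : Q ≤ A i)
    (hQB : Q ≤ B i) (hQ : ∀ p ∈ M₁, ∀ q ∈ Q, p * q * p⁻¹ ∈ Q) : Q ≤ A (i + 1) := by
  intro q hq
  rw [h.mem_A_succ]
  refine ⟨h.A_le i (hQA hq), fun p hp => ?_⟩
  have := hQ p hp q hq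
  exact ⟨hQA this, hQB this⟩

/-- CS7: the vertices fixed by `A i` -/
theorem Seq.fix_one (h : Seq M₁ M₂ n A B) : ∀ x ∈ A 0, (1 : G)⁻¹ * x * 1 ∈ M₁ := by
  intro x hx
  rw [h.A0] at hx
  simpa using hx

theorem Seq.fix_mul_mem (h : Seq M₁ M₂ n A B) (i : ℕ) (g p : G) (hp : p ∈ M₁)
    (hg : ∀ x ∈ A i, g⁻¹ * x * g ∈ M₁) : ∀ x ∈ A i, (p * g)⁻¹ * x * (p * g) ∈ M₁ := by
  intro x hx
  have h1 := h.A_normal i p⁻¹ (Subgroup.inv_mem _ hp) x hx
  have h2 := hg _ h1
  have e : g⁻¹ * (p⁻¹ * x * p⁻¹⁻¹) * g = (p * g)⁻¹ * x * (p * g) := by group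
  rw [e] at h2
  exact h2

theorem Seq.fix_mul_n (h : Seq M₁ M₂ n A B) (i : ℕ) (g : G)
    (hg : ∀ x ∈ A i, g⁻¹ * x * g ∈ M₁) : ∀ x ∈ A (i + 1), (n * g)⁻¹ * x * (n * g) ∈ M₁ := by
  intro x hx
  have hxB : x ∈ B i := (h.A_succ_le i hx).2
  have h1 := (h.mem_B_iff i x).1 hxB
  have h2 := hg _ h1
  have e : g⁻¹ * (n⁻¹ * x * n) * g = (n * g)⁻¹ * x * (n * g) := by group
  rw [e] at h2
  exact h2

/-- CS8: the core of `M₁` in the whole group lies in every term -/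
theorem Seq.core_le (h : Seq M₁ M₂ n A B) (i : ℕ) : M₁.normalCore ≤ A i := by
  have hC : M₁.normalCore ≤ M₁ := Subgroup.normalCore_le M₁
  have hconj : ∀ g x : G, x ∈ M₁.normalCore → g * x * g⁻¹ ∈ M₁.normalCore :=
    fun g x hx => Subgroup.Normal.conj_mem inferInstance x hx g
  have hAB : ∀ j : ℕ, M₁.normalCore ≤ A j → M₁.normalCore ≤ B j := by
    intro j hj x hx
    rw [h.mem_B_iff]
    have := hconj n⁻¹ x hx
    rw [inv_inv] at this
    exact hj this
  induction i with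
  | zero => rw [h.A0]; exact hC
  | succ i ih =>
    intro x hx
    rw [h.mem_A_succ]
    refine ⟨hC hx, fun p _ => ?_⟩
    have := hconj p x hx
    exact ⟨ih this, hAB i ih this⟩

/-- CS9: the two subgroups are distinct -/
theorem Seq.ne (h : Seq M₁ M₂ n A B) (hco : IsCoatom M₁) (hn : n ∉ M₁) (hcore : M₁.normalCore = ⊥)
    (hne : M₁ ≠ ⊥) : M₁ ≠ M₂ := by
  intro heq
  -- `n` normalizes `M₁`
  have hnorm : n ∈ Subgroup.normalizer (M₁ : Set G) := by
    rw [Subgroup.mem_normalizer_iff]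
    intro x
    constructor
    · intro hx
      have : n * x * n⁻¹ ∈ M₂ := by
        rw [h.mem_M₂]
        have e : n⁻¹ * (n * x * n⁻¹) * n = x := by group
        rw [e]
        exact hx
      rw [← heq] at this
      exact this
    · intro hx
      rw [heq] at hx
      have := (h.mem_M₂ _).1 hx
      have e : n⁻¹ * (n * x * n⁻¹) * n = x := by group
      rw [e] at this
      exact this
  have hlt : M₁ < Subgroup.normalizer (M₁ : Set G) :=
    lt_of_le_of_ne Subgroup.le_normalizer (fun h0 => hn (h0 ▸ hnorm))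
  have htop := hco.2 _ hlt
  have hN : M₁.Normal := Subgroup.normalizer_eq_top_iff.1 htop
  have := Subgroup.normalCore_eq_self M₁
  rw [hcore] at this
  exact hne this.symm

end Cfsg.Agent.Lib.Helper36.CoreSeq
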