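import Mathlib
import Cfsg.Agent.Lib.Helper19.DkO
import Cfsg.Agent.Lib.Helper19.DkN
import Cfsg.Agent.S0799

set_option autoImplicit false

namespace Cfsg.Agent.Lib.Helper19.Dk

open Matrix Cfsg.Agent.S0809

section MxSec

variable {F : Type*} [Field F]

/-- maximality among the subgroups of `SL₂` -/
def Mx (L : Subgroup (S2 F)) : Prop :=
  L ≠ ⊤ ∧ ∀ L' : Subgroup (S2 F), L ≤ L' → L' = L ∨ L' = ⊤

theorem Lof_map_prj (L' : Subgroup (S2 F)) (hZ : Subgroup.center (S2 F) ≤ L') :
    Lof (L'.map (prj F)) = L' := by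
  ext g
  rw [mem_Lof]
  exact map_prj_mem L' hZ g

theorem mx_of_coatom (M : Subgroup (P2 F)) (hM : IsCoatom M) : Mx (Lof M) := by
  refine ⟨?_, ?_⟩
  · intro h
    apply hM.1
    rw [← map_Lof M, h]
    exact Subgroup.map_top_of_surjective _ prj_surj
  · intro L' hL'
    have hZ : Subgroup.center (S2 F) ≤ L' := (center_le_Lof M).trans hL'
    have h1 : M ≤ L'.map (prj F) := by
      rw [← map_Lof M]; exact Subgroup.map_mono hL'
    have h2 := Lof_map_prj L' hZ
    rcases hM.le_iff.1 h1 with h | h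
    · right
      rw [← h2, h]
      rfl
    · left
      rw [← h2, h]

theorem mx_map (L : Subgroup (S2 F)) (h : Mx L) (θ : S2 F ≃* S2 F) :
    Mx (L.map θ.toMonoidHom) := by
  have hsurj : Function.Surjective θ.toMonoidHom := θ.surjective
  have hinj : Function.Injective θ.toMonoidHom := θ.injective
  refine ⟨?_, ?_⟩
  · intro h1
    apply h.1
    have h2 := congrArg (Subgroup.comap θ.toMonoidHom) h1
    rwa [Subgroup.comap_map_eq_self_of_injective hinj, Subgroup.comap_top] at h2
  · intro L' hL'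
    have h1 : L ≤ L'.comap θ.toMonoidHom := Subgroup.map_le_iff_le_comap.1 hL'
    rcases h.2 _ h1 with h2 | h2
    · left
      rw [← h2, Subgroup.map_comap_eq_self_of_surjective hsurj]
    · right
      rw [← Subgroup.map_comap_eq_self_of_surjective hsurj L', h2]
      exact Subgroup.map_top_of_surjective _ hsurj

theorem ll_notMem_Bor : ll (1 : F) ∉ Bor F := by
  rw [mem_Bor, ll_10]
  exact one_ne_zero

theorem mx_ne_center (L : Subgroup (S2 F)) (h : Mx L) : L ≠ Subgroup.center (S2 F) := by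
  intro hL
  have h1 : L ≤ Bor F := by rw [hL]; exact center_le_Bor
  rcases h.2 _ h1 with h2 | h2
  · have h3 : uu (1 : F) ∈ Bor F := by rw [mem_Bor, uu_10]
    rw [h2, hL] at h3
    exact not_isSc_uu (1 : F) one_ne_zero ((isSc_iff_center _).2 h3)
  · apply ll_notMem_Bor (F := F)
    rw [h2]
    exact Subgroup.mem_top _

theorem normal_le_center [Fintype F] (h4 : 4 ≤ Fintype.card F) (T : Subgroup (S2 F))
    (hT : T.Normal) (hne : T ≠ ⊤) : T ≤ Subgroup.center (S2 F) := by
  haveI := simple_P2 (K := F) h4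
  have hn : (T.map (prj F)).Normal := Subgroup.Normal.map hT _ prj_surj
  rcases hn.eq_bot_or_eq_top with h | h
  · intro t ht
    rw [← ker_prj, MonoidHom.mem_ker]
    have : prj F t ∈ T.map (prj F) := Subgroup.mem_map_of_mem _ ht
    rw [h] at this
    exact Subgroup.mem_bot.1 this
  · exfalso
    -- T ⊔ Z = ⊤
    have hsup : T ⊔ Subgroup.center (S2 F) = ⊤ := by
      rw [eq_top_iff]
      intro g _
      have h1 : prj F g ∈ T.map (prj F) := by rw [h]; exact Subgroup.mem_top _
      obtain ⟨t, ht, hte⟩ := h1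
      have h2 : t⁻¹ * g ∈ Subgroup.center (S2 F) := by
        rw [← ker_prj, MonoidHom.mem_ker, map_mul, map_inv, hte, inv_mul_cancel]
      have : g = t * (t⁻¹ * g) := by group
      rw [this]
      exact Subgroup.mul_mem _ (Subgroup.mem_sup_left ht) (Subgroup.mem_sup_right h2)
    -- squares lie in T, so `uu b ∈ T`, `ll c ∈ T`
    have hsq : ∀ g : S2 F, g * g ∈ T := by
      intro g
      have hg : g ∈ T ⊔ Subgroup.center (S2 F) := by rw [hsup]; exact Subgroup.mem_top _
      rw [Subgroup.mem_sup_of_normal_right] at hg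
      obtain ⟨y, hy, z, hz, rfl⟩ := hg
      have hzs := (isSc_iff_center z).2 hz
      have e : y * z * (y * z) = y * y := by
        rw [mul_assoc, ← mul_assoc z y z, isSc_comm z hzs y, mul_assoc y z z, isSc_mul_self z hzs,
          mul_one]
      rw [e]
      exact T.mul_mem hy hy
    have h2 : (2 : F) ≠ 0 ∨ (2 : F) = 0 := (em _).symm
    rcases h2 with h2 | h2
    · apply hne
      apply gen_top
      · intro b
        have := hsq (uu (b / 2))
        rw [uu_mul] at this
        have e : b / 2 + b / 2 = b := by field_simp; ring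
        rwa [e] at this
      · intro c
        have := hsq (ll (c / 2))
        rw [ll_mul] at this
        have e : c / 2 + c / 2 = c := by field_simp; ring
        rwa [e] at this
    · -- characteristic two: the centre is trivial
      apply hne
      rw [← hsup]
      have hc : Subgroup.center (S2 F) = ⊥ := by
        rw [eq_bot_iff]
        intro z hz
        rw [Subgroup.mem_bot]
        rcases isSc_eq z ((isSc_iff_center z).2 hz) with h | h
        · exact h
        · rw [h]; exact negOne_eq_one h2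
      rw [hc, sup_bot_eq]

theorem mx_normalizer [Fintype F] (h4 : 4 ≤ Fintype.card F) (L : Subgroup (S2 F)) (h : Mx L)
    (hZ : Subgroup.center (S2 F) ≤ L) (g : S2 F) (hg : ∀ t ∈ L, g * t * g⁻¹ ∈ L) : g ∈ L := by
  have h1 : L ≤ Subgroup.normalizer (L : Set (S2 F)) := Subgroup.le_normalizer
  have h2 : g ∈ Subgroup.normalizer (L : Set (S2 F)) := (mem_normalizer_fin L g).2 hg
  rcases h.2 _ h1 with h3 | h3
  · rwa [h3] at h2
  · exfalso
    have hn : L.Normal := Subgroup.normalizer_eq_top_iff.1 h3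
    exact mx_ne_center L h (le_antisymm (normal_le_center h4 L hn h.1) hZ)

/-- a subgroup normalized by a maximal subgroup `L` and not contained in the centre is
contained in `L` (if it is abelian, or more generally proper and non-central) -/
theorem mx_contains [Fintype F] (h4 : 4 ≤ Fintype.card F) (L : Subgroup (S2 F)) (h : Mx L)
    (T : Subgroup (S2 F)) (hTn : ∀ ℓ ∈ L, ∀ t ∈ T, ℓ * t * ℓ⁻¹ ∈ T)
    (hTc : ¬ T ≤ Subgroup.center (S2 F))
    (hTab : ∀ a ∈ T, ∀ b ∈ T, a * b = b * a) (hF : ∃ a b : S2 F, a * b ≠ b * a) : T ≤ L := by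
  have h1 : L ≤ Subgroup.normalizer (T : Set (S2 F)) := by
    intro ℓ hℓ
    exact (mem_normalizer_fin T ℓ).2 (hTn ℓ hℓ)
  have h0 : T ≤ Subgroup.normalizer (T : Set (S2 F)) := Subgroup.le_normalizer
  rcases h.2 _ h1 with h3 | h3
  · rw [h3] at h0; exact h0
  · exfalso
    have hn : T.Normal := Subgroup.normalizer_eq_top_iff.1 h3
    apply hTc
    apply normal_le_center h4 T hn
    intro htop
    obtain ⟨a, b, hab⟩ := hF
    exact hab (hTab a (htop ▸ Subgroup.mem_top a) b (htop ▸ Subgroup.mem_top b))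

end MxSec

section CentOrder

variable {F : Type*} [Field F]

theorem conic_det (x : S2 F) (m s : F) (hs : s * (m ^ 2 + tr x * m + 1) = -(2 * m + tr x)) :
    (1 + s * m + s * x 0 0) * (1 + s * m + s * x 1 1) - (s * x 0 1) * (s * x 1 0) = 1 := by
  have hd := det2 x
  unfold tr at hs
  linear_combination s * hs + s ^ 2 * hd

/-- the rational point of the conic `α² + t α β + β² = 1` with parameter `m` -/
noncomputable def conicPt (x : S2 F) (m : F) (hm : m ^ 2 + tr x * m + 1 ≠ 0) : S2 F :=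
  mk2 (1 + (-(2 * m + tr x) / (m ^ 2 + tr x * m + 1)) * m
        + (-(2 * m + tr x) / (m ^ 2 + tr x * m + 1)) * x 0 0)
      ((-(2 * m + tr x) / (m ^ 2 + tr x * m + 1)) * x 0 1)
      ((-(2 * m + tr x) / (m ^ 2 + tr x * m + 1)) * x 1 0)
      (1 + (-(2 * m + tr x) / (m ^ 2 + tr x * m + 1)) * m
        + (-(2 * m + tr x) / (m ^ 2 + tr x * m + 1)) * x 1 1)
      (conic_det x m _ (div_mul_cancel₀ _ hm))

theorem conicPt_rep (x : S2 F) (m : F) (hm : m ^ 2 + tr x * m + 1 ≠ 0) :
    Rep x (conicPt x m hm) (1 + (-(2 * m + tr x) / (m ^ 2 + tr x * m + 1)) * m,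
      -(2 * m + tr x) / (m ^ 2 + tr x * m + 1)) :=
  ⟨rfl, rfl, rfl, rfl⟩

theorem rep_negOne (x : S2 F) : Rep x negOne (-1, 0) := by
  refine ⟨?_, ?_, ?_, ?_⟩ <;> simp [negOne]

theorem conicPt_inj (h2 : (2 : F) ≠ 0) (x : S2 F) (hx : ¬ IsSc x) (m m' : F)
    (hm : m ^ 2 + tr x * m + 1 ≠ 0) (hm' : m' ^ 2 + tr x * m' + 1 ≠ 0)
    (h : conicPt x m hm = conicPt x m' hm') : m = m' := by
  have h1 := rep_unique x _ hx _ _ (conicPt_rep x m hm) (h ▸ conicPt_rep x m' hm')
  have e2 : -(2 * m + tr x) / (m ^ 2 + tr x * m + 1)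
      = -(2 * m' + tr x) / (m' ^ 2 + tr x * m' + 1) := congrArg Prod.snd h1
  have e1 : 1 + (-(2 * m + tr x) / (m ^ 2 + tr x * m + 1)) * m
      = 1 + (-(2 * m' + tr x) / (m' ^ 2 + tr x * m' + 1)) * m' := congrArg Prod.fst h1
  rw [← e2] at e1
  by_cases hs : -(2 * m + tr x) / (m ^ 2 + tr x * m + 1) = 0
  · have hs' := hs
    rw [e2] at hs'
    rw [div_eq_zero_iff] at hs hs'
    have a1 : 2 * m + tr x = 0 := by
      rcases hs with hs | hs
      · linear_combination -hs
      · exact absurd hs hm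
    have a2 : 2 * m' + tr x = 0 := by
      rcases hs' with hs' | hs'
      · linear_combination -hs'
      · exact absurd hs' hm'
    have : 2 * (m - m') = 0 := by linear_combination a1 - a2
    rcases mul_eq_zero.1 this with h | h
    · exact absurd h h2
    · linear_combination h
  · have : (-(2 * m + tr x) / (m ^ 2 + tr x * m + 1)) * (m - m') = 0 := by
      linear_combination e1
    rcases mul_eq_zero.1 this with h | h
    · exact absurd h hs
    · linear_combination h

theorem conicPt_ne (h2 : (2 : F) ≠ 0) (x : S2 F) (hx : ¬ IsSc x) (m : F)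
    (hm : m ^ 2 + tr x * m + 1 ≠ 0) : conicPt x m hm ≠ negOne := by
  intro h
  have h1 := rep_unique x _ hx _ _ (conicPt_rep x m hm) (h ▸ rep_negOne x)
  have e2 : -(2 * m + tr x) / (m ^ 2 + tr x * m + 1) = 0 := congrArg Prod.snd h1
  have e1 : 1 + (-(2 * m + tr x) / (m ^ 2 + tr x * m + 1)) * m = -1 := congrArg Prod.fst h1
  rw [e2] at e1
  apply h2
  linear_combination e1

theorem card_centralizer_ge [Fintype F] (h2 : (2 : F) ≠ 0) (x : S2 F) (hx : ¬ IsSc x) :
    Fintype.card F - 1 ≤ Nat.card (Subgroup.centralizer ({x} : Set (S2 F))) := by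
  classical
  haveI : Fintype (S2 F) := Fintype.ofFinite _
  set R := Finset.univ.filter (fun m : F => m ^ 2 + tr x * m + 1 = 0) with hR
  have hRc : R.card ≤ 2 := by
    rcases R.eq_empty_or_nonempty with h | ⟨m₀, hm₀⟩
    · rw [h]; simp
    · have hsub : R ⊆ {m₀, -tr x - m₀} := by
        intro m hm
        rw [hR, Finset.mem_filter] at hm hm₀
        have : (m - m₀) * (m + m₀ + tr x) = 0 := by linear_combination hm.2 - hm₀.2
        rcases mul_eq_zero.1 this with h | h
        · have : m = m₀ := by linear_combination h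
          simp [this]
        · have : m = -tr x - m₀ := by linear_combination h
          simp [this]
      exact (Finset.card_le_card hsub).trans Finset.card_le_two
  let φ : F → S2 F := fun m =>
    if h : m ^ 2 + tr x * m + 1 = 0 then negOne else conicPt x m h
  have hφ : ∀ m (h : m ^ 2 + tr x * m + 1 ≠ 0), φ m = conicPt x m h := by
    intro m h
    simp only [φ, dif_neg h]
  have hnR : ∀ m, m ∈ Rᶜ → m ^ 2 + tr x * m + 1 ≠ 0 := by
    intro m hm
    rw [Finset.mem_compl, hR, Finset.mem_filter] at hm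
    intro h
    exact hm ⟨Finset.mem_univ _, h⟩
  have hinj : Set.InjOn φ (Rᶜ : Finset F) := by
    intro m hm m' hm' h
    have a := hnR m (Finset.mem_coe.1 hm)
    have a' := hnR m' (Finset.mem_coe.1 hm')
    rw [hφ m a, hφ m' a'] at h
    exact conicPt_inj h2 x hx m m' a a' h
  have hnot : negOne ∉ Rᶜ.image φ := by
    intro h
    obtain ⟨m, hm, he⟩ := Finset.mem_image.1 h
    have a := hnR m hm
    rw [hφ m a] at he
    exact conicPt_ne h2 x hx m a he
  have hsub : insert negOne (Rᶜ.image φ)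
      ⊆ Finset.univ.filter (fun y : S2 F => y ∈ Subgroup.centralizer ({x} : Set (S2 F))) := by
    intro y hy
    rw [Finset.mem_filter]
    refine ⟨Finset.mem_univ _, ?_⟩
    rw [Subgroup.mem_centralizer_iff]
    intro w hw
    rw [Set.mem_singleton_iff] at hw
    subst hw
    rcases Finset.mem_insert.1 hy with h | h
    · rw [h]; exact (rep_comm w _ _ (rep_negOne w)).symm
    · obtain ⟨m, hm, rfl⟩ := Finset.mem_image.1 h
      have a := hnR m hm
      rw [hφ m a]
      exact (rep_comm w _ _ (conicPt_rep w m a)).symm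
  have hc := Finset.card_le_card hsub
  rw [card_filter_mem, Finset.card_insert_of_notMem hnot, Finset.card_image_of_injOn hinj,
    Finset.card_compl] at hc
  omega

theorem card_centralizer_eq [Fintype F] (p : ℕ) [Fact p.Prime] [CharP F p] (h2 : (2 : F) ≠ 0)
    (h5 : 5 ≤ Fintype.card F) (x : S2 F) (hx : tr x ^ 2 ≠ 4) :
    Nat.card (Subgroup.centralizer ({x} : Set (S2 F))) = Fintype.card F - 1 ∨
      Nat.card (Subgroup.centralizer ({x} : Set (S2 F))) = Fintype.card F + 1 := by
  have hge := card_centralizer_ge h2 x (not_isSc_of_tr x hx)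
  rcases card_centralizer_dvd p x hx with h | h
  · left
    exact le_antisymm (Nat.le_of_dvd (by omega) h) hge
  · right
    obtain ⟨k, hk⟩ := h
    have hk1 : k = 1 := by
      rcases Nat.lt_or_ge k 2 with h | h
      · have : k ≠ 0 := by rintro rfl; omega
        omega
      · exfalso
        have := Nat.mul_le_mul hge h
        rw [← hk] at this
        omega
    rw [hk1, mul_one] at hk
    exact hk.symm

end CentOrder

section FieldD

variable {F : Type*} [Field F]

/-- the subfield fixed by the `n`-th power of Frobenius -/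
noncomputable def frobFix (p n : ℕ) [Fact p.Prime] [CharP F p] : Subfield F :=
  (iterateFrobenius F p n).eqLocusField (RingHom.id F)

theorem mem_frobFix (p n : ℕ) [Fact p.Prime] [CharP F p] (y : F) :
    y ∈ frobFix (F := F) p n ↔ y ^ (p ^ n) = y := by
  unfold frobFix
  rw [RingHom.mem_eqLocusField, iterateFrobenius_def]
  rfl

theorem card_le_of_all_pow [Fintype F] (N : ℕ) (hN : 2 ≤ N) (hall : ∀ y : F, y ^ N = y) :
    Fintype.card F ≤ N := by
  obtain ⟨ζ, hζ⟩ := IsCyclic.exists_ofOrder_eq_natCard (α := Fˣ)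
  rw [Nat.card_units, Nat.card_eq_fintype_card] at hζ
  have h1 : ζ ^ (N - 1) = 1 := by
    have h2 : ζ ^ N = ζ := Units.ext (by rw [Units.val_pow_eq_pow_val]; exact hall _)
    have h3 : ζ ^ (N - 1) * ζ = 1 * ζ := by
      rw [← pow_succ, one_mul, Nat.sub_add_cancel (by omega)]
      exact h2
    exact mul_right_cancel h3
  have h4 := orderOf_dvd_of_pow_eq_one h1
  rw [hζ] at h4
  have h5 := Nat.le_of_dvd (by omega) h4
  have hq2 : 2 ≤ Fintype.card F := Fintype.one_lt_card
  omega

theorem subfield_eq_top_of_card [Finite F] (Kf : Subfield F) (h : Nat.card Kf = Nat.card F) :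
    Kf = ⊤ := by
  have h1 := AddSubgroup.eq_top_of_card_eq Kf.toSubring.toAddSubgroup h
  rw [eq_top_iff]
  intro y _
  have : y ∈ Kf.toSubring.toAddSubgroup := by rw [h1]; exact AddSubgroup.mem_top y
  exact this

theorem pow_card_subfield [Finite F] (Kf : Subfield F) (q' : ℕ) (hq : Nat.card Kf = q') (y : F)
    (hy : y ∈ Kf) : y ^ q' = y := by
  classical
  haveI : Fintype Kf := Fintype.ofFinite _
  have h := FiniteField.pow_card (⟨y, hy⟩ : Kf)
  rw [← Nat.card_eq_fintype_card, hq] at h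
  have := congrArg Subtype.val h
  simpa using this

theorem pow_card_pow_subfield [Finite F] (Kf : Subfield F) (q' : ℕ) (hq : Nat.card Kf = q')
    (a : ℕ) (y : F) (hy : y ∈ Kf) : y ^ (q' ^ a) = y := by
  induction a with
  | zero => simp
  | succ a ih => rw [pow_succ, pow_mul, ih, pow_card_subfield Kf q' hq y hy]

theorem pow_card_sub_one_subfield [Finite F] (Kf : Subfield F) (q' : ℕ) (hq : Nat.card Kf = q')
    (y : F) (hy : y ∈ Kf) (hy0 : y ≠ 0) : y ^ (q' - 1) = 1 := by
  classical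
  haveI : Fintype Kf := Fintype.ofFinite _
  have h := FiniteField.pow_card_sub_one_eq_one (⟨y, hy⟩ : Kf)
    (fun h => hy0 (congrArg Subtype.val h))
  rw [← Nat.card_eq_fintype_card, hq] at h
  have := congrArg Subtype.val h
  simpa using this

theorem char_ne_two (p : ℕ) [Fact p.Prime] [CharP F p] (h2 : (2 : F) ≠ 0) : p ≠ 2 := by
  rintro rfl
  apply h2
  exact_mod_cast CharP.cast_eq_zero F 2

/-- Lemma D: the degree over a maximal subfield without new square roots is an odd prime -/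
theorem odd_prime_degree [Fintype F] (p : ℕ) [Fact p.Prime] [CharP F p] (h2 : (2 : F) ≠ 0)
    (Kf : Subfield F) (q' : ℕ) (hq : Nat.card Kf = q') (hne : Kf ≠ ⊤)
    (hmax : ∀ K' : Subfield F, Kf ≤ K' → K' = Kf ∨ K' = ⊤)
    (hsq : ∀ s : F, s * s ∈ Kf → s ∈ Kf) :
    ∃ r : ℕ, r.Prime ∧ Odd r ∧ Fintype.card F = q' ^ r := by
  classical
  haveI : Fintype Kf := Fintype.ofFinite _
  have hKc : Fintype.card Kf = q' := by rw [← Nat.card_eq_fintype_card]; exact hq
  haveI : CharP Kf p := RingHom.charP Kf.subtype (fun a b hab => Subtype.ext hab) p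
  obtain ⟨n, -, hn⟩ := FiniteField.card Kf p
  rw [hKc] at hn
  have hp2 := char_ne_two (F := F) p h2
  have hpodd : Odd p := ((Fact.out : p.Prime).eq_two_or_odd').resolve_left hp2
  have hqodd : Odd q' := by rw [hn]; exact hpodd.pow
  have hq2 : 2 ≤ q' := by rw [← hKc]; exact Fintype.one_lt_card
  have hcard : Fintype.card F = q' ^ Module.finrank Kf F := by
    rw [← hKc]; exact Module.card_eq_pow_finrank (K := Kf) (V := F)
  obtain ⟨r, hr⟩ : ∃ r, r = Module.finrank Kf F := ⟨_, rfl⟩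
  rw [← hr] at hcard
  have hF2 : 2 ≤ Fintype.card F := Fintype.one_lt_card
  have hr0 : r ≠ 0 := by
    rintro rfl
    rw [pow_zero] at hcard
    omega
  have hr1 : r ≠ 1 := by
    rintro rfl
    rw [pow_one] at hcard
    apply hne
    apply subfield_eq_top_of_card
    rw [hq, Nat.card_eq_fintype_card, hcard]
  have hprime : r.Prime := by
    by_contra hnp
    obtain ⟨a, ⟨b, hab⟩, ha2, halt⟩ := Nat.exists_dvd_of_not_prime2 (by omega) hnp
    have e : p ^ ((n : ℕ) * a) = q' ^ a := by rw [pow_mul, ← hn]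
    have hle : Kf ≤ frobFix p ((n : ℕ) * a) := by
      intro y hy
      rw [mem_frobFix, e]
      exact pow_card_pow_subfield Kf q' hq a y hy
    have hqa : q' < q' ^ a := by
      calc q' = q' ^ 1 := (pow_one _).symm
        _ < q' ^ a := Nat.pow_lt_pow_right (by omega) (by omega)
    rcases hmax _ hle with h | h
    · obtain ⟨ζ, hζ⟩ := IsCyclic.exists_ofOrder_eq_natCard (α := Fˣ)
      rw [Nat.card_units, Nat.card_eq_fintype_card, hcard] at hζ
      obtain ⟨c, hc⟩ : q' ^ a - 1 ∣ q' ^ r - 1 := by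
        have := Nat.sub_dvd_pow_sub_pow (q' ^ a) 1 b
        rwa [one_pow, ← pow_mul, ← hab] at this
      have hqr : q' ^ a < q' ^ r := Nat.pow_lt_pow_right (by omega) halt
      have hc0 : 0 < c := by
        rcases Nat.eq_zero_or_pos c with h0 | h0
        · rw [h0, mul_zero] at hc; omega
        · exact h0
      have h1 : ((ζ ^ c : Fˣ) : F) ∈ frobFix (F := F) p ((n : ℕ) * a) := by
        rw [mem_frobFix, e, ← Units.val_pow_eq_pow_val]
        congr 1
        have h2 : (ζ ^ c) ^ (q' ^ a - 1) = 1 := by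
          rw [← pow_mul, mul_comm, ← hc, ← hζ]
          exact pow_orderOf_eq_one ζ
        have h3 : (ζ ^ c) ^ (q' ^ a - 1 + 1) = ζ ^ c := by rw [pow_succ, h2, one_mul]
        rwa [Nat.sub_add_cancel (by omega)] at h3
      rw [h] at h1
      have h4 := pow_card_sub_one_subfield Kf q' hq _ h1 (Units.ne_zero _)
      have h5 : (ζ ^ c) ^ (q' - 1) = 1 := Units.ext (by rw [Units.val_pow_eq_pow_val]; exact h4)
      rw [← pow_mul] at h5
      have h6 := orderOf_dvd_of_pow_eq_one h5
      rw [hζ, hc] at h6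
      have h7 := Nat.le_of_dvd (Nat.mul_pos hc0 (by omega)) h6
      rw [mul_comm] at h7
      have h8 := Nat.le_of_mul_le_mul_left h7 hc0
      omega
    · have hall : ∀ y : F, y ^ (q' ^ a) = y := by
        intro y
        have := (mem_frobFix (F := F) p ((n : ℕ) * a) y).1 (by rw [h]; exact Subfield.mem_top y)
        rwa [e] at this
      have h1 := card_le_of_all_pow (q' ^ a) (by omega) hall
      have hqr : q' ^ a < q' ^ r := Nat.pow_lt_pow_right (by omega) halt
      omega
  refine ⟨r, hprime, ?_, hcard⟩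
  rcases hprime.eq_two_or_odd' with hr2 | hodd
  · exfalso
    rw [hr2] at hcard
    have hchar : ringChar Kf ≠ 2 := by rw [ringChar.eq Kf p]; exact hp2
    have hcharF : ringChar F ≠ 2 := by rw [ringChar.eq F p]; exact hp2
    obtain ⟨a, ha⟩ := FiniteField.exists_nonsquare hchar
    have ha0 : (a : F) ≠ 0 := by
      intro h
      apply ha
      have : a = 0 := Subtype.ext h
      rw [this]
      exact ⟨0, by simp⟩
    have h1 := pow_card_sub_one_subfield Kf q' hq _ a.2 ha0
    obtain ⟨j, hj⟩ := hqodd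
    have e : Fintype.card F / 2 = (q' - 1) * (j + 1) := by
      rw [hcard, hj]
      have : (2 * j + 1) ^ 2 = 2 * ((2 * j + 1 - 1) * (j + 1)) + 1 := by
        have : 2 * j + 1 - 1 = 2 * j := by omega
        rw [this]; ring
      omega
    have h3 : IsSquare (a : F) := by
      rw [FiniteField.isSquare_iff hcharF ha0, e, pow_mul, h1, one_pow]
    obtain ⟨s, hs⟩ := h3
    have hsK : s ∈ Kf := hsq s (by rw [← hs]; exact a.2)
    apply ha
    exact ⟨⟨s, hsK⟩, Subtype.ext hs⟩
  · exact hodd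

end FieldD

section Scaled

variable {F : Type*} [Field F]

/-- elements of `SL₂(F)` which are scalar multiples of matrices over `Kf`, the scalar being a
square root of an element of `Kf` -/
def ScSub (Kf : Subfield F) : Subgroup (S2 F) where
  carrier := {g | ∃ s : F, s ≠ 0 ∧ s * s ∈ Kf ∧ s * g 0 0 ∈ Kf ∧ s * g 0 1 ∈ Kf ∧
    s * g 1 0 ∈ Kf ∧ s * g 1 1 ∈ Kf}
  one_mem' := ⟨1, one_ne_zero, by rw [one_mul]; exact Kf.one_mem,
    by rw [one_mul, one00]; exact Kf.one_mem, by rw [one_mul, one01]; exact Kf.zero_mem,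
    by rw [one_mul, one10]; exact Kf.zero_mem, by rw [one_mul, one11]; exact Kf.one_mem⟩
  mul_mem' := by
    rintro a b ⟨s, hs, hss, a00, a01, a10, a11⟩ ⟨s', hs', hss', b00, b01, b10, b11⟩
    refine ⟨s * s', mul_ne_zero hs hs', ?_, ?_, ?_, ?_, ?_⟩
    · have : s * s' * (s * s') = (s * s) * (s' * s') := by ring
      rw [this]; exact Kf.mul_mem hss hss'
    · have : s * s' * (a * b) 0 0 = (s * a 0 0) * (s' * b 0 0) + (s * a 0 1) * (s' * b 1 0) := by
        rw [mul00]; ring
      rw [this]; exact Kf.add_mem (Kf.mul_mem a00 b00) (Kf.mul_mem a01 b10)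
    · have : s * s' * (a * b) 0 1 = (s * a 0 0) * (s' * b 0 1) + (s * a 0 1) * (s' * b 1 1) := by
        rw [mul01]; ring
      rw [this]; exact Kf.add_mem (Kf.mul_mem a00 b01) (Kf.mul_mem a01 b11)
    · have : s * s' * (a * b) 1 0 = (s * a 1 0) * (s' * b 0 0) + (s * a 1 1) * (s' * b 1 0) := by
        rw [mul10]; ring
      rw [this]; exact Kf.add_mem (Kf.mul_mem a10 b00) (Kf.mul_mem a11 b10)
    · have : s * s' * (a * b) 1 1 = (s * a 1 0) * (s' * b 0 1) + (s * a 1 1) * (s' * b 1 1) := by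
        rw [mul11]; ring
      rw [this]; exact Kf.add_mem (Kf.mul_mem a10 b01) (Kf.mul_mem a11 b11)
  inv_mem' := by
    rintro a ⟨s, hs, hss, a00, a01, a10, a11⟩
    refine ⟨s, hs, hss, ?_, ?_, ?_, ?_⟩
    · rw [inv00]; exact a11
    · rw [inv01, mul_neg]; exact Kf.neg_mem a01
    · rw [inv10, mul_neg]; exact Kf.neg_mem a10
    · rw [inv11]; exact a00

theorem uu_mem_SLsub (Kf : Subfield F) (y : F) : uu y ∈ SLsub Kf ↔ y ∈ Kf := by
  rw [mem_SLsub]
  constructor
  · intro h
    exact h 0 1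
  · intro h i j
    fin_cases i <;> fin_cases j
    · exact Kf.one_mem
    · exact h
    · exact Kf.zero_mem
    · exact Kf.one_mem

theorem SLsub_mono {K₁ K₂ : Subfield F} (h : K₁ ≤ K₂) : SLsub K₁ ≤ SLsub K₂ := by
  intro g hg
  rw [mem_SLsub] at hg ⊢
  exact fun i j => h (hg i j)

theorem SLsub_top : SLsub (⊤ : Subfield F) = ⊤ := by
  rw [eq_top_iff]
  intro g _
  rw [mem_SLsub]
  exact fun i j => Subfield.mem_top _

theorem SLsub_le_ScSub (Kf : Subfield F) : SLsub Kf ≤ ScSub Kf := by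
  intro g hg
  rw [mem_SLsub] at hg
  exact ⟨1, one_ne_zero, by rw [one_mul]; exact Kf.one_mem, by rw [one_mul]; exact hg 0 0,
    by rw [one_mul]; exact hg 0 1, by rw [one_mul]; exact hg 1 0, by rw [one_mul]; exact hg 1 1⟩

theorem ScSub_ne_top (h2 : (2 : F) ≠ 0) (Kf : Subfield F) (hne : Kf ≠ ⊤) : ScSub Kf ≠ ⊤ := by
  intro htop
  apply hne
  rw [eq_top_iff]
  intro y _
  have key : ∀ w : F, w * w ∈ Kf := by
    intro w
    have h1 : uu w ∈ ScSub Kf := by rw [htop]; exact Subgroup.mem_top _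
    obtain ⟨s, hs, hss, -, h01, -, -⟩ := h1
    rw [uu_01] at h01
    have e : w * w = (s * w) * (s * w) * (s * s)⁻¹ := by field_simp
    rw [e]
    exact Kf.mul_mem (Kf.mul_mem h01 h01) (Kf.inv_mem hss)
  have h1 := key y
  have h3 := key (y + 1)
  have h2' : (2 : F) ∈ Kf := by
    have : (2 : F) = 1 + 1 := by norm_num
    rw [this]; exact Kf.add_mem Kf.one_mem Kf.one_mem
  have e : y = ((y + 1) * (y + 1) - y * y - 1) * (2 : F)⁻¹ := by field_simp; ring
  rw [e]
  exact Kf.mul_mem (Kf.sub_mem (Kf.sub_mem h3 h1) Kf.one_mem) (Kf.inv_mem h2')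

theorem dd_mem_ScSub (Kf : Subfield F) (s : F) (hs : s ≠ 0) (hss : s * s ∈ Kf) :
    dd s hs ∈ ScSub Kf := by
  refine ⟨s, hs, hss, ?_, ?_, ?_, ?_⟩
  · exact hss
  · show s * 0 ∈ Kf
    rw [mul_zero]; exact Kf.zero_mem
  · show s * 0 ∈ Kf
    rw [mul_zero]; exact Kf.zero_mem
  · show s * s⁻¹ ∈ Kf
    rw [mul_inv_cancel₀ hs]; exact Kf.one_mem

/-- a maximal `SL₂(Kf)` forces an odd prime degree -/
theorem slsub_mx [Fintype F] (p : ℕ) [Fact p.Prime] [CharP F p] (h2 : (2 : F) ≠ 0)
    (Kf : Subfield F) (q' : ℕ) (hq : Nat.card Kf = q') (hmx : Mx (SLsub Kf)) :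
    ∃ r : ℕ, r.Prime ∧ Odd r ∧ Fintype.card F = q' ^ r := by
  have hne : Kf ≠ ⊤ := by
    intro h
    apply hmx.1
    rw [h]
    exact SLsub_top
  apply odd_prime_degree p h2 Kf q' hq hne
  · intro K' hK'
    rcases hmx.2 _ (SLsub_mono hK') with h | h
    · left
      apply le_antisymm _ hK'
      intro y hy
      rw [← uu_mem_SLsub, ← h, uu_mem_SLsub]
      exact hy
    · right
      rw [eq_top_iff]
      intro y _
      rw [← uu_mem_SLsub, h]
      exact Subgroup.mem_top _
  · intro s hss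
    by_contra hs
    have hs0 : s ≠ 0 := by
      rintro rfl
      exact hs Kf.zero_mem
    rcases hmx.2 _ (SLsub_le_ScSub Kf) with h | h
    · have h1 := dd_mem_ScSub Kf s hs0 hss
      rw [h, mem_SLsub] at h1
      exact hs (h1 0 0)
    · exact ScSub_ne_top h2 Kf hne h

/-- the `PGL₂`-type maximal subgroups only occur in degree two -/
theorem pgl_mx [Fintype F] (p : ℕ) [Fact p.Prime] [CharP F p] (h2 : (2 : F) ≠ 0)
    (L : Subgroup (S2 F)) (hmx : Mx L) (Kf : Subfield F) (q' : ℕ) (hq : Nat.card Kf = q')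
    (hsub : SLsub Kf ≤ L) (hsq : ∀ g ∈ L, g * g ∈ SLsub Kf)
    (hcard : Nat.card L = 2 * Nat.card (SLsub Kf))
    (hsc : ∀ g ∈ L, ∃ s : F, s ≠ 0 ∧ ∀ i j, g i j / s ∈ Kf) :
    Fintype.card F = q' ^ 2 := by
  classical
  haveI : Fintype Kf := Fintype.ofFinite _
  have hKc : Fintype.card Kf = q' := by rw [← Nat.card_eq_fintype_card]; exact hq
  haveI : CharP Kf p := RingHom.charP Kf.subtype (fun a b hab => Subtype.ext hab) p
  obtain ⟨n, -, hn⟩ := FiniteField.card Kf p
  rw [hKc] at hn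
  have hp2 := char_ne_two (F := F) p h2
  have hpodd : Odd p := ((Fact.out : p.Prime).eq_two_or_odd').resolve_left hp2
  have hqodd : Odd q' := by rw [hn]; exact hpodd.pow
  have hq2 : 2 ≤ q' := by rw [← hKc]; exact Fintype.one_lt_card
  have e : p ^ ((n : ℕ) * 2) = q' ^ 2 := by rw [pow_mul, ← hn]
  have h2K : (2 : F) ∈ Kf := by
    have : (2 : F) = 1 + 1 := by norm_num
    rw [this]; exact Kf.add_mem Kf.one_mem Kf.one_mem
  have hLle : L ≤ SLsub (frobFix (F := F) p ((n : ℕ) * 2)) := by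
    intro g hg
    obtain ⟨s, hs, hent⟩ := hsc g hg
    have hss : s * s ∈ Kf := by
      have hd := det2 g
      have e1 : s * s = ((g 0 0 / s) * (g 1 1 / s) - (g 0 1 / s) * (g 1 0 / s))⁻¹ := by
        have : (g 0 0 / s) * (g 1 1 / s) - (g 0 1 / s) * (g 1 0 / s)
            = (g 0 0 * g 1 1 - g 0 1 * g 1 0) / (s * s) := by field_simp
        rw [this, hd, one_div, inv_inv]
      rw [e1]
      exact Kf.inv_mem (Kf.sub_mem (Kf.mul_mem (hent 0 0) (hent 1 1))
        (Kf.mul_mem (hent 0 1) (hent 1 0)))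
    have hspow : s ^ (q' ^ 2) = s := by
      obtain ⟨j, hj⟩ := hqodd
      have e2 : q' ^ 2 = 2 * ((q' - 1) * (j + 1)) + 1 := by
        rw [hj]
        have : 2 * j + 1 - 1 = 2 * j := by omega
        rw [this]; ring
      have h1 := pow_card_sub_one_subfield Kf q' hq _ hss (mul_ne_zero hs hs)
      calc s ^ (q' ^ 2) = (s * s) ^ ((q' - 1) * (j + 1)) * s := by
            rw [e2, pow_succ, pow_mul, pow_two]
        _ = s := by rw [pow_mul, h1, one_pow, one_mul]
    rw [mem_SLsub]
    intro i j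
    rw [mem_frobFix, e]
    have e3 : g i j = s * (g i j / s) := by field_simp
    rw [e3, mul_pow, hspow, pow_card_pow_subfield Kf q' hq 2 _ (hent i j)]
  rcases hmx.2 _ hLle with h | h
  · exfalso
    have hle : L ≤ SLsub Kf := by
      rw [← h]
      apply SLsub_mono
      intro y hy
      have h1 : uu y ∈ L := by rw [← h, uu_mem_SLsub]; exact hy
      have h3 := hsq _ h1
      rw [uu_mul, uu_mem_SLsub] at h3
      have e4 : y = (y + y) * (2 : F)⁻¹ := by field_simp; ring
      rw [e4]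
      exact Kf.mul_mem h3 (Kf.inv_mem h2K)
    have h1 := Subgroup.card_le_of_le hle
    have h3 : 0 < Nat.card (SLsub Kf) := Nat.card_pos
    omega
  · have hall : ∀ y : F, y ^ (q' ^ 2) = y := by
      intro y
      have h1 : uu y ∈ SLsub (frobFix (F := F) p ((n : ℕ) * 2)) := by
        rw [h]; exact Subgroup.mem_top _
      rw [uu_mem_SLsub, mem_frobFix, e] at h1
      exact h1
    have h1 := card_le_of_all_pow (q' ^ 2) (by nlinarith) hall
    have hcardF : Fintype.card F = q' ^ Module.finrank Kf F := by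
      rw [← hKc]; exact Module.card_eq_pow_finrank (K := Kf) (V := F)
    obtain ⟨r, hr⟩ : ∃ r, r = Module.finrank Kf F := ⟨_, rfl⟩
    rw [← hr] at hcardF
    have hF2 : 2 ≤ Fintype.card F := Fintype.one_lt_card
    have hr0 : r ≠ 0 := by
      rintro rfl
      rw [pow_zero] at hcardF
      omega
    have hr1 : r ≠ 1 := by
      rintro rfl
      rw [pow_one] at hcardF
      apply hmx.1
      rw [eq_top_iff]
      have : Kf = ⊤ := by
        apply subfield_eq_top_of_card
        rw [hq, Nat.card_eq_fintype_card, hcardF]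
      rw [← SLsub_top, ← this]
      exact hsub
    have hr2 : r ≤ 2 := by
      rw [hcardF] at h1
      exact (Nat.pow_le_pow_iff_right (by omega)).1 h1
    have : r = 2 := by omega
    rw [hcardF, this]

end Scaled

section FieldStd2

variable {F : Type*} [Field F]

theorem field_std2 [Fintype F] (p : ℕ) [Fact p.Prime] [CharP F p] (h2 : (2 : F) ≠ 0)
    (L : Subgroup (S2 F)) (hmx : Mx L)
    (q' k : ℕ) (h : NF L q') (hq3 : 3 ≤ q')
    (hcard : Nat.card L = Nat.card (Subgroup.center (S2 F)) * k * q' * (1 + q'))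
    (hk : k = q' - 1 ∨ 2 * k = q' - 1) :
    (∃ (K : Type) (_ : Field K) (_ : Fintype K), Fintype.card F = Fintype.card K ^ 2 ∧
        Nonempty (↥(L.map (prj F)) ≃* Matrix.ProjGenLinGroup (Fin 2) K)) ∨
    (∃ (K : Type) (_ : Field K) (_ : Fintype K) (r : ℕ), r.Prime ∧ Odd r ∧
        Fintype.card F = Fintype.card K ^ r ∧
        Nonempty (↥(L.map (prj F)) ≃* Matrix.ProjectiveSpecialLinearGroup (Fin 2) K)) := by
  classical
  obtain ⟨Kf, hKf⟩ := exists_subfield p h
  haveI : Fintype Kf := Fintype.ofFinite _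
  haveI : CharP Kf p := RingHom.charP Kf.subtype (fun a b hab => Subtype.ext hab) p
  obtain ⟨n, -, hn⟩ := FiniteField.card Kf p
  have hKfcard : Fintype.card Kf = q' := by
    rw [← Nat.card_eq_fintype_card, ← h.hB]
    exact Nat.card_congr (Equiv.subtypeEquivRight hKf)
  have hKfN : Nat.card Kf = q' := by rw [Nat.card_eq_fintype_card]; exact hKfcard
  haveI : Fintype (GaloisField p n) := Fintype.ofFinite _
  have hGc : Fintype.card (GaloisField p n) = Fintype.card Kf := by
    rw [← Nat.card_eq_fintype_card, GaloisField.card p n n.ne_zero, hn]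
  let e : GaloisField p n ≃+* Kf := FiniteField.ringEquivOfCardEq hGc
  let ι : GaloisField p n →+* F := Kf.subtype.comp e.toRingHom
  have hι : ∀ y : F, y ∈ BB L ↔ ∃ a, ι a = y := by
    intro y
    rw [← hKf]
    constructor
    · intro hy
      refine ⟨e.symm ⟨y, hy⟩, ?_⟩
      show ((e (e.symm ⟨y, hy⟩) : Kf) : F) = y
      rw [RingEquiv.apply_symm_apply]
    · rintro ⟨a, rfl⟩
      exact (e a).2
  have hKcard : Fintype.card (GaloisField p n) = q' := hGc.trans hKfcard
  have hsub : ∀ g : S2 (GaloisField p n), SpecialLinearGroup.map ι g ∈ L := by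
    intro g
    apply sl_sub p h
    intro i j
    rw [hι]
    exact ⟨g i j, (slmap_entry ι g i j).symm⟩
  have hz2 := center_card_two h2
  have hSL : SLsub Kf ≤ L := by
    intro g hg
    rw [mem_SLsub] at hg
    apply sl_sub p h
    intro i j
    exact (hKf _).1 (hg i j)
  have hSLc : Nat.card (SLsub Kf) = q' * (q' ^ 2 - 1) := by rw [card_SLsub, hKfN]
  obtain ⟨m, hm⟩ : ∃ m, q' = m + 3 := ⟨q' - 3, by omega⟩
  have e4 : (m + 3) ^ 2 - 1 = (m + 2) * (m + 4) := by
    have : (m + 3) ^ 2 = (m + 2) * (m + 4) + 1 := by ring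
    omega
  rcases hk with hk1 | hk1
  · left
    have hLc : Nat.card L = 2 * ((m + 3) * ((m + 2) * (m + 4))) := by
      rw [hcard, hz2, hk1, hm]
      have : m + 3 - 1 = m + 2 := by omega
      rw [this]
      ring
    obtain ⟨Kf', -, hK'sub, hK'sq⟩ := field_conc p L q' k h hq3 hcard (Or.inl hk1)
    have hle' : ∀ y ∈ Kf', y ∈ Kf := fun y hy =>
      (hKf y).2 ((mem_BB L y).2 (hK'sub ((uu_mem_SLsub Kf' y).2 hy)))
    have hsq : ∀ g ∈ L, g * g ∈ SLsub Kf := by
      intro g hg
      have := hK'sq g hg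
      rw [mem_SLsub] at this ⊢
      exact fun i j => hle' _ (this i j)
    have hsqB : ∀ g ∈ L, ∀ i j, (g * g) i j ∈ BB L := fun g hg i j =>
      (hKf _).1 ((mem_SLsub Kf _).1 (hsq g hg) i j)
    have hsc : ∀ g ∈ L, ∃ s : F, s ≠ 0 ∧ ∀ i j, g i j / s ∈ Kf := by
      intro g hg
      obtain ⟨s, hs, hent⟩ := scaled_entries p h hsqB g hg
      exact ⟨s, hs, fun i j => (hKf _).2 (hent i j)⟩
    have hF := pgl_mx p h2 L hmx Kf q' hKfN hSL hsq (by rw [hLc, hSLc, hm, e4]) hsc
    refine ⟨GaloisField p n, inferInstance, inferInstance, by rw [hKcard]; exact hF, ?_⟩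
    apply iso_pgl ι L h.hZ
    · intro g hg
      obtain ⟨s, hs, hent⟩ := hsc g hg
      exact ⟨s, hs, fun i j => (hι _).1 ((hKf _).1 (hent i j))⟩
    · rw [hLc, hz2, hKcard, hm, e4]
  · right
    have hLc : Nat.card L = (m + 3) * ((m + 2) * (m + 4)) := by
      have : 2 * k = m + 2 := by omega
      rw [hcard, hz2, this, hm]
      ring
    have hLeq : SLsub Kf = L := Subgroup.eq_of_le_of_card_ge hSL (by rw [hLc, hSLc, hm, e4])
    obtain ⟨r, hr1, hr2, hr3⟩ := slsub_mx p h2 Kf q' hKfN (hLeq ▸ hmx)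
    refine ⟨GaloisField p n, inferInstance, inferInstance, r, hr1, hr2,
      by rw [hKcard]; exact hr3, ?_⟩
    apply iso_psl ι L hsub
    rw [hLc, hKcard, hm, e4]

end FieldStd2

section FieldCase

variable {F : Type*} [Field F]

/-- the subfield case for a maximal subgroup -/
theorem field_case [Fintype F] (p : ℕ) [Fact p.Prime] [CharP F p] (h2 : (2 : F) ≠ 0)
    (M : Subgroup (P2 F)) (hmx : Mx (Lof M))
    (x₀ : S2 F) (hx₀ : x₀ ∈ Lof M) (hsc : ¬ IsSc x₀) (h4 : tr x₀ ^ 2 = 4) (q' k : ℕ)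
    (hq3 : 3 ≤ q')
    (hcA : cA (Lof M) x₀ = Nat.card (Subgroup.center (S2 F)) * q')
    (hcN : cN (Lof M) x₀ = Nat.card (Subgroup.center (S2 F)) * k * q')
    (hcard : Nat.card (Lof M) = Nat.card (Subgroup.center (S2 F)) * k * q' * (1 + q'))
    (hk : k = q' - 1 ∨ 2 * k = q' - 1) :
    (∃ (K : Type) (_ : Field K) (_ : Fintype K), Fintype.card F = Fintype.card K ^ 2 ∧
        Nonempty (M ≃* Matrix.ProjGenLinGroup (Fin 2) K)) ∨
    (∃ (K : Type) (_ : Field K) (_ : Fintype K) (r : ℕ), r.Prime ∧ Odd r ∧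
        Fintype.card F = Fintype.card K ^ r ∧
        Nonempty (M ≃* Matrix.ProjectiveSpecialLinearGroup (Fin 2) K)) := by
  obtain ⟨θ, hθ, hθc, -⟩ := exists_nf' (Lof M) (center_le_Lof M) x₀ hx₀ hsc h4 q' k (by omega)
    (by omega) hcA hcN hcard
  obtain ⟨t⟩ := Cfsg.Agent.S0799.transfer M θ
  rcases field_std2 p h2 _ (mx_map _ hmx θ) q' k hθ hq3 hθc hk with
    ⟨K, i1, i2, hF, ⟨e⟩⟩ | ⟨K, i1, i2, r, hr1, hr2, hF, ⟨e⟩⟩
  · exact Or.inl ⟨K, i1, i2, hF, ⟨t.trans e⟩⟩
  · exact Or.inr ⟨K, i1, i2, r, hr1, hr2, hF, ⟨t.trans e⟩⟩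

end FieldCase

section Excl

variable {G : Type*} [Group G]

theorem coatom_conj_le [Finite G] (M H : Subgroup G) (hM : IsCoatom M) (g : G)
    (hle : M.map (MulAut.conj g).toMonoidHom ≤ H) (h1 : Nat.card H ≠ Nat.card M)
    (h2 : Nat.card H ≠ Nat.card G) : False := by
  have hc : Nat.card (H.map (MulAut.conj g).symm.toMonoidHom) = Nat.card H := card_map _ H
  have hMle : M ≤ H.map (MulAut.conj g).symm.toMonoidHom := by
    intro m hm
    refine ⟨MulAut.conj g m, hle (Subgroup.mem_map_of_mem _ hm), ?_⟩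
    exact (MulAut.conj g).symm_apply_apply m
  rcases hM.le_iff.1 hMle with h | h
  · apply h2
    rw [← hc, h, Subgroup.card_top]
  · apply h1
    rw [← hc, h]

theorem sylow_conj_of_card [Finite G] (r n : ℕ) [Fact r.Prime] (P Q : Subgroup G)
    (hP : Nat.card P = r ^ n) (hQ : Nat.card Q = r ^ n) (hG : ¬ r ^ (n + 1) ∣ Nat.card G) :
    ∃ g : G, Q = P.map (MulAut.conj g).toMonoidHom := by
  have key : ∀ U : Subgroup G, Nat.card U = r ^ n → ∃ S : Sylow r G, (S : Subgroup G) = U := by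
    intro U hU
    obtain ⟨S, hS⟩ := (IsPGroup.of_card (p := r) (n := n) hU).exists_le_sylow
    refine ⟨S, ?_⟩
    symm
    apply Subgroup.eq_of_le_of_card_ge hS
    obtain ⟨m, hm⟩ := IsPGroup.iff_card.1 S.isPGroup'
    have hdvd : Nat.card S ∣ Nat.card G := Subgroup.card_subgroup_dvd_card _
    rw [hU]
    change Nat.card S ≤ r ^ n
    rw [hm] at hdvd ⊢
    have hr : 1 < r := (Fact.out : r.Prime).one_lt
    apply Nat.pow_le_pow_right (by omega)
    by_contra hlt
    push Not at hlt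
    exact hG (dvd_trans (pow_dvd_pow r hlt) hdvd)
  obtain ⟨S, hS⟩ := key P hP
  obtain ⟨T, hT⟩ := key Q hQ
  obtain ⟨g, hg⟩ := MulAction.exists_smul_eq G S T
  refine ⟨g, ?_⟩
  rw [← hS, ← hT, ← hg]
  rfl

/-- a maximal subgroup which is a Sylow subgroup is not properly contained, up to conjugacy, in
a proper subgroup -/
theorem sylow_excl [Finite G] (M H : Subgroup G) (hM : IsCoatom M) (r n : ℕ) [Fact r.Prime]
    (hMc : Nat.card M = r ^ n) (hG : ¬ r ^ (n + 1) ∣ Nat.card G) (hH : r ^ n ∣ Nat.card H)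
    (hHM : Nat.card H ≠ r ^ n) (hHt : Nat.card H ≠ Nat.card G) : False := by
  obtain ⟨K', hK'⟩ := Sylow.exists_subgroup_card_pow_prime r hH
  have hKc : Nat.card (K'.map H.subtype) = r ^ n := by
    rw [← hK']
    exact (Nat.card_congr (K'.equivMapOfInjective H.subtype H.subtype_injective).toEquiv).symm
  have hKle : K'.map H.subtype ≤ H := by
    rintro _ ⟨k, -, rfl⟩
    exact k.2
  obtain ⟨g, hg⟩ := sylow_conj_of_card r n M _ hMc hKc hG
  exact coatom_conj_le M H hM g (hg ▸ hKle) (by rw [hMc]; exact hHM) hHt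

theorem nrm_conj_excl [Finite G] (M H X : Subgroup G) (hM : IsCoatom M)
    (hN : Subgroup.normalizer (X : Set G) = M) (g : G)
    (hdiv : Nat.card M ∣ Nat.card ↥(H ⊓ Subgroup.normalizer
      ((X.map (MulAut.conj g).toMonoidHom : Subgroup G) : Set G)))
    (hH1 : Nat.card H ≠ Nat.card M) (hH2 : Nat.card H ≠ Nat.card G) : False := by
  have hN' : Subgroup.normalizer ((X.map (MulAut.conj g).toMonoidHom : Subgroup G) : Set G)
      = M.map (MulAut.conj g).toMonoidHom := by
    rw [← Subgroup.map_equiv_normalizer_eq, hN]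
  rw [hN'] at hdiv
  have hc : Nat.card (M.map (MulAut.conj g).toMonoidHom) = Nat.card M := card_map _ M
  have hle : H ⊓ M.map (MulAut.conj g).toMonoidHom ≤ M.map (MulAut.conj g).toMonoidHom :=
    inf_le_right
  have heq := Subgroup.eq_of_le_of_card_ge hle (by
    rw [hc]
    exact Nat.le_of_dvd Nat.card_pos hdiv)
  apply coatom_conj_le M H hM g _ hH1 hH2
  rw [← heq]
  exact inf_le_left

/-- `M = N(C)` for a Sylow subgroup `C` of prime order `r`, `|M| = 2 r`, and `H` contains a
dihedral-like configuration: not maximal -/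
theorem nrm_excl [Finite G] (M H C : Subgroup G) (hM : IsCoatom M) (r : ℕ) [Fact r.Prime]
    (hC : Nat.card C = r) (hN : Subgroup.normalizer (C : Set G) = M)
    (hG : ¬ r ^ 2 ∣ Nat.card G) (c d : G) (hc : c ∈ H) (hd : d ∈ H) (hco : orderOf c = r)
    (hdo : orderOf d = 2) (hdc : d * c * d⁻¹ ∈ Subgroup.zpowers c) (hMc : Nat.card M = 2 * r)
    (hr2 : r ≠ 2) (hH1 : Nat.card H ≠ 2 * r) (hH2 : Nat.card H ≠ Nat.card G) : False := by
  have hC' : Nat.card (Subgroup.zpowers c) = r ^ 1 := by rw [Nat.card_zpowers, hco, pow_one]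
  obtain ⟨g, hg⟩ := sylow_conj_of_card r 1 C (Subgroup.zpowers c) (by rw [hC, pow_one]) hC' hG
  apply nrm_conj_excl M H C hM hN g _ (by rw [hMc]; exact hH1) hH2
  rw [← hg, hMc]
  have hcN : c ∈ H ⊓ Subgroup.normalizer ((Subgroup.zpowers c : Subgroup G) : Set G) :=
    ⟨hc, Subgroup.le_normalizer (Subgroup.mem_zpowers c)⟩
  have hdN : d ∈ H ⊓ Subgroup.normalizer ((Subgroup.zpowers c : Subgroup G) : Set G) := by
    refine ⟨hd, ?_⟩
    apply (mem_normalizer_fin (Subgroup.zpowers c) d).2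
    intro t ht
    obtain ⟨k, rfl⟩ := Subgroup.mem_zpowers_iff.1 ht
    have : d * c ^ k * d⁻¹ = (d * c * d⁻¹) ^ k := by
      have := map_zpow (MulAut.conj d) c k
      simpa [MulAut.conj_apply] using this
    rw [this]
    exact Subgroup.zpow_mem _ hdc k
  have h1 := Subgroup.orderOf_dvd_natCard _ hcN
  have h3 := Subgroup.orderOf_dvd_natCard _ hdN
  rw [hco] at h1
  rw [hdo] at h3
  have hcop : Nat.Coprime 2 r := by
    rw [Nat.coprime_comm]
    exact (Nat.coprime_primes (Fact.out : r.Prime) Nat.prime_two).2 hr2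
  exact hcop.mul_dvd_of_dvd_of_dvd h3 h1

/-- `M = N(V)` of order `12` for a Klein four-group `V`, `8 ∤ |G|`, and `H` contains a Klein
four-group normalized by an element of order three: not maximal -/
theorem klein_excl [Finite G] (M H V V' : Subgroup G) (hM : IsCoatom M) (hV : Nat.card V = 4)
    (hV' : Nat.card V' = 4) (hN : Subgroup.normalizer (V : Set G) = M) (h8 : ¬ 8 ∣ Nat.card G)
    (hMc : Nat.card M = 12) (hV'H : V' ≤ H) (c : G) (hc : c ∈ H) (hco : orderOf c = 3)
    (hcn : ∀ v ∈ V', c * v * c⁻¹ ∈ V') (hH1 : Nat.card H ≠ 12) (hH2 : Nat.card H ≠ Nat.card G) :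
    False := by
  haveI : Fact (Nat.Prime 2) := ⟨Nat.prime_two⟩
  obtain ⟨g, hg⟩ := sylow_conj_of_card 2 2 V V' (by rw [hV]; norm_num) (by rw [hV']; norm_num)
    (by norm_num; exact h8)
  apply nrm_conj_excl M H V hM hN g _ (by rw [hMc]; exact hH1) hH2
  rw [← hg, hMc]
  have hVle : V' ≤ H ⊓ Subgroup.normalizer ((V' : Subgroup G) : Set G) :=
    le_inf hV'H Subgroup.le_normalizer
  have hcN : c ∈ H ⊓ Subgroup.normalizer ((V' : Subgroup G) : Set G) :=
    ⟨hc, (mem_normalizer_fin V' c).2 hcn⟩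
  have h1 := Subgroup.card_dvd_of_le hVle
  have h3 := Subgroup.orderOf_dvd_natCard _ hcN
  rw [hV'] at h1
  rw [hco] at h3
  have : Nat.Coprime 4 3 := by norm_num
  exact this.mul_dvd_of_dvd_of_dvd h1 h3

end Excl

end Cfsg.Agent.Lib.Helper19.Dk
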