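import Mathlib
import Cfsg.Agent.Lib.Helper19.DkP

set_option autoImplicit false

namespace Cfsg.Agent.Lib.Helper19.Dk

open Matrix Cfsg.Agent.S0809

section Alg

variable {F : Type*} [Field F]

/-- the entries `m` are those of the combination `c₀ + c₁ a + c₂ b + c₃ ab` -/
def Cmb (a b : S2 F) (c₀ c₁ c₂ c₃ m00 m01 m10 m11 : F) : Prop :=
  m00 = c₀ + c₁ * a 0 0 + c₂ * b 0 0 + c₃ * (a 0 0 * b 0 0 + a 0 1 * b 1 0) ∧
  m01 = c₁ * a 0 1 + c₂ * b 0 1 + c₃ * (a 0 0 * b 0 1 + a 0 1 * b 1 1) ∧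
  m10 = c₁ * a 1 0 + c₂ * b 1 0 + c₃ * (a 1 0 * b 0 0 + a 1 1 * b 1 0) ∧
  m11 = c₀ + c₁ * a 1 1 + c₂ * b 1 1 + c₃ * (a 1 0 * b 0 1 + a 1 1 * b 1 1)

theorem cmb_mul (a b : S2 F) (c₀ c₁ c₂ c₃ d₀ d₁ d₂ d₃ m00 m01 m10 m11 n00 n01 n10 n11 : F)
    (h : Cmb a b c₀ c₁ c₂ c₃ m00 m01 m10 m11) (h' : Cmb a b d₀ d₁ d₂ d₃ n00 n01 n10 n11) :
    Cmb a b
      (c₀ * d₀ - c₁ * d₁ - c₂ * d₂ + (tr (a * b) - tr a * tr b) * (c₂ * d₁) - tr a * (c₂ * d₃)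
        - tr b * (c₃ * d₁) - c₃ * d₃)
      (c₀ * d₁ + c₁ * d₀ + tr a * (c₁ * d₁) + tr b * (c₂ * d₁) + c₂ * d₃ + tr (a * b) * (c₃ * d₁)
        - c₃ * d₂)
      (c₀ * d₂ + c₂ * d₀ - c₁ * d₃ + tr a * (c₂ * d₁) + tr b * (c₂ * d₂) + tr (a * b) * (c₂ * d₃)
        + c₃ * d₁)
      (c₀ * d₃ + c₃ * d₀ + c₁ * d₂ + tr a * (c₁ * d₃) - c₂ * d₁ + tr b * (c₃ * d₂)
        + tr (a * b) * (c₃ * d₃))
      (m00 * n00 + m01 * n10) (m00 * n01 + m01 * n11) (m10 * n00 + m11 * n10)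
      (m10 * n01 + m11 * n11) := by
  obtain ⟨h1, h2, h3, h4⟩ := h
  obtain ⟨k1, k2, k3, k4⟩ := h'
  have ha := det2 a
  have hb := det2 b
  subst h1 h2 h3 h4 k1 k2 k3 k4
  unfold tr
  rw [mul00, mul11]
  refine ⟨?_, ?_, ?_, ?_⟩
  · linear_combination ((-(c₁ * d₁) - (b 0 0 + b 1 1) * (c₃ * d₁)
        - (b 0 0 * b 1 1 - b 0 1 * b 1 0) * (c₃ * d₃)) + (-(c₁ * d₃) + c₃ * d₁) * b 0 0) * ha
      + ((-(c₂ * d₂) - (a 0 0 + a 1 1) * (c₂ * d₃) - c₃ * d₃) + (c₂ * d₃ - c₃ * d₂) * a 0 0) * hb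
  · linear_combination ((-(c₁ * d₃) + c₃ * d₁) * b 0 1) * ha
      + ((c₂ * d₃ - c₃ * d₂) * a 0 1) * hb
  · linear_combination ((-(c₁ * d₃) + c₃ * d₁) * b 1 0) * ha
      + ((c₂ * d₃ - c₃ * d₂) * a 1 0) * hb
  · linear_combination ((-(c₁ * d₁) - (b 0 0 + b 1 1) * (c₃ * d₁)
        - (b 0 0 * b 1 1 - b 0 1 * b 1 0) * (c₃ * d₃)) + (-(c₁ * d₃) + c₃ * d₁) * b 1 1) * ha
      + ((-(c₂ * d₂) - (a 0 0 + a 1 1) * (c₂ * d₃) - c₃ * d₃) + (c₂ * d₃ - c₃ * d₂) * a 1 1) * hb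

theorem cmb_tr (a b : S2 F) (c₀ c₁ c₂ c₃ m00 m01 m10 m11 : F)
    (h : Cmb a b c₀ c₁ c₂ c₃ m00 m01 m10 m11) :
    m00 + m11 = 2 * c₀ + c₁ * tr a + c₂ * tr b + c₃ * tr (a * b) := by
  obtain ⟨h1, h2, h3, h4⟩ := h
  subst h1 h2 h3 h4
  unfold tr
  rw [mul00, mul11]
  ring

theorem cmb_det (a b : S2 F) (c₀ c₁ c₂ c₃ m00 m01 m10 m11 : F)
    (h : Cmb a b c₀ c₁ c₂ c₃ m00 m01 m10 m11) :
    m00 * m11 - m01 * m10 = c₀ ^ 2 + c₁ ^ 2 + c₂ ^ 2 + c₃ ^ 2 + tr a * (c₀ * c₁)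
      + tr b * (c₀ * c₂) + tr (a * b) * (c₀ * c₃) + (tr a * tr b - tr (a * b)) * (c₁ * c₂)
      + tr b * (c₁ * c₃) + tr a * (c₂ * c₃) := by
  obtain ⟨h1, h2, h3, h4⟩ := h
  have ha := det2 a
  have hb := det2 b
  subst h1 h2 h3 h4
  unfold tr
  rw [mul00, mul11]
  linear_combination (c₁ ^ 2 + (b 0 0 * b 1 1 - b 0 1 * b 1 0) * c₃ ^ 2
      + (b 0 0 + b 1 1) * (c₁ * c₃)) * ha
    + (c₂ ^ 2 + c₃ ^ 2 + (a 0 0 + a 1 1) * (c₂ * c₃)) * hb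

theorem cmb_tr_a (a b : S2 F) (c₀ c₁ c₂ c₃ m00 m01 m10 m11 : F)
    (h : Cmb a b c₀ c₁ c₂ c₃ m00 m01 m10 m11) :
    m00 * a 0 0 + m01 * a 1 0 + m10 * a 0 1 + m11 * a 1 1
      = c₀ * tr a + c₁ * (tr a ^ 2 - 2) + c₂ * tr (a * b) + c₃ * (tr a * tr (a * b) - tr b) := by
  obtain ⟨h1, h2, h3, h4⟩ := h
  have ha := det2 a
  subst h1 h2 h3 h4
  unfold tr
  rw [mul00, mul11]
  linear_combination (-2 * c₁ - c₃ * (b 0 0 + b 1 1)) * ha

theorem cmb_tr_b (a b : S2 F) (c₀ c₁ c₂ c₃ m00 m01 m10 m11 : F)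
    (h : Cmb a b c₀ c₁ c₂ c₃ m00 m01 m10 m11) :
    m00 * b 0 0 + m01 * b 1 0 + m10 * b 0 1 + m11 * b 1 1
      = c₀ * tr b + c₁ * tr (a * b) + c₂ * (tr b ^ 2 - 2) + c₃ * (tr b * tr (a * b) - tr a) := by
  obtain ⟨h1, h2, h3, h4⟩ := h
  have hb := det2 b
  subst h1 h2 h3 h4
  unfold tr
  rw [mul00, mul11]
  linear_combination (-2 * c₂ - c₃ * (a 0 0 + a 1 1)) * hb

end Alg

section AlgSub

variable {F : Type*} [Field F]

/-- the elements of `SL₂(F)` which lie, up to a scalar whose square is in `K₀`, in the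
`K₀`-span of `1, a, b, ab` -/
def AlgS (K₀ : Subfield F) (a b : S2 F) (hta : tr a ∈ K₀) (htb : tr b ∈ K₀)
    (htab : tr (a * b) ∈ K₀) : Subgroup (S2 F) where
  carrier := {g | ∃ s : F, s ≠ 0 ∧ s * s ∈ K₀ ∧ ∃ c₀ ∈ K₀, ∃ c₁ ∈ K₀, ∃ c₂ ∈ K₀, ∃ c₃ ∈ K₀,
    Cmb a b c₀ c₁ c₂ c₃ (s * g 0 0) (s * g 0 1) (s * g 1 0) (s * g 1 1)}
  one_mem' := ⟨1, one_ne_zero, by rw [one_mul]; exact K₀.one_mem, 1, K₀.one_mem, 0, K₀.zero_mem,
    0, K₀.zero_mem, 0, K₀.zero_mem, by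
      refine ⟨?_, ?_, ?_, ?_⟩
      · rw [one00]; ring
      · rw [one01]; ring
      · rw [one10]; ring
      · rw [one11]; ring⟩
  mul_mem' := by
    rintro g g' ⟨s, hs, hss, c₀, hc₀, c₁, hc₁, c₂, hc₂, c₃, hc₃, h⟩
      ⟨s', hs', hss', d₀, hd₀, d₁, hd₁, d₂, hd₂, d₃, hd₃, h'⟩
    have key := cmb_mul a b c₀ c₁ c₂ c₃ d₀ d₁ d₂ d₃ _ _ _ _ _ _ _ _ h h'
    refine ⟨s * s', mul_ne_zero hs hs', ?_,
      (c₀ * d₀ - c₁ * d₁ - c₂ * d₂ + (tr (a * b) - tr a * tr b) * (c₂ * d₁) - tr a * (c₂ * d₃)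
        - tr b * (c₃ * d₁) - c₃ * d₃), ?_,
      (c₀ * d₁ + c₁ * d₀ + tr a * (c₁ * d₁) + tr b * (c₂ * d₁) + c₂ * d₃ + tr (a * b) * (c₃ * d₁)
        - c₃ * d₂), ?_,
      (c₀ * d₂ + c₂ * d₀ - c₁ * d₃ + tr a * (c₂ * d₁) + tr b * (c₂ * d₂) + tr (a * b) * (c₂ * d₃)
        + c₃ * d₁), ?_,
      (c₀ * d₃ + c₃ * d₀ + c₁ * d₂ + tr a * (c₁ * d₃) - c₂ * d₁ + tr b * (c₃ * d₂)
        + tr (a * b) * (c₃ * d₃)), ?_, ?_⟩
    · have : s * s' * (s * s') = (s * s) * (s' * s') := by ring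
      rw [this]; exact K₀.mul_mem hss hss'
    · exact K₀.sub_mem (K₀.sub_mem (K₀.sub_mem (K₀.add_mem (K₀.sub_mem (K₀.sub_mem
        (K₀.mul_mem hc₀ hd₀) (K₀.mul_mem hc₁ hd₁)) (K₀.mul_mem hc₂ hd₂))
        (K₀.mul_mem (K₀.sub_mem htab (K₀.mul_mem hta htb)) (K₀.mul_mem hc₂ hd₁)))
        (K₀.mul_mem hta (K₀.mul_mem hc₂ hd₃))) (K₀.mul_mem htb (K₀.mul_mem hc₃ hd₁)))
        (K₀.mul_mem hc₃ hd₃)
    · exact K₀.sub_mem (K₀.add_mem (K₀.add_mem (K₀.add_mem (K₀.add_mem (K₀.add_mem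
        (K₀.mul_mem hc₀ hd₁) (K₀.mul_mem hc₁ hd₀)) (K₀.mul_mem hta (K₀.mul_mem hc₁ hd₁)))
        (K₀.mul_mem htb (K₀.mul_mem hc₂ hd₁))) (K₀.mul_mem hc₂ hd₃))
        (K₀.mul_mem htab (K₀.mul_mem hc₃ hd₁))) (K₀.mul_mem hc₃ hd₂)
    · exact K₀.add_mem (K₀.add_mem (K₀.add_mem (K₀.add_mem (K₀.sub_mem (K₀.add_mem
        (K₀.mul_mem hc₀ hd₂) (K₀.mul_mem hc₂ hd₀)) (K₀.mul_mem hc₁ hd₃))
        (K₀.mul_mem hta (K₀.mul_mem hc₂ hd₁))) (K₀.mul_mem htb (K₀.mul_mem hc₂ hd₂)))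
        (K₀.mul_mem htab (K₀.mul_mem hc₂ hd₃))) (K₀.mul_mem hc₃ hd₁)
    · exact K₀.add_mem (K₀.add_mem (K₀.sub_mem (K₀.add_mem (K₀.add_mem (K₀.add_mem
        (K₀.mul_mem hc₀ hd₃) (K₀.mul_mem hc₃ hd₀)) (K₀.mul_mem hc₁ hd₂))
        (K₀.mul_mem hta (K₀.mul_mem hc₁ hd₃))) (K₀.mul_mem hc₂ hd₁))
        (K₀.mul_mem htb (K₀.mul_mem hc₃ hd₂))) (K₀.mul_mem htab (K₀.mul_mem hc₃ hd₃))
    · have e00 : s * s' * (g * g') 0 0 = (s * g 0 0) * (s' * g' 0 0) + (s * g 0 1) * (s' * g' 1 0) := by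
        rw [mul00]; ring
      have e01 : s * s' * (g * g') 0 1 = (s * g 0 0) * (s' * g' 0 1) + (s * g 0 1) * (s' * g' 1 1) := by
        rw [mul01]; ring
      have e10 : s * s' * (g * g') 1 0 = (s * g 1 0) * (s' * g' 0 0) + (s * g 1 1) * (s' * g' 1 0) := by
        rw [mul10]; ring
      have e11 : s * s' * (g * g') 1 1 = (s * g 1 0) * (s' * g' 0 1) + (s * g 1 1) * (s' * g' 1 1) := by
        rw [mul11]; ring
      rw [e00, e01, e10, e11]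
      exact key
  inv_mem' := by
    rintro g ⟨s, hs, hss, c₀, hc₀, c₁, hc₁, c₂, hc₂, c₃, hc₃, h⟩
    have ht := cmb_tr a b c₀ c₁ c₂ c₃ _ _ _ _ h
    have h2K : (2 : F) ∈ K₀ := by
      have : (2 : F) = 1 + 1 := by norm_num
      rw [this]; exact K₀.add_mem K₀.one_mem K₀.one_mem
    refine ⟨s, hs, hss, 2 * c₀ + c₁ * tr a + c₂ * tr b + c₃ * tr (a * b) - c₀, ?_, -c₁,
      K₀.neg_mem hc₁, -c₂, K₀.neg_mem hc₂, -c₃, K₀.neg_mem hc₃, ?_⟩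
    · exact K₀.sub_mem (K₀.add_mem (K₀.add_mem (K₀.add_mem (K₀.mul_mem h2K hc₀)
        (K₀.mul_mem hc₁ hta)) (K₀.mul_mem hc₂ htb)) (K₀.mul_mem hc₃ htab)) hc₀
    · obtain ⟨h1, h2, h3, h4⟩ := h
      rw [inv00, inv01, inv10, inv11]
      unfold tr
      rw [mul00, mul11]
      refine ⟨?_, ?_, ?_, ?_⟩
      · linear_combination h4
      · linear_combination -h2
      · linear_combination -h3
      · linear_combination h1

theorem mem_AlgS (K₀ : Subfield F) (a b : S2 F) (hta : tr a ∈ K₀) (htb : tr b ∈ K₀)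
    (htab : tr (a * b) ∈ K₀) (g : S2 F) :
    g ∈ AlgS K₀ a b hta htb htab ↔ ∃ s : F, s ≠ 0 ∧ s * s ∈ K₀ ∧ ∃ c₀ ∈ K₀, ∃ c₁ ∈ K₀,
      ∃ c₂ ∈ K₀, ∃ c₃ ∈ K₀, Cmb a b c₀ c₁ c₂ c₃ (s * g 0 0) (s * g 0 1) (s * g 1 0) (s * g 1 1) :=
  Iff.rfl

theorem left_mem_AlgS (K₀ : Subfield F) (a b : S2 F) (hta : tr a ∈ K₀) (htb : tr b ∈ K₀)
    (htab : tr (a * b) ∈ K₀) : a ∈ AlgS K₀ a b hta htb htab := by
  refine ⟨1, one_ne_zero, by rw [one_mul]; exact K₀.one_mem, 0, K₀.zero_mem, 1, K₀.one_mem,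
    0, K₀.zero_mem, 0, K₀.zero_mem, ?_, ?_, ?_, ?_⟩ <;> ring

theorem right_mem_AlgS (K₀ : Subfield F) (a b : S2 F) (hta : tr a ∈ K₀) (htb : tr b ∈ K₀)
    (htab : tr (a * b) ∈ K₀) : b ∈ AlgS K₀ a b hta htb htab := by
  refine ⟨1, one_ne_zero, by rw [one_mul]; exact K₀.one_mem, 0, K₀.zero_mem, 0, K₀.zero_mem,
    1, K₀.one_mem, 0, K₀.zero_mem, ?_, ?_, ?_, ?_⟩ <;> ring

theorem center_le_AlgS (K₀ : Subfield F) (a b : S2 F) (hta : tr a ∈ K₀) (htb : tr b ∈ K₀)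
    (htab : tr (a * b) ∈ K₀) : Subgroup.center (S2 F) ≤ AlgS K₀ a b hta htb htab := by
  intro z hz
  rcases isSc_eq z ((isSc_iff_center z).2 hz) with h | h
  · rw [h]; exact Subgroup.one_mem _
  · rw [h]
    refine ⟨1, one_ne_zero, by rw [one_mul]; exact K₀.one_mem, -1, K₀.neg_mem K₀.one_mem,
      0, K₀.zero_mem, 0, K₀.zero_mem, 0, K₀.zero_mem, ?_, ?_, ?_, ?_⟩ <;> simp [negOne]

theorem tr_sq_mem_of_AlgS (K₀ : Subfield F) (a b : S2 F) (hta : tr a ∈ K₀) (htb : tr b ∈ K₀)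
    (htab : tr (a * b) ∈ K₀) (g : S2 F) (hg : g ∈ AlgS K₀ a b hta htb htab) :
    tr g * tr g ∈ K₀ := by
  obtain ⟨s, hs, hss, c₀, hc₀, c₁, hc₁, c₂, hc₂, c₃, hc₃, h⟩ := hg
  have ht := cmb_tr a b c₀ c₁ c₂ c₃ _ _ _ _ h
  have h2K : (2 : F) ∈ K₀ := by
    have : (2 : F) = 1 + 1 := by norm_num
    rw [this]; exact K₀.add_mem K₀.one_mem K₀.one_mem
  have hT : s * g 0 0 + s * g 1 1 ∈ K₀ := by
    rw [ht]
    exact K₀.add_mem (K₀.add_mem (K₀.add_mem (K₀.mul_mem h2K hc₀)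
        (K₀.mul_mem hc₁ hta)) (K₀.mul_mem hc₂ htb)) (K₀.mul_mem hc₃ htab)
  have e : tr g * tr g = (s * g 0 0 + s * g 1 1) * (s * g 0 0 + s * g 1 1) * (s * s)⁻¹ := by
    unfold tr
    field_simp
  rw [e]
  exact K₀.mul_mem (K₀.mul_mem hT hT) (K₀.inv_mem hss)

theorem AlgS_ne_top (h2 : (2 : F) ≠ 0) (K₀ : Subfield F) (a b : S2 F) (hta : tr a ∈ K₀)
    (htb : tr b ∈ K₀) (htab : tr (a * b) ∈ K₀) (hne : K₀ ≠ ⊤) :
    AlgS K₀ a b hta htb htab ≠ ⊤ := by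
  intro htop
  apply hne
  rw [eq_top_iff]
  intro y _
  have key : ∀ w : F, w * w ∈ K₀ := by
    intro w
    have h1 : mk2 w (-1) 1 0 (by ring) ∈ AlgS K₀ a b hta htb htab := by
      rw [htop]; exact Subgroup.mem_top _
    have h3 := tr_sq_mem_of_AlgS K₀ a b hta htb htab _ h1
    unfold tr at h3
    simp only [mk2_00, mk2_11, add_zero] at h3
    exact h3
  have h1 := key y
  have h3 := key (y + 1)
  have h2' : (2 : F) ∈ K₀ := by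
    have : (2 : F) = 1 + 1 := by norm_num
    rw [this]; exact K₀.add_mem K₀.one_mem K₀.one_mem
  have e : y = ((y + 1) * (y + 1) - y * y - 1) * (2 : F)⁻¹ := by field_simp; ring
  rw [e]
  exact K₀.mul_mem (K₀.sub_mem (K₀.sub_mem h3 h1) K₀.one_mem) (K₀.inv_mem h2')

end AlgSub

section Unip

variable {F : Type*} [Field F]

theorem odd_card_subfield [Finite F] (p : ℕ) [Fact p.Prime] [CharP F p] (h2 : (2 : F) ≠ 0)
    (K₀ : Subfield F) [Fintype K₀] : Fintype.card K₀ % 2 = 1 := by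
  haveI : CharP K₀ p := RingHom.charP K₀.subtype (fun a b hab => Subtype.ext hab) p
  obtain ⟨n, -, hn⟩ := FiniteField.card K₀ p
  have hp2 := char_ne_two (F := F) p h2
  have hpodd : Odd p := ((Fact.out : p.Prime).eq_two_or_odd').resolve_left hp2
  rw [hn]
  exact Nat.odd_iff.1 hpodd.pow

/-- a non-zero nilpotent element in the span -/
theorem exists_nilp [Finite F] (p : ℕ) [Fact p.Prime] [CharP F p] (h2 : (2 : F) ≠ 0)
    (K₀ : Subfield F) (a b : S2 F) (hta : tr a = 0) (htb : tr b ∈ K₀) (htab : tr (a * b) ∈ K₀)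
    (hD : tr b ^ 2 + tr (a * b) ^ 2 ≠ 4) :
    ∃ c₀ ∈ K₀, ∃ c₁ ∈ K₀, ∃ c₂ ∈ K₀, ∃ c₃ ∈ K₀, ∃ n00 n01 n10 n11 : F,
      Cmb a b c₀ c₁ c₂ c₃ n00 n01 n10 n11 ∧ n00 + n11 = 0 ∧ n00 * n11 - n01 * n10 = 0 ∧
      (n00 ≠ 0 ∨ n01 ≠ 0 ∨ n10 ≠ 0 ∨ n11 ≠ 0) := by
  classical
  haveI : Fintype K₀ := Fintype.ofFinite _
  have h2K : (2 : F) ∈ K₀ := by
    have : (2 : F) = 1 + 1 := by norm_num
    rw [this]; exact K₀.add_mem K₀.one_mem K₀.one_mem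
  obtain ⟨t, htdef⟩ : ∃ t : F, t = (2 : F)⁻¹ := ⟨_, rfl⟩
  have ht : 2 * t = 1 := by rw [htdef]; exact mul_inv_cancel₀ h2
  have htK : t ∈ K₀ := by rw [htdef]; exact K₀.inv_mem h2K
  obtain ⟨β, hβ⟩ : ∃ β : F, β = tr b := ⟨_, rfl⟩
  obtain ⟨γ, hγ⟩ : ∃ γ : F, γ = tr (a * b) := ⟨_, rfl⟩
  rw [← hβ] at htb hD
  rw [← hγ] at htab hD
  obtain ⟨D, hDdef⟩ : ∃ D : F, D = 1 - (β ^ 2 + γ ^ 2) * t * t := ⟨_, rfl⟩
  have hDK : D ∈ K₀ := by
    rw [hDdef]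
    exact K₀.sub_mem K₀.one_mem (K₀.mul_mem (K₀.mul_mem
      (K₀.add_mem (K₀.pow_mem htb 2) (K₀.pow_mem htab 2)) htK) htK)
  have hD0 : D ≠ 0 := by
    intro h
    rw [hDdef] at h
    apply hD
    linear_combination (-4 : F) * h - (β ^ 2 + γ ^ 2) * (1 + 2 * t) * ht
  have hD0' : (⟨D, hDK⟩ : K₀) ≠ 0 := fun h => hD0 (congrArg Subtype.val h)
  obtain ⟨u, v, huv⟩ := FiniteField.exists_root_sum_quadratic (R := K₀)
    (f := Polynomial.X ^ 2)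
    (g := Polynomial.C (⟨D, hDK⟩ : K₀) * Polynomial.X ^ 2 + Polynomial.C 0 * Polynomial.X
      + Polynomial.C (⟨D, hDK⟩ : K₀))
    (Polynomial.degree_X_pow 2) (Polynomial.degree_quadratic hD0') (odd_card_subfield p h2 K₀)
  simp only [Polynomial.eval_add, Polynomial.eval_mul, Polynomial.eval_pow, Polynomial.eval_X,
    Polynomial.eval_C, zero_mul, add_zero] at huv
  have huv' : (u : F) ^ 2 + (D * (v : F) ^ 2 + D) = 0 := by
    have := congrArg Subtype.val huv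
    simpa using this
  obtain ⟨u', hu'⟩ : ∃ u' : F, u' = (u : F) := ⟨_, rfl⟩
  obtain ⟨v', hv'⟩ : ∃ v' : F, v' = (v : F) := ⟨_, rfl⟩
  have huK : u' ∈ K₀ := by rw [hu']; exact u.2
  have hvK : v' ∈ K₀ := by rw [hv']; exact v.2
  rw [← hu', ← hv', hDdef] at huv'
  have hcmb : Cmb a b (-(β * v' + γ) * t) (u' + γ * v' * t - β * t) v' 1
      (-(β * v' + γ) * t + (u' + γ * v' * t - β * t) * a 0 0 + v' * b 0 0
        + 1 * (a 0 0 * b 0 0 + a 0 1 * b 1 0))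
      ((u' + γ * v' * t - β * t) * a 0 1 + v' * b 0 1 + 1 * (a 0 0 * b 0 1 + a 0 1 * b 1 1))
      ((u' + γ * v' * t - β * t) * a 1 0 + v' * b 1 0 + 1 * (a 1 0 * b 0 0 + a 1 1 * b 1 0))
      (-(β * v' + γ) * t + (u' + γ * v' * t - β * t) * a 1 1 + v' * b 1 1
        + 1 * (a 1 0 * b 0 1 + a 1 1 * b 1 1)) := ⟨rfl, rfl, rfl, rfl⟩
  have h_tr := cmb_tr a b _ _ _ _ _ _ _ _ hcmb
  have h_det := cmb_det a b _ _ _ _ _ _ _ _ hcmb
  have h_a := cmb_tr_a a b _ _ _ _ _ _ _ _ hcmb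
  have h_b := cmb_tr_b a b _ _ _ _ _ _ _ _ hcmb
  rw [hta, ← hβ, ← hγ] at h_tr h_det h_a h_b
  refine ⟨_, ?_, _, ?_, v', hvK, 1, K₀.one_mem, _, _, _, _, hcmb, ?_, ?_, ?_⟩
  · exact K₀.mul_mem (K₀.neg_mem (K₀.add_mem (K₀.mul_mem htb hvK) htab)) htK
  · exact K₀.sub_mem (K₀.add_mem huK (K₀.mul_mem (K₀.mul_mem htab hvK) htK)) (K₀.mul_mem htb htK)
  · rw [h_tr]
    linear_combination (-(β * v' + γ)) * ht
  · rw [h_det]
    linear_combination huv' + ((β ^ 2 + γ ^ 2) * (v' ^ 2 + 1) * t + u' * (γ * v' - β)) * ht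
  · by_contra hcon
    push Not at hcon
    obtain ⟨e00, e01, e10, e11⟩ := hcon
    rw [e00, e01, e10, e11] at h_a h_b
    have hu0 : u' = 0 := by
      have : 2 * u' = 0 := by
        linear_combination h_a + (-(γ * v' - β)) * ht
      rcases mul_eq_zero.1 this with h | h
      · exact absurd h h2
      · exact h
    rw [hu0] at h_b huv'
    have hv0 : v' = 0 := by
      have : (2 * D) * v' = 0 := by
        rw [hDdef]
        linear_combination h_b + (-(β * γ + v' * γ ^ 2 * t + v' * β ^ 2 * (1 + t))) * ht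
      rcases mul_eq_zero.1 this with h | h
      · exact absurd h (mul_ne_zero h2 hD0)
      · exact h
    rw [hv0] at huv'
    apply hD0
    rw [hDdef]
    linear_combination huv'

/-- the unipotent subgroup of the algebra group -/
theorem exists_unip [Finite F] (p : ℕ) [Fact p.Prime] [CharP F p] (h2 : (2 : F) ≠ 0)
    (K₀ : Subfield F) (a b : S2 F) (hta0 : tr a = 0) (hta : tr a ∈ K₀) (htb : tr b ∈ K₀)
    (htab : tr (a * b) ∈ K₀) (hD : tr b ^ 2 + tr (a * b) ^ 2 ≠ 4) :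
    ∃ f : Multiplicative K₀ →* S2 F, Function.Injective f ∧
      ∀ c, f c ∈ AlgS K₀ a b hta htb htab := by
  obtain ⟨c₀, hc₀, c₁, hc₁, c₂, hc₂, c₃, hc₃, n00, n01, n10, n11, hn, htr, hdet, hne⟩ :=
    exists_nilp p h2 K₀ a b hta0 htb htab hD
  let U : F → S2 F := fun c => mk2 (1 + c * n00) (c * n01) (c * n10) (1 + c * n11)
    (by linear_combination c * htr + c ^ 2 * hdet)
  have hmul : ∀ c d : F, U (c + d) = U c * U d := by
    intro c d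
    apply ext2
    · rw [mul00]
      show 1 + (c + d) * n00 = (1 + c * n00) * (1 + d * n00) + c * n01 * (d * n10)
      linear_combination (-(c * d * n00)) * htr + (c * d) * hdet
    · rw [mul01]
      show (c + d) * n01 = (1 + c * n00) * (d * n01) + c * n01 * (1 + d * n11)
      linear_combination (-(c * d * n01)) * htr
    · rw [mul10]
      show (c + d) * n10 = c * n10 * (1 + d * n00) + (1 + c * n11) * (d * n10)
      linear_combination (-(c * d * n10)) * htr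
    · rw [mul11]
      show 1 + (c + d) * n11 = c * n10 * (d * n01) + (1 + c * n11) * (1 + d * n11)
      linear_combination (-(c * d * n11)) * htr + (c * d) * hdet
  refine ⟨MonoidHom.mk' (fun c : Multiplicative K₀ => U ((Multiplicative.toAdd c : K₀) : F))
    (fun c d => hmul _ _), ?_, ?_⟩
  · intro c d hcd
    have hcd' : U ((Multiplicative.toAdd c : K₀) : F) = U ((Multiplicative.toAdd d : K₀) : F) :=
      hcd
    have key : ((Multiplicative.toAdd c : K₀) : F) = ((Multiplicative.toAdd d : K₀) : F) := by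
      have e00 : (1 : F) + ((Multiplicative.toAdd c : K₀) : F) * n00
          = 1 + ((Multiplicative.toAdd d : K₀) : F) * n00 := congrArg (fun g : S2 F => g 0 0) hcd'
      have e01 : ((Multiplicative.toAdd c : K₀) : F) * n01
          = ((Multiplicative.toAdd d : K₀) : F) * n01 := congrArg (fun g : S2 F => g 0 1) hcd'
      have e10 : ((Multiplicative.toAdd c : K₀) : F) * n10
          = ((Multiplicative.toAdd d : K₀) : F) * n10 := congrArg (fun g : S2 F => g 1 0) hcd'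
      have e11 : (1 : F) + ((Multiplicative.toAdd c : K₀) : F) * n11
          = 1 + ((Multiplicative.toAdd d : K₀) : F) * n11 := congrArg (fun g : S2 F => g 1 1) hcd'
      rcases hne with h | h | h | h
      · exact mul_right_cancel₀ h (by linear_combination e00)
      · exact mul_right_cancel₀ h e01
      · exact mul_right_cancel₀ h e10
      · exact mul_right_cancel₀ h (by linear_combination e11)
    exact Multiplicative.toAdd.injective (Subtype.ext key)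
  · intro c
    obtain ⟨h1, h3, h4, h5⟩ := hn
    have hcK : ((Multiplicative.toAdd c : K₀) : F) ∈ K₀ := (Multiplicative.toAdd c).2
    refine ⟨1, one_ne_zero, by rw [one_mul]; exact K₀.one_mem,
      1 + ((Multiplicative.toAdd c : K₀) : F) * c₀, K₀.add_mem K₀.one_mem (K₀.mul_mem hcK hc₀),
      ((Multiplicative.toAdd c : K₀) : F) * c₁, K₀.mul_mem hcK hc₁,
      ((Multiplicative.toAdd c : K₀) : F) * c₂, K₀.mul_mem hcK hc₂,
      ((Multiplicative.toAdd c : K₀) : F) * c₃, K₀.mul_mem hcK hc₃, ?_, ?_, ?_, ?_⟩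
    · show 1 * (1 + ((Multiplicative.toAdd c : K₀) : F) * n00) = _
      linear_combination ((Multiplicative.toAdd c : K₀) : F) * h1
    · show 1 * (((Multiplicative.toAdd c : K₀) : F) * n01) = _
      linear_combination ((Multiplicative.toAdd c : K₀) : F) * h3
    · show 1 * (((Multiplicative.toAdd c : K₀) : F) * n10) = _
      linear_combination ((Multiplicative.toAdd c : K₀) : F) * h4
    · show 1 * (1 + ((Multiplicative.toAdd c : K₀) : F) * n11) = _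
      linear_combination ((Multiplicative.toAdd c : K₀) : F) * h5

theorem card_dvd_of_AlgS_le [Finite F] (p : ℕ) [Fact p.Prime] [CharP F p] (h2 : (2 : F) ≠ 0)
    (K₀ : Subfield F) (a b : S2 F) (hta0 : tr a = 0) (hta : tr a ∈ K₀) (htb : tr b ∈ K₀)
    (htab : tr (a * b) ∈ K₀) (hD : tr b ^ 2 + tr (a * b) ^ 2 ≠ 4) (L : Subgroup (S2 F))
    (hle : AlgS K₀ a b hta htb htab ≤ L) : Nat.card K₀ ∣ Nat.card L := by
  obtain ⟨f, hinj, hmem⟩ := exists_unip p h2 K₀ a b hta0 hta htb htab hD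
  have h1 := Subgroup.card_dvd_of_injective (f.codRestrict L (fun c => hle (hmem c)))
    (fun c d hcd => hinj (congrArg Subtype.val hcd))
  have e : Nat.card (Multiplicative K₀) = Nat.card K₀ := Nat.card_congr Multiplicative.toAdd
  rwa [e] at h1

end Unip

end Cfsg.Agent.Lib.Helper19.Dk
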