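import Mathlib
import Cfsg.Agent.Lib.Helper19.DkQ
import Cfsg.Agent.S0801
import Cfsg.Agent.S0807

set_option autoImplicit false

namespace Cfsg.Agent.Lib.Helper19.Dk

open Matrix Cfsg.Agent.S0809

section Gens

variable {F : Type*} [Field F]

theorem Lof_le_of_gens {X : Type*} [Group X] (M : Subgroup (P2 F)) (φ : M ≃* X) (x₁ x₂ : X)
    (hgen : Subgroup.closure {x₁, x₂} = ⊤) (g₁ g₂ : S2 F) (h₁ : prj F g₁ ∈ M)
    (h₂ : prj F g₂ ∈ M) (e₁ : φ ⟨prj F g₁, h₁⟩ = x₁) (e₂ : φ ⟨prj F g₂, h₂⟩ = x₂)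
    (A : Subgroup (S2 F)) (hZ : Subgroup.center (S2 F) ≤ A) (ha₁ : g₁ ∈ A) (ha₂ : g₂ ∈ A) :
    Lof M ≤ A := by
  have key : M ≤ A.map (prj F) := by
    have hN : ((A.map (prj F)).subgroupOf M).map φ.toMonoidHom = ⊤ := by
      rw [eq_top_iff, ← hgen, Subgroup.closure_le]
      rintro x (rfl | rfl)
      · exact ⟨⟨prj F g₁, h₁⟩, Subgroup.mem_subgroupOf.2 (Subgroup.mem_map_of_mem _ ha₁), e₁⟩
      · exact ⟨⟨prj F g₂, h₂⟩, Subgroup.mem_subgroupOf.2 (Subgroup.mem_map_of_mem _ ha₂), e₂⟩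
    intro m hm
    have h3 : φ ⟨m, hm⟩ ∈ ((A.map (prj F)).subgroupOf M).map φ.toMonoidHom := by
      rw [hN]; exact Subgroup.mem_top _
    obtain ⟨m', hm', he⟩ := h3
    have h4 : m' = ⟨m, hm⟩ := φ.injective he
    rw [h4] at hm'
    exact Subgroup.mem_subgroupOf.1 hm'
  intro g hg
  exact (map_prj_mem A hZ g).1 (key hg)

theorem exists_lift_iso {X : Type*} [Group X] (M : Subgroup (P2 F)) (φ : M ≃* X) (x : X) :
    ∃ g : S2 F, ∃ h : prj F g ∈ M, φ ⟨prj F g, h⟩ = x := by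
  obtain ⟨g, hg, he⟩ := exists_lift M (φ.symm x)
  refine ⟨g, hg, ?_⟩
  have : (⟨prj F g, hg⟩ : M) = φ.symm x := Subtype.ext he
  rw [this, MulEquiv.apply_symm_apply]

theorem iso_mul {X : Type*} [Group X] (M : Subgroup (P2 F)) (φ : M ≃* X) (g₁ g₂ : S2 F)
    (h₁ : prj F g₁ ∈ M) (h₂ : prj F g₂ ∈ M) :
    ∃ h : prj F (g₁ * g₂) ∈ M,
      φ ⟨prj F (g₁ * g₂), h⟩ = φ ⟨prj F g₁, h₁⟩ * φ ⟨prj F g₂, h₂⟩ := by
  have h : prj F (g₁ * g₂) ∈ M := by rw [map_mul]; exact M.mul_mem h₁ h₂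
  refine ⟨h, ?_⟩
  rw [← map_mul]
  congr 1

theorem not_isSc_of_iso {X : Type*} [Group X] (M : Subgroup (P2 F)) (φ : M ≃* X) (g : S2 F)
    (h : prj F g ∈ M) (hx : φ ⟨prj F g, h⟩ ≠ 1) : ¬ IsSc g := by
  intro hs
  apply hx
  have : (⟨prj F g, h⟩ : M) = 1 := Subtype.ext ((prj_eq_one_iff g).2 hs)
  rw [this, map_one]

theorem tr_of_iso2 {X : Type*} [Group X] (M : Subgroup (P2 F)) (φ : M ≃* X) (g : S2 F)
    (h : prj F g ∈ M) (hx : φ ⟨prj F g, h⟩ ≠ 1) (hx2 : φ ⟨prj F g, h⟩ ^ 2 = 1) : tr g = 0 :=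
  isSc_pow2 g (not_isSc_of_iso M φ g h hx) (Cfsg.Agent.S0801.ord_of_iso M φ 2 g h hx2)

theorem tr_of_iso3 {X : Type*} [Group X] (M : Subgroup (P2 F)) (φ : M ≃* X) (g : S2 F)
    (h : prj F g ∈ M) (hx : φ ⟨prj F g, h⟩ ≠ 1) (hx3 : φ ⟨prj F g, h⟩ ^ 3 = 1) :
    tr g ^ 2 = 1 := by
  have := isSc_pow3 g (not_isSc_of_iso M φ g h hx) (Cfsg.Agent.S0801.ord_of_iso M φ 3 g h hx3)
  linear_combination this

theorem tr_of_iso5 {X : Type*} [Group X] (M : Subgroup (P2 F)) (φ : M ≃* X) (g : S2 F)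
    (h : prj F g ∈ M) (hx : φ ⟨prj F g, h⟩ ≠ 1) (hx5 : φ ⟨prj F g, h⟩ ^ 5 = 1) :
    tr g ^ 4 - 3 * tr g ^ 2 + 1 = 0 :=
  isSc_pow5 g (not_isSc_of_iso M φ g h hx) (Cfsg.Agent.S0801.ord_of_iso M φ 5 g h hx5)

theorem tr_of_iso4 {X : Type*} [Group X] (M : Subgroup (P2 F)) (φ : M ≃* X) (g : S2 F)
    (h : prj F g ∈ M) (hx2 : φ ⟨prj F g, h⟩ ^ 2 ≠ 1) (hx4 : φ ⟨prj F g, h⟩ ^ 4 = 1) :
    tr g ^ 2 = 2 := by
  have hx : φ ⟨prj F g, h⟩ ≠ 1 := by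
    intro h1
    apply hx2
    rw [h1, one_pow]
  have h1 := isSc_pow4 g (not_isSc_of_iso M φ g h hx) (Cfsg.Agent.S0801.ord_of_iso M φ 4 g h hx4)
  have h0 : tr g ≠ 0 := by
    intro h0
    apply hx2
    have hs : IsSc (g ^ 2) := Cfsg.Agent.S0801.isSc_of_rep _ _ _ (rep_pow2 g) h0
    have h3 : (⟨prj F g, h⟩ : M) ^ 2 = 1 := by
      apply Subtype.ext
      rw [Subgroup.coe_pow]
      show prj F g ^ 2 = 1
      rw [← map_pow]
      exact (prj_eq_one_iff _).2 hs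
    rw [← map_pow, h3, map_one]
  have h3 : tr g * (tr g ^ 2 - 2) = 0 := by linear_combination h1
  rcases mul_eq_zero.1 h3 with h4 | h4
  · exact absurd h4 h0
  · linear_combination h4

end Gens

section Perms

/-- `(01)(23)` in `A₄` -/
def a4a : alternatingGroup (Fin 4) :=
  ⟨Equiv.swap 0 1 * Equiv.swap 2 3, Equiv.Perm.mem_alternatingGroup.2 (by decide)⟩

/-- `(02)(13)` in `A₄` -/
def a4b : alternatingGroup (Fin 4) :=
  ⟨Equiv.swap 0 2 * Equiv.swap 1 3, Equiv.Perm.mem_alternatingGroup.2 (by decide)⟩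

/-- `(012)` in `A₄` -/
def a4c : alternatingGroup (Fin 4) :=
  ⟨Equiv.swap 0 1 * Equiv.swap 1 2, Equiv.Perm.mem_alternatingGroup.2 (by decide)⟩

theorem a4_words : ∀ g : alternatingGroup (Fin 4), g = 1 ∨ g = a4a ∨ g = a4c ∨ g = a4a * a4c ∨
    g = a4c * a4a ∨ g = a4c * a4c ∨ g = a4a * a4c * a4a ∨ g = a4a * a4c * a4c ∨
    g = a4c * a4a * a4c ∨ g = a4c * a4c * a4a ∨ g = a4c * a4a * a4c * a4c ∨
    g = a4c * a4c * a4a * a4c := by
  decide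

theorem a4_gen : Subgroup.closure {a4a, a4c} = ⊤ := by
  rw [eq_top_iff]
  intro g _
  have ha : a4a ∈ Subgroup.closure {a4a, a4c} := Subgroup.subset_closure (by simp)
  have hc : a4c ∈ Subgroup.closure {a4a, a4c} := Subgroup.subset_closure (by simp)
  rcases a4_words g with h | h | h | h | h | h | h | h | h | h | h | h <;> rw [h]
  · exact Subgroup.one_mem _
  · exact ha
  · exact hc
  · exact Subgroup.mul_mem _ ha hc
  · exact Subgroup.mul_mem _ hc ha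
  · exact Subgroup.mul_mem _ hc hc
  · exact Subgroup.mul_mem _ (Subgroup.mul_mem _ ha hc) ha
  · exact Subgroup.mul_mem _ (Subgroup.mul_mem _ ha hc) hc
  · exact Subgroup.mul_mem _ (Subgroup.mul_mem _ hc ha) hc
  · exact Subgroup.mul_mem _ (Subgroup.mul_mem _ hc hc) ha
  · exact Subgroup.mul_mem _ (Subgroup.mul_mem _ (Subgroup.mul_mem _ hc ha) hc) hc
  · exact Subgroup.mul_mem _ (Subgroup.mul_mem _ (Subgroup.mul_mem _ hc hc) ha) hc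

theorem a4_facts : a4a ≠ 1 ∧ a4a ^ 2 = 1 ∧ a4c ≠ 1 ∧ a4c ^ 3 = 1 ∧ a4a * a4c ≠ 1 ∧
    (a4a * a4c) ^ 3 = 1 := by
  decide

theorem a4_klein : a4a * a4a = 1 ∧ a4b * a4b = 1 ∧ a4a * a4b = a4b * a4a ∧ a4a ≠ 1 ∧ a4b ≠ 1 ∧
    a4a ≠ a4b := by
  decide

theorem a4_klein_normal : ∀ μ v : alternatingGroup (Fin 4),
    (v = 1 ∨ v = a4a ∨ v = a4b ∨ v = a4a * a4b) →
    (μ * v * μ⁻¹ = 1 ∨ μ * v * μ⁻¹ = a4a ∨ μ * v * μ⁻¹ = a4b ∨ μ * v * μ⁻¹ = a4a * a4b) := by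
  decide +kernel

/-- `(0123)` in `S₄` -/
def s4c : Equiv.Perm (Fin 4) := finRotate 4

/-- `(01)` in `S₄` -/
def s4d : Equiv.Perm (Fin 4) := Equiv.swap 0 1

theorem s4_gen : Subgroup.closure {s4c, s4d} = ⊤ := by
  have h := Equiv.Perm.closure_cycle_adjacent_swap (σ := finRotate 4) isCycle_finRotate
    support_finRotate 0
  have e : Equiv.swap (0 : Fin 4) (finRotate 4 0) = s4d := by decide
  rw [e] at h
  exact h

theorem s4_facts : s4c ^ 2 ≠ 1 ∧ s4c ^ 4 = 1 ∧ s4c * s4c ≠ 1 ∧ (s4c * s4c) ^ 2 = 1 ∧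
    s4d * s4c ≠ 1 ∧ (s4d * s4c) ^ 3 = 1 ∧ s4c * s4c * (s4d * s4c) ≠ 1 ∧
    (s4c * s4c * (s4d * s4c)) ^ 3 = 1 := by
  decide

/-- `(012)` in `S₄` -/
def s4t : Equiv.Perm (Fin 4) := Equiv.swap 0 1 * Equiv.swap 1 2

theorem s4_dih : s4t ^ 3 = 1 ∧ s4t ≠ 1 ∧ s4d ^ 2 = 1 ∧ s4d ≠ 1 ∧ s4d * s4t * s4d⁻¹ = s4t⁻¹ := by
  decide

/-- `(02)(13)` in `A₅` -/
def a5b : alternatingGroup (Fin 5) :=
  ⟨Equiv.swap 0 2 * Equiv.swap 1 3, Equiv.Perm.mem_alternatingGroup.2 (by decide)⟩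

/-- `(012)` in `A₅` -/
def a5c : alternatingGroup (Fin 5) :=
  ⟨Equiv.swap 0 1 * Equiv.swap 1 2, Equiv.Perm.mem_alternatingGroup.2 (by decide)⟩

/-- `(14)(23)` in `A₅` -/
def a5d : alternatingGroup (Fin 5) :=
  ⟨Equiv.swap 1 4 * Equiv.swap 2 3, Equiv.Perm.mem_alternatingGroup.2 (by decide)⟩

open Cfsg.Agent.Lib.Helper19.A5P in
theorem a5_klein : a0 * a0 = 1 ∧ a5b * a5b = 1 ∧ a0 * a5b = a5b * a0 ∧ a0 ≠ 1 ∧ a5b ≠ 1 ∧
    a0 ≠ a5b ∧ a5c ^ 3 = 1 ∧ a5c ≠ 1 ∧ a5c * a0 * a5c⁻¹ = a0 * a5b ∧ a5c * a5b * a5c⁻¹ = a0 ∧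
    a5c * (a0 * a5b) * a5c⁻¹ = a5b := by
  decide

open Cfsg.Agent.Lib.Helper19.A5P in
theorem a5_dih : x0 ^ 5 = 1 ∧ x0 ≠ 1 ∧ a5d ^ 2 = 1 ∧ a5d ≠ 1 ∧ a5d * x0 * a5d⁻¹ = x0⁻¹ := by
  decide

open Cfsg.Agent.Lib.Helper19.A5P in
theorem a5_facts : a0 ≠ 1 ∧ a0 ^ 2 = 1 ∧ x0 ≠ 1 ∧ x0 ^ 5 = 1 ∧ a0 * x0 ≠ 1 ∧
    (a0 * x0) ^ 3 = 1 := by
  decide

end Perms

section SimpleExcl

variable {G : Type*} [Group G]

theorem nrm_eq_of_coatom [Finite G] [IsSimpleGroup G] (M V : Subgroup G) (hM : IsCoatom M)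
    (hVn : ∀ m ∈ M, ∀ v ∈ V, m * v * m⁻¹ ∈ V) (hV1 : V ≠ ⊥) (hV2 : V ≠ ⊤) :
    Subgroup.normalizer (V : Set G) = M := by
  have h1 : M ≤ Subgroup.normalizer (V : Set G) := fun m hm =>
    (mem_normalizer_fin V m).2 (hVn m hm)
  rcases hM.le_iff.1 h1 with h | h
  · exfalso
    have hn : V.Normal := Subgroup.normalizer_eq_top_iff.1 h
    rcases hn.eq_bot_or_eq_top with h' | h'
    · exact hV1 h'
    · exact hV2 h'
  · exact h

/-- the embedding of `X` attached to an isomorphism of a subgroup with `X` -/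
def emb {X : Type*} [Group X] (H : Subgroup G) (ψ : H ≃* X) : X →* G :=
  H.subtype.comp ψ.symm.toMonoidHom

theorem emb_inj {X : Type*} [Group X] (H : Subgroup G) (ψ : H ≃* X) :
    Function.Injective (emb H ψ) :=
  H.subtype_injective.comp ψ.symm.injective

theorem emb_mem {X : Type*} [Group X] (H : Subgroup G) (ψ : H ≃* X) (x : X) : emb H ψ x ∈ H :=
  (ψ.symm x).2

theorem emb_apply {X : Type*} [Group X] (H : Subgroup G) (ψ : H ≃* X) (h : G) (hh : h ∈ H) :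
    emb H ψ (ψ ⟨h, hh⟩) = h := by
  show ((ψ.symm (ψ ⟨h, hh⟩) : H) : G) = h
  rw [MulEquiv.symm_apply_apply]

theorem card_map_inj {X : Type*} [Group X] (f : X →* G) (hf : Function.Injective f)
    (K : Subgroup X) : Nat.card (K.map f) = Nat.card K :=
  (Nat.card_congr (K.equivMapOfInjective f hf).toEquiv).symm

theorem dih_excl [Finite G] [IsSimpleGroup G] (M C : Subgroup G) (hM : IsCoatom M) (r : ℕ)
    [Fact r.Prime] (hr2 : r ≠ 2) (hC : Nat.card C = r)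
    (hCn : ∀ m ∈ M, ∀ c ∈ C, m * c * m⁻¹ ∈ C) (hMc : Nat.card M = 2 * r)
    (hG : ¬ r ^ 2 ∣ Nat.card G) {X : Type*} [Group X] (H : Subgroup G) (ψ : H ≃* X) (c d : X)
    (hc : orderOf c = r) (hd : orderOf d = 2) (hdc : d * c * d⁻¹ = c⁻¹)
    (hX1 : Nat.card X ≠ 2 * r) (hX2 : Nat.card X ≠ Nat.card G) : False := by
  have hr : 1 < r := (Fact.out : r.Prime).one_lt
  have hC1 : C ≠ ⊥ := by
    rintro rfl
    rw [Subgroup.card_bot] at hC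
    omega
  have hC2 : C ≠ ⊤ := by
    rintro rfl
    have := Subgroup.card_le_of_le (le_top : M ≤ ⊤)
    rw [hMc, hC] at this
    omega
  have hN := nrm_eq_of_coatom M C hM hCn hC1 hC2
  have hcard : Nat.card H = Nat.card X := Nat.card_congr ψ.toEquiv
  apply nrm_excl M H C hM r hC hN hG (emb H ψ c) (emb H ψ d) (emb_mem H ψ c) (emb_mem H ψ d)
    ?_ ?_ ?_ hMc hr2 (hcard ▸ hX1) (hcard ▸ hX2)
  · rw [orderOf_injective _ (emb_inj H ψ), hc]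
  · rw [orderOf_injective _ (emb_inj H ψ), hd]
  · have : emb H ψ d * emb H ψ c * (emb H ψ d)⁻¹ = (emb H ψ c)⁻¹ := by
      rw [← map_inv, ← map_mul, ← map_mul, hdc, map_inv]
    rw [this]
    exact Subgroup.inv_mem _ (Subgroup.mem_zpowers _)

/-- the Klein four-group of a subgroup isomorphic to `A₄` -/
theorem a4_klein_sub (M : Subgroup G) (φ : M ≃* alternatingGroup (Fin 4)) :
    ∃ V : Subgroup G, Nat.card V = 4 ∧ V ≤ M ∧ ∀ m ∈ M, ∀ v ∈ V, m * v * m⁻¹ ∈ V := by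
  obtain ⟨k1, k2, k3, k4, k5, k6⟩ := a4_klein
  refine ⟨(Cfsg.Agent.S0807.kleinSub a4a a4b k1 k2 k3).map (emb M φ), ?_, ?_, ?_⟩
  · rw [card_map_inj _ (emb_inj M φ)]
    exact (Cfsg.Agent.S0807.kleinSub_isKleinFour a4a a4b k1 k2 k3 k4 k5 k6).card_four
  · rintro _ ⟨x, -, rfl⟩
    exact emb_mem M φ x
  · rintro m hm _ ⟨x, hx, rfl⟩
    refine ⟨φ ⟨m, hm⟩ * x * (φ ⟨m, hm⟩)⁻¹, ?_, ?_⟩
    · exact a4_klein_normal _ _ hx
    · rw [map_mul, map_mul, map_inv, emb_apply]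

theorem a4_excl8 [Finite G] [IsSimpleGroup G] (M : Subgroup G) (hM : IsCoatom M)
    (φ : M ≃* alternatingGroup (Fin 4)) (h8 : 8 ∣ Nat.card G) : False := by
  haveI : Fact (Nat.Prime 2) := ⟨Nat.prime_two⟩
  obtain ⟨V, hV, hVM, hVn⟩ := a4_klein_sub M φ
  have hMc : Nat.card M = 12 := by rw [Nat.card_congr φ.toEquiv, card_A4]
  have hV1 : V ≠ ⊥ := by
    rintro rfl
    rw [Subgroup.card_bot] at hV
    omega
  have hV2 : V ≠ ⊤ := by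
    rintro rfl
    exact hM.1 (top_le_iff.1 hVM)
  have hN := nrm_eq_of_coatom M V hM hVn hV1 hV2
  obtain ⟨P, hP, hVP⟩ := Sylow.exists_subgroup_card_pow_succ (p := 2) (n := 2)
    (by simpa using h8) (H := V) (by rw [hV]; norm_num)
  have hidx : (V.subgroupOf P).index = 2 := by
    have h1 := Subgroup.card_mul_index (V.subgroupOf P)
    rw [Nat.card_congr (Subgroup.subgroupOfEquivOfLe hVP).toEquiv, hV, hP] at h1
    omega
  haveI := Subgroup.normal_of_index_eq_two hidx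
  have hle : P ≤ Subgroup.normalizer (V : Set G) :=
    Subgroup.le_normalizer_of_normal_subgroupOf hVP
  rw [hN] at hle
  have := Subgroup.card_dvd_of_le hle
  rw [hP, hMc] at this
  omega

open Cfsg.Agent.Lib.Helper19.A5P in
theorem a4_excl5 [Finite G] [IsSimpleGroup G] (M : Subgroup G) (hM : IsCoatom M)
    (φ : M ≃* alternatingGroup (Fin 4)) (h8 : ¬ 8 ∣ Nat.card G) (H : Subgroup G)
    (ψ : H ≃* alternatingGroup (Fin 5)) (hG : Nat.card G ≠ 60) : False := by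
  haveI : Fact (Nat.Prime 3) := ⟨Nat.prime_three⟩
  obtain ⟨V, hV, hVM, hVn⟩ := a4_klein_sub M φ
  have hMc : Nat.card M = 12 := by rw [Nat.card_congr φ.toEquiv, card_A4]
  have hHc : Nat.card H = 60 := by rw [Nat.card_congr ψ.toEquiv, card_A5]
  have hV1 : V ≠ ⊥ := by
    rintro rfl
    rw [Subgroup.card_bot] at hV
    omega
  have hV2 : V ≠ ⊤ := by
    rintro rfl
    exact hM.1 (top_le_iff.1 hVM)
  have hN := nrm_eq_of_coatom M V hM hVn hV1 hV2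
  obtain ⟨k1, k2, k3, k4, k5, k6, k7, k8, k9, k10, k11⟩ := a5_klein
  apply klein_excl M H V ((Cfsg.Agent.S0807.kleinSub a0 a5b k1 k2 k3).map (emb H ψ)) hM hV ?_ hN
    h8 hMc ?_ (emb H ψ a5c) (emb_mem H ψ a5c) ?_ ?_ (by rw [hHc]; norm_num)
    (by rw [hHc]; exact fun h => hG h.symm)
  · rw [card_map_inj _ (emb_inj H ψ)]
    exact (Cfsg.Agent.S0807.kleinSub_isKleinFour a0 a5b k1 k2 k3 k4 k5 k6).card_four
  · rintro _ ⟨x, -, rfl⟩
    exact emb_mem H ψ x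
  · rw [orderOf_injective _ (emb_inj H ψ)]
    exact orderOf_eq_prime k7 k8
  · rintro _ ⟨x, hx, rfl⟩
    refine ⟨a5c * x * a5c⁻¹, ?_, ?_⟩
    · have hx' := (Cfsg.Agent.S0807.mem_kleinSub a0 a5b k1 k2 k3 x).1 hx
      apply (Cfsg.Agent.S0807.mem_kleinSub a0 a5b k1 k2 k3 _).2
      rcases hx' with rfl | rfl | rfl | rfl
      · left; group
      · right; right; right; exact k9
      · right; left; exact k10
      · right; right; left; exact k11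
    · rw [map_mul, map_mul, map_inv]

end SimpleExcl

end Cfsg.Agent.Lib.Helper19.Dk
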