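import Mathlib
import Cfsg.Agent.Lib.Helper19.DkR

set_option autoImplicit false

namespace Cfsg.Agent.Lib.Helper19.Dk

open Matrix Cfsg.Agent.S0809

section GConj

variable {F : Type*} [Field F]

/-- `θ` is conjugation by the invertible matrix `γ`. -/
def IsGConj (γ : Matrix (Fin 2) (Fin 2) F) (θ : S2 F ≃* S2 F) : Prop :=
  γ.det ≠ 0 ∧ ∀ x : S2 F,
    γ * (x : Matrix (Fin 2) (Fin 2) F) = ((θ x : S2 F) : Matrix (Fin 2) (Fin 2) F) * γ

theorem coe_mul2 (g x : S2 F) : ((g * x : S2 F) : Matrix (Fin 2) (Fin 2) F)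
    = (g : Matrix (Fin 2) (Fin 2) F) * (x : Matrix (Fin 2) (Fin 2) F) := rfl

theorem isGConj_conj (g : S2 F) : IsGConj (g : Matrix (Fin 2) (Fin 2) F) (MulAut.conj g) := by
  refine ⟨?_, ?_⟩
  · rw [g.2]; exact one_ne_zero
  · intro x
    rw [MulAut.conj_apply, ← coe_mul2, ← coe_mul2, inv_mul_cancel_right]

theorem isGConj_dconj (d : F) (hd : d ≠ 0) :
    IsGConj (!![d, 0; 0, 1] : Matrix (Fin 2) (Fin 2) F) (dconj d hd) := by
  refine ⟨?_, ?_⟩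
  · rw [Matrix.det_fin_two_of]; simpa using hd
  · intro x
    have h10 : (dconj d hd x) 1 0 = x 1 0 / d := rfl
    have h01 : (dconj d hd x) 0 1 = d * x 0 1 := rfl
    have h00 : (dconj d hd x) 0 0 = x 0 0 := rfl
    have h11 : (dconj d hd x) 1 1 = x 1 1 := rfl
    ext i j
    fin_cases i <;> fin_cases j
    · show (!![d, 0; 0, 1] * (x : Matrix (Fin 2) (Fin 2) F)) 0 0
        = (((dconj d hd x : S2 F) : Matrix (Fin 2) (Fin 2) F) * !![d, 0; 0, 1]) 0 0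
      rw [Matrix.mul_apply, Matrix.mul_apply, Fin.sum_univ_two, Fin.sum_univ_two]
      simp
      rw [h00]; ring
    · show (!![d, 0; 0, 1] * (x : Matrix (Fin 2) (Fin 2) F)) 0 1
        = (((dconj d hd x : S2 F) : Matrix (Fin 2) (Fin 2) F) * !![d, 0; 0, 1]) 0 1
      rw [Matrix.mul_apply, Matrix.mul_apply, Fin.sum_univ_two, Fin.sum_univ_two]
      simp
      rw [h01]
    · show (!![d, 0; 0, 1] * (x : Matrix (Fin 2) (Fin 2) F)) 1 0
        = (((dconj d hd x : S2 F) : Matrix (Fin 2) (Fin 2) F) * !![d, 0; 0, 1]) 1 0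
      rw [Matrix.mul_apply, Matrix.mul_apply, Fin.sum_univ_two, Fin.sum_univ_two]
      simp
      rw [h10]; field_simp
    · show (!![d, 0; 0, 1] * (x : Matrix (Fin 2) (Fin 2) F)) 1 1
        = (((dconj d hd x : S2 F) : Matrix (Fin 2) (Fin 2) F) * !![d, 0; 0, 1]) 1 1
      rw [Matrix.mul_apply, Matrix.mul_apply, Fin.sum_univ_two, Fin.sum_univ_two]
      simp
      rw [h11]

theorem isGConj_trans (γ₁ γ₂ : Matrix (Fin 2) (Fin 2) F) (θ₁ θ₂ : S2 F ≃* S2 F)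
    (h₁ : IsGConj γ₁ θ₁) (h₂ : IsGConj γ₂ θ₂) : IsGConj (γ₂ * γ₁) (θ₁.trans θ₂) := by
  refine ⟨?_, ?_⟩
  · rw [Matrix.det_mul]; exact mul_ne_zero h₂.1 h₁.1
  · intro x
    rw [Matrix.mul_assoc, h₁.2 x, ← Matrix.mul_assoc, h₂.2 (θ₁ x), Matrix.mul_assoc]
    rfl

/-- `exists_nf_aux` with the conjugating matrix made explicit -/
theorem exists_nf_aux_conj [Finite F] (L : Subgroup (S2 F)) (hZ : Subgroup.center (S2 F) ≤ L)
    (b₀ : F) (hb₀ : b₀ ≠ 0) (hL : uu b₀ ∈ L) (q' k : ℕ) (hq : 1 ≤ q') (hk : 1 ≤ k)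
    (hcA : cA L (uu b₀) = Nat.card (Subgroup.center (S2 F)) * q')
    (hcN : cN L (uu b₀) = Nat.card (Subgroup.center (S2 F)) * k * q')
    (hcard : Nat.card L = Nat.card (Subgroup.center (S2 F)) * k * q' * (1 + q')) :
    ∃ (γ : Matrix (Fin 2) (Fin 2) F) (θ : S2 F ≃* S2 F), IsGConj γ θ ∧
      NF (L.map θ.toMonoidHom) q' := by
  obtain ⟨hB, hT⟩ := bb_tt_card L hZ b₀ hb₀ q' k hq hk hcA hcN hcard
  have hne : Nonempty (TT L) := (Nat.card_pos_iff.1 (by omega)).1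
  obtain ⟨⟨τ, w₁, hw₁L, hw₁10, hτ⟩⟩ := hne
  have hfix : (MulAut.conj (uu (-τ))) (uu b₀) = uu b₀ := by
    rw [MulAut.conj_apply, uu_inv, uu_mul, uu_mul]
    congr 1
    ring
  have hθ₃ : (dconj (1 / b₀) (one_div_ne_zero hb₀)) (uu b₀) = uu 1 := by
    rw [dconj_uu]
    congr 1
    field_simp
  refine ⟨_, (MulAut.conj (uu (-τ))).trans (dconj (1 / b₀) (one_div_ne_zero hb₀)),
    isGConj_trans _ _ _ _ (isGConj_conj (uu (-τ))) (isGConj_dconj (1 / b₀) (one_div_ne_zero hb₀)),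
    ?_⟩
  rw [map_trans]
  have hZ₂ := center_le_map L hZ (MulAut.conj (uu (-τ)))
  have hZ₃ := center_le_map _ hZ₂ (dconj (1 / b₀) (one_div_ne_zero hb₀))
  have huu₂ : uu b₀ ∈ L.map (MulAut.conj (uu (-τ))).toMonoidHom := by
    rw [← hfix]
    exact (mem_map_equiv' _ L _).2 hL
  obtain ⟨d1, d2, d3⟩ := data_map (MulAut.conj (uu (-τ))) L _ _ hfix _ _ _ hcA hcN hcard
  obtain ⟨e1, e2, e3⟩ := data_map (dconj (1 / b₀) (one_div_ne_zero hb₀)) _ _ _ hθ₃ _ _ _ d1 d2 d3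
  obtain ⟨hB₃, hT₃⟩ := bb_tt_card _ hZ₃ 1 one_ne_zero q' k hq hk e1 e2 e3
  refine ⟨hZ₃, ?_, ⟨(dconj (1 / b₀) (one_div_ne_zero hb₀)) ((MulAut.conj (uu (-τ))) w₁),
    (mem_map_equiv' _ _ _).2 ((mem_map_equiv' _ L _).2 hw₁L), ?_⟩, hB₃, hT₃⟩
  · rw [← hθ₃]
    exact (mem_map_equiv' _ _ _).2 huu₂
  · rw [dconj_00, MulAut.conj_apply, uu_inv, neg_neg, mul00, mul00, mul01]
    simp only [uu_00, uu_01, uu_10, uu_11]
    rw [hτ]
    field_simp
    ring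

/-- `exists_nf` with the conjugating matrix made explicit: the normalising automorphism `θ`
is conjugation by an invertible `2 × 2` matrix `γ` over `F`. -/
theorem exists_nf_conj [Finite F] (L : Subgroup (S2 F)) (hZ : Subgroup.center (S2 F) ≤ L)
    (x₀ : S2 F) (hx₀ : x₀ ∈ L) (hsc : ¬ IsSc x₀) (h4 : tr x₀ ^ 2 = 4) (q' k : ℕ) (hq : 1 ≤ q')
    (hk : 1 ≤ k)
    (hcA : cA L x₀ = Nat.card (Subgroup.center (S2 F)) * q')
    (hcN : cN L x₀ = Nat.card (Subgroup.center (S2 F)) * k * q')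
    (hcard : Nat.card L = Nat.card (Subgroup.center (S2 F)) * k * q' * (1 + q')) :
    ∃ (γ : Matrix (Fin 2) (Fin 2) F) (θ : S2 F ≃* S2 F), IsGConj γ θ ∧
      NF (L.map θ.toMonoidHom) q' ∧
      Nat.card (L.map θ.toMonoidHom)
        = Nat.card (Subgroup.center (S2 F)) * k * q' * (1 + q') := by
  obtain ⟨x₁, hx₁L, hsc₁, htr₁, hcomm⟩ := exists_tr_two L hZ x₀ hx₀ hsc h4
  have D := ctd L hZ
  have hn0 : x₀ ∉ Subgroup.center (S2 F) := fun h => hsc ((isSc_iff_center _).2 h)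
  have hn1 : x₁ ∉ Subgroup.center (S2 F) := fun h => hsc₁ ((isSc_iff_center _).2 h)
  have hA : cA L x₀ = cA L x₁ := cA_of_comm D hn0 hn1 hcomm
  have hN : cN L x₀ = cN L x₁ := cN_of_comm D hn0 hn1 hcomm
  obtain ⟨g, b, hb, hgb⟩ := exists_conj_uu x₁ htr₁ hsc₁
  have hconj : (MulAut.conj g) x₁ = uu b := by rw [MulAut.conj_apply]; exact hgb
  obtain ⟨d1, d2, d3⟩ := data_map (MulAut.conj g) L x₁ (uu b) hconj _ _ _
    (hA.symm.trans hcA) (hN.symm.trans hcN) hcard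
  have hZ' := center_le_map L hZ (MulAut.conj g)
  have hL' : uu b ∈ L.map (MulAut.conj g).toMonoidHom := by
    rw [← hconj]
    exact (mem_map_equiv' _ L x₁).2 hx₁L
  obtain ⟨γ, θ, hγ, hθ⟩ := exists_nf_aux_conj (L.map (MulAut.conj g).toMonoidHom) hZ' b hb hL'
    q' k hq hk d1 d2 d3
  refine ⟨_, (MulAut.conj g).trans θ, isGConj_trans _ _ _ _ (isGConj_conj g) hγ, ?_, ?_⟩
  · rw [map_trans]; exact hθ
  · rw [map_trans, card_map, card_map, hcard]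

end GConj

end Cfsg.Agent.Lib.Helper19.Dk
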