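import Mathlib

set_option autoImplicit false

/-! Numerics and small-group facts for the comparison of the maximal subgroups of
`PGL₂(q)` and `PSL₂(q)` (used for S5890). -/

namespace Cfsg.Agent.Lib.Helper19.DkT

section NumberTheory

theorem nt1 (q₀ r : ℕ) (hr : Odd r) : q₀ + 1 ∣ q₀ ^ r + 1 := by
  simpa using hr.nat_add_dvd_pow_add_pow q₀ 1

theorem cop1 (q₀ r : ℕ) : Nat.Coprime (q₀ + 1) (q₀ ^ r) := by
  apply Nat.Coprime.pow_right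
  simp

theorem sq_sub_one (q₀ : ℕ) (h : 1 ≤ q₀) : q₀ ^ 2 - 1 = (q₀ - 1) * (q₀ + 1) := by
  obtain ⟨k, rfl⟩ : ∃ k, q₀ = k + 1 := ⟨q₀ - 1, by omega⟩
  have : (k + 1) ^ 2 = (k + 1 - 1) * (k + 1 + 1) + 1 := by
    simp only [Nat.add_sub_cancel]; ring
  omega

theorem nt_borel (q₀ r m : ℕ) (hr : Odd r) (h3 : 3 ≤ q₀)
    (h : q₀ ^ r * (q₀ ^ r - 1) = q₀ * (q₀ ^ 2 - 1) * m) : False := by
  have hd1 : q₀ + 1 ∣ q₀ ^ r * (q₀ ^ r - 1) := by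
    rw [h, sq_sub_one q₀ (by omega)]
    exact Dvd.intro_left (q₀ * (q₀ - 1) * m) (by ring)
  have hd2 : q₀ + 1 ∣ q₀ ^ r - 1 := (cop1 q₀ r).dvd_of_dvd_mul_left hd1
  have hd3 := nt1 q₀ r hr
  have hpos : 1 ≤ q₀ ^ r := Nat.one_le_pow _ _ (by omega)
  have hd4 : q₀ + 1 ∣ (q₀ ^ r + 1) - (q₀ ^ r - 1) := Nat.dvd_sub hd3 hd2
  have e : (q₀ ^ r + 1) - (q₀ ^ r - 1) = 2 := by omega
  rw [e] at hd4
  have := Nat.le_of_dvd (by norm_num) hd4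
  omega

theorem nt_torus (q₀ q h : ℕ) (h3 : 3 ≤ q₀) (hq : q₀ ∣ q) (hq0 : 0 < q)
    (h1 : 2 * h = q₀ * (q₀ ^ 2 - 1)) (hd : h ∣ q - 1 ∨ h ∣ q + 1) : False := by
  have hq₀h : q₀ ∣ 2 * h := by rw [h1]; exact Dvd.intro _ rfl
  have h2q : q₀ ∣ 2 * q := Dvd.dvd.mul_left hq 2
  have hle : q₀ ≤ q := Nat.le_of_dvd hq0 hq
  rcases hd with hd | hd
  · have h3' : q₀ ∣ 2 * (q - 1) := hq₀h.trans (Nat.mul_dvd_mul_left 2 hd)
    have h4 : q₀ ∣ 2 * q - 2 * (q - 1) := Nat.dvd_sub h2q h3'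
    have e : 2 * q - 2 * (q - 1) = 2 := by omega
    rw [e] at h4
    have := Nat.le_of_dvd (by norm_num) h4
    omega
  · have h3' : q₀ ∣ 2 * (q + 1) := hq₀h.trans (Nat.mul_dvd_mul_left 2 hd)
    have h4 : q₀ ∣ 2 * (q + 1) - 2 * q := Nat.dvd_sub h3' h2q
    have e : 2 * (q + 1) - 2 * q = 2 := by omega
    rw [e] at h4
    have := Nat.le_of_dvd (by norm_num) h4
    omega

theorem nt_pgl (q₀ r q₁ m : ℕ) (hr : Odd r) (h3 : 3 ≤ q₀) (hq : q₀ ^ r = q₁ ^ 2)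
    (h : 2 * (q₁ * (q₁ ^ 2 - 1)) = q₀ * (q₀ ^ 2 - 1) * m) : False := by
  have hd1 : q₀ + 1 ∣ q₁ * (2 * (q₁ ^ 2 - 1)) := by
    have : q₁ * (2 * (q₁ ^ 2 - 1)) = 2 * (q₁ * (q₁ ^ 2 - 1)) := by ring
    rw [this, h, sq_sub_one q₀ (by omega)]
    exact Dvd.intro_left (q₀ * (q₀ - 1) * m) (by ring)
  have hc : Nat.Coprime (q₀ + 1) q₁ := by
    have := cop1 q₀ r
    rw [hq] at this
    exact Nat.Coprime.coprime_dvd_right (dvd_pow_self q₁ two_ne_zero) this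
  have hd2 : q₀ + 1 ∣ 2 * (q₁ ^ 2 - 1) := hc.dvd_of_dvd_mul_left hd1
  have hd3 : q₀ + 1 ∣ 2 * (q₁ ^ 2 + 1) := by
    rw [← hq]; exact Dvd.dvd.mul_left (nt1 q₀ r hr) 2
  have hpos : 1 ≤ q₁ ^ 2 := by rw [← hq]; exact Nat.one_le_pow _ _ (by omega)
  have hd4 : q₀ + 1 ∣ 2 * (q₁ ^ 2 + 1) - 2 * (q₁ ^ 2 - 1) := Nat.dvd_sub hd3 hd2
  have e : 2 * (q₁ ^ 2 + 1) - 2 * (q₁ ^ 2 - 1) = 4 := by omega
  rw [e] at hd4
  have hle := Nat.le_of_dvd (by norm_num) hd4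
  have hq3 : q₀ = 3 := by omega
  rw [hq3] at hq
  have hf := congrArg (fun n => n.factorization 3) hq
  simp only [Nat.factorization_pow, Nat.Prime.factorization_pow Nat.prime_three,
    Finsupp.single_eq_same, Finsupp.smul_apply, smul_eq_mul] at hf
  obtain ⟨j, hj⟩ := hr
  omega

theorem eq_pow_of (p : ℕ) (hp : p.Prime) (n q₀ r : ℕ) (h : q₀ ^ r = p ^ n) (hr : r ≠ 0) :
    ∃ a, q₀ = p ^ a := by
  have hd : q₀ ∣ p ^ n := by rw [← h]; exact dvd_pow_self q₀ hr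
  obtain ⟨a, -, ha⟩ := (Nat.dvd_prime_pow hp).1 hd
  exact ⟨a, ha⟩

theorem nt_psl (p n q₀ r q₁ r₁ m : ℕ) (hp : p.Prime) (hr : r.Prime) (hr₁ : r₁.Prime)
    (h0 : q₀ ^ r = p ^ n) (h1 : q₁ ^ r₁ = p ^ n) (hn : 0 < n)
    (h : q₁ * (q₁ ^ 2 - 1) = q₀ * (q₀ ^ 2 - 1) * m) : q₀ = q₁ := by
  obtain ⟨a, rfl⟩ := eq_pow_of p hp n q₀ r h0 hr.ne_zero
  obtain ⟨b, rfl⟩ := eq_pow_of p hp n q₁ r₁ h1 hr₁.ne_zero
  have hp1 : 1 < p := hp.one_lt
  have har : a * r = n := by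
    rw [← pow_mul] at h0
    exact Nat.pow_right_injective hp1 h0
  have hbr : b * r₁ = n := by
    rw [← pow_mul] at h1
    exact Nat.pow_right_injective hp1 h1
  have ha0 : 0 < a := by
    rcases Nat.eq_zero_or_pos a with h | h
    · rw [h, zero_mul] at har; omega
    · exact h
  have hd1 : (p ^ a) ^ 2 - 1 ∣ p ^ b * ((p ^ b) ^ 2 - 1) := by
    rw [h]
    exact Dvd.intro_left (p ^ a * m) (by ring)
  have hc : Nat.Coprime ((p ^ a) ^ 2 - 1) (p ^ b) := by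
    apply Nat.Coprime.pow_right
    have h2 : 1 ≤ (p ^ a) ^ 2 := Nat.one_le_pow _ _ (Nat.pow_pos (by omega))
    have h3 : Nat.Coprime ((p ^ a) ^ 2 - 1) ((p ^ a) ^ 2) := by
      have : (p ^ a) ^ 2 = ((p ^ a) ^ 2 - 1) + 1 := by omega
      rw [this]
      simp
    have h4 : p ∣ (p ^ a) ^ 2 := by
      rw [← pow_mul]
      exact dvd_pow_self p (by positivity)
    exact Nat.Coprime.coprime_dvd_right h4 h3
  have hd2 : (p ^ a) ^ 2 - 1 ∣ (p ^ b) ^ 2 - 1 := hc.dvd_of_dvd_mul_left hd1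
  rw [← pow_mul, ← pow_mul] at hd2
  have hg := Nat.pow_sub_one_gcd_pow_sub_one p (a * 2) (b * 2)
  rw [Nat.gcd_eq_left hd2] at hg
  have h5 : p ^ (a * 2) = p ^ (Nat.gcd (a * 2) (b * 2)) := by
    have h6 : 1 ≤ p ^ (a * 2) := Nat.one_le_pow _ _ (by omega)
    have h7 : 1 ≤ p ^ (Nat.gcd (a * 2) (b * 2)) := Nat.one_le_pow _ _ (by omega)
    omega
  have h8 : a * 2 = Nat.gcd (a * 2) (b * 2) := Nat.pow_right_injective hp1 h5
  have h9 : a * 2 ∣ b * 2 := by rw [h8]; exact Nat.gcd_dvd_right _ _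
  have h10 : a ∣ b := (Nat.mul_dvd_mul_iff_right (by norm_num)).1 h9
  obtain ⟨c, rfl⟩ := h10
  have h11 : r = c * r₁ := by
    have : a * r = a * (c * r₁) := by rw [har, ← hbr]; ring
    exact Nat.eq_of_mul_eq_mul_left ha0 this
  have h12 : r₁ ∣ r := ⟨c, by rw [h11]; ring⟩
  have h13 : r₁ = r := (Nat.prime_dvd_prime_iff_eq hr₁ hr).1 h12
  have h14 : c = 1 := by
    rw [h13] at h11
    have : 1 * r = c * r := by rw [one_mul]; exact h11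
    exact (Nat.eq_of_mul_eq_mul_right hr.pos this).symm
  rw [h14, mul_one]

theorem pow3_mod10 (r : ℕ) (hr : Odd r) : 3 ^ r % 10 = 3 ∨ 3 ^ r % 10 = 7 := by
  obtain ⟨j, rfl⟩ := hr
  induction j with
  | zero => left; norm_num
  | succ k ih =>
    have e : 3 ^ (2 * (k + 1) + 1) = 3 ^ (2 * k + 1) * 9 := by ring
    rw [e, Nat.mul_mod]
    rcases ih with h | h <;> rw [h] <;> norm_num

theorem pow_ge (q₁ r₁ : ℕ) (hr : 3 ≤ r₁) (hq : 2 ≤ q₁) : 4 * q₁ ≤ q₁ ^ r₁ := by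
  have h1 : q₁ ^ 3 ≤ q₁ ^ r₁ := Nat.pow_le_pow_right (by omega) hr
  have h2 : 4 * q₁ ≤ q₁ ^ 3 := by nlinarith [sq_nonneg q₁]
  omega

theorem pow_ge' (q₁ r₁ : ℕ) (hr : 3 ≤ r₁) (hq : 1 ≤ q₁) : q₁ ^ 3 ≤ q₁ ^ r₁ :=
  Nat.pow_le_pow_right hq hr

theorem mul_pred (q : ℕ) (hq : 1 ≤ q) : q * (q - 1) + q = q * q := by
  obtain ⟨m, rfl⟩ : ∃ m, q = m + 1 := ⟨q - 1, by omega⟩
  simp only [Nat.add_sub_cancel]; ring

theorem ar_1b (q h : ℕ) (hq : 5 ≤ q) (h1 : 2 * h = q * (q - 1)) (h2 : h ≤ q - 1) : False := by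
  have := mul_pred q (by omega)
  nlinarith

theorem ar_1c (q h : ℕ) (hq : 5 ≤ q) (h1 : 2 * h = q * (q - 1)) (h2 : h ≤ q + 1) : False := by
  have := mul_pred q (by omega)
  nlinarith

theorem sq_pred (q₁ : ℕ) (hq : 1 ≤ q₁) : q₁ ^ 2 - 1 + 1 = q₁ ^ 2 := by
  have : 1 ≤ q₁ ^ 2 := Nat.one_le_pow _ _ hq
  omega

theorem ar_1d (q q₁ h : ℕ) (hq : q = q₁ ^ 2) (h5 : 5 ≤ q) (h1 : 2 * h = q * (q - 1))
    (hd : h ∣ q₁ * (q₁ ^ 2 - 1)) : False := by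
  obtain ⟨m, hm⟩ := hd
  subst hq
  have hq1 : 3 ≤ q₁ := by
    by_contra hcon
    have : q₁ ≤ 2 := by omega
    have : q₁ ^ 2 ≤ 2 ^ 2 := Nat.pow_le_pow_left this 2
    omega
  have hpos : 0 < q₁ ^ 2 - 1 := by
    have : 3 ^ 2 ≤ q₁ ^ 2 := Nat.pow_le_pow_left hq1 2
    omega
  -- 2 * (q₁ (q₁²-1)) = 2 h m = q₁² (q₁²-1) m
  have e : 2 * (q₁ * (q₁ ^ 2 - 1)) = q₁ * m * (q₁ * (q₁ ^ 2 - 1)) := by
    calc 2 * (q₁ * (q₁ ^ 2 - 1)) = 2 * (h * m) := by rw [hm]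
      _ = (2 * h) * m := by ring
      _ = q₁ ^ 2 * (q₁ ^ 2 - 1) * m := by rw [h1]
      _ = q₁ * m * (q₁ * (q₁ ^ 2 - 1)) := by ring
  have e2 : 2 = q₁ * m := Nat.eq_of_mul_eq_mul_right (by positivity) e
  have : q₁ ∣ 2 := ⟨m, e2⟩
  have := Nat.le_of_dvd (by norm_num) this
  omega

theorem ar_1e (q q₁ r₁ h k : ℕ) (hq : q = q₁ ^ r₁) (hr : 3 ≤ r₁) (h5 : 5 ≤ q)
    (h1 : 2 * h = q * (q - 1)) (h2 : 2 * k = q₁ * (q₁ ^ 2 - 1)) (hle : h ≤ k) : False := by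
  have hq1 : 1 ≤ q₁ := by
    rcases Nat.eq_zero_or_pos q₁ with h0 | h0
    · rw [h0, zero_pow (by omega)] at hq; omega
    · exact h0
  have h3 : q₁ ^ 3 ≤ q := by rw [hq]; exact pow_ge' q₁ r₁ hr hq1
  have h4 : q₁ * (q₁ ^ 2 - 1) ≤ q₁ ^ 3 := by
    have : q₁ ^ 3 = q₁ * q₁ ^ 2 := by ring
    rw [this]
    exact Nat.mul_le_mul_left _ (Nat.sub_le _ _)
  have h6 := mul_pred q (by omega)
  nlinarith

theorem ar_1f (q h : ℕ) (hodd : Odd q) (h5 : 5 ≤ q) (h7 : q ≠ 7) (h9 : q ≠ 9) (h11 : q ≠ 11)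
    (h1 : 2 * h = q * (q - 1)) (h2 : h ≤ 60) : q = 5 := by
  have h6 := mul_pred q (by omega)
  have hq : q ≤ 11 := by
    by_contra hcon
    have : 12 ≤ q := by omega
    nlinarith
  obtain ⟨j, hj⟩ := hodd
  omega

theorem ar_1g (q h : ℕ) (h5 : 5 ≤ q) (h1 : 2 * h = q * (q - 1)) (h2 : h ∣ 12) : False := by
  have h6 := mul_pred q (by omega)
  have hle := Nat.le_of_dvd (by norm_num) h2
  have hq : q ≤ 5 := by
    by_contra hcon
    have : 6 ≤ q := by omega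
    nlinarith
  have hq5 : q = 5 := by omega
  subst hq5
  have : h = 10 := by omega
  subst this
  norm_num at h2

theorem ar_1h (q h : ℕ) (h5 : 5 ≤ q) (h7 : q ≠ 7) (h8 : q % 8 = 1 ∨ q % 8 = 7)
    (h1 : 2 * h = q * (q - 1)) (h2 : h ≤ 24) : False := by
  have h6 := mul_pred q (by omega)
  have hq : q ≤ 7 := by
    by_contra hcon
    have : 8 ≤ q := by omega
    nlinarith
  omega

theorem ar_2a (q k : ℕ) (hodd : Odd q) (h5 : 5 ≤ q) (hk : 2 * k = q * (q - 1))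
    (hd : q - 1 ∣ k) : False := by
  obtain ⟨m, hm⟩ := hd
  have e : q * (q - 1) = 2 * m * (q - 1) := by rw [← hk, hm]; ring
  have e2 : q = 2 * m := Nat.eq_of_mul_eq_mul_right (by omega) e
  obtain ⟨j, hj⟩ := hodd
  omega

theorem ar_2c (q : ℕ) (h5 : 5 ≤ q) (hd : q - 1 ∣ q + 1) : False := by
  have h1 : q - 1 ∣ (q + 1) - (q - 1) := Nat.dvd_sub hd dvd_rfl
  have e : (q + 1) - (q - 1) = 2 := by omega
  rw [e] at h1
  have := Nat.le_of_dvd (by norm_num) h1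
  omega

theorem cop_a (n : ℕ) : Nat.Coprime n (2 * n + 1) := by simp

theorem cop_2 (q q₁ r₁ n : ℕ) (hr : r₁ ≠ 0) (hq : q = q₁ ^ r₁) (h5 : 5 ≤ q)
    (hn : 2 * n = q - 1) : Nat.Coprime n q₁ := by
  have e : q₁ ^ r₁ = 2 * n + 1 := by omega
  have h := cop_a n
  rw [← e] at h
  exact Nat.Coprime.coprime_dvd_right (dvd_pow_self q₁ hr) h

theorem cop_b (n : ℕ) (hn : 1 ≤ n) : Nat.Coprime n (2 * n - 1) := by
  obtain ⟨m, rfl⟩ : ∃ m, n = m + 1 := ⟨n - 1, by omega⟩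
  have e : 2 * (m + 1) - 1 = 2 * m + 1 := by omega
  rw [e]
  have h : Nat.Coprime (2 * m + 1) (2 * m + 1 + 1) := by simp
  have h' : Nat.Coprime (2 * m + 1) (m + 1) := Nat.Coprime.coprime_dvd_right ⟨2, by ring⟩ h
  exact h'.symm

theorem cop_3 (q q₁ r₁ n : ℕ) (hr : r₁ ≠ 0) (hq : q = q₁ ^ r₁) (h5 : 5 ≤ q)
    (hn : 2 * n = q + 1) : Nat.Coprime n q₁ := by
  have e : q₁ ^ r₁ = 2 * n - 1 := by omega
  have h := cop_b n (by omega)
  rw [← e] at h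
  exact Nat.Coprime.coprime_dvd_right (dvd_pow_self q₁ hr) h

theorem ar_2d (q q₁ n : ℕ) (hq : q = q₁ ^ 2) (h13 : 13 ≤ q) (hn : 2 * n = q - 1)
    (hle : n ≤ q₁ + 1) : False := by
  subst hq
  have h1 : q₁ ^ 2 = 2 * n + 1 := by omega
  have : q₁ ≤ 3 := by
    by_contra hcon
    have : 4 ≤ q₁ := by omega
    nlinarith
  interval_cases q₁ <;> omega

theorem ar_2e (q q₁ r₁ n : ℕ) (hq : q = q₁ ^ r₁) (hr : 3 ≤ r₁) (h5 : 5 ≤ q)
    (hn : 2 * n + 1 = q ∨ 2 * n = q + 1) (hle : n ≤ q₁ + 1) : False := by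
  have hq2 : 2 ≤ q₁ := by
    by_contra hcon
    have : q₁ = 0 ∨ q₁ = 1 := by omega
    rcases this with h | h
    · rw [h, zero_pow (by omega)] at hq; omega
    · rw [h, one_pow] at hq; omega
  have := pow_ge q₁ r₁ hr hq2
  omega

theorem ar_3a (q k : ℕ) (h5 : 5 ≤ q) (hk : 2 * k = q * (q - 1)) (hd : q + 1 ∣ k) : False := by
  have h1 : q + 1 ∣ q * (q - 1) := by rw [← hk]; exact Dvd.dvd.mul_left hd 2
  have hc : Nat.Coprime (q + 1) q := by simp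
  have h2 : q + 1 ∣ q - 1 := hc.dvd_of_dvd_mul_left h1
  have := Nat.le_of_dvd (by omega) h2
  omega

theorem ar_3d (q q₁ n : ℕ) (hq : q = q₁ ^ 2) (h5 : 5 ≤ q) (hn : 2 * n = q + 1)
    (hle : n ≤ q₁ + 1) : False := by
  subst hq
  have : q₁ ≤ 2 := by
    by_contra hcon
    have : 3 ≤ q₁ := by omega
    nlinarith
  interval_cases q₁ <;> omega

theorem ar_4a (q k : ℕ) (h8 : q % 8 = 3 ∨ q % 8 = 5) (hk : 2 * k = q * (q - 1))
    (hd : 12 ∣ k) : False := by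
  obtain ⟨m, hm⟩ := hd
  have e : q * (q - 1) = 8 * (3 * m) := by rw [← hk, hm]; ring
  have h0 : (q * (q - 1)) % 8 = 0 := by rw [e]; exact Nat.mul_mod_right 8 _
  rw [Nat.mul_mod] at h0
  rcases h8 with h | h
  · have : (q - 1) % 8 = 2 := by omega
    rw [h, this] at h0
    norm_num at h0
  · have : (q - 1) % 8 = 4 := by omega
    rw [h, this] at h0
    norm_num at h0

theorem ar_5f (q₀ h : ℕ) (hodd : Odd q₀) (h3 : 3 ≤ q₀) (h1 : 2 * h = q₀ * (q₀ ^ 2 - 1))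
    (h2 : h ∣ 60) : (q₀ = 3) ∨ (q₀ = 5 ∧ h = 60) := by
  have hle := Nat.le_of_dvd (by norm_num) h2
  have hq : q₀ ≤ 5 := by
    by_contra hcon
    have h6 : 6 ≤ q₀ := by omega
    have h7 : 35 ≤ q₀ ^ 2 - 1 := by
      have : 6 ^ 2 ≤ q₀ ^ 2 := Nat.pow_le_pow_left h6 2
      omega
    have : 6 * 35 ≤ q₀ * (q₀ ^ 2 - 1) := Nat.mul_le_mul h6 h7
    omega
  obtain ⟨j, hj⟩ := hodd
  have : q₀ = 3 ∨ q₀ = 5 := by omega
  rcases this with h' | h'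
  · left; exact h'
  · right
    subst h'
    norm_num at h1
    omega

end NumberTheory

section SmallGroups

theorem pw_A5 : ∀ g : alternatingGroup (Fin 5), g ^ 2 = 1 ∨ g ^ 3 = 1 ∨ g ^ 5 = 1 := by
  decide +kernel

theorem ord_A5 (g : alternatingGroup (Fin 5)) : orderOf g ≤ 5 := by
  rcases pw_A5 g with h | h | h
  · exact (Nat.le_of_dvd (by norm_num) (orderOf_dvd_of_pow_eq_one h)).trans (by norm_num)
  · exact (Nat.le_of_dvd (by norm_num) (orderOf_dvd_of_pow_eq_one h)).trans (by norm_num)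
  · exact Nat.le_of_dvd (by norm_num) (orderOf_dvd_of_pow_eq_one h)

theorem pw_S4 : ∀ g : Equiv.Perm (Fin 4), g ^ 3 = 1 ∨ g ^ 4 = 1 := by
  decide +kernel

theorem ord_S4 (g : Equiv.Perm (Fin 4)) : orderOf g ≤ 4 := by
  rcases pw_S4 g with h | h
  · exact (Nat.le_of_dvd (by norm_num) (orderOf_dvd_of_pow_eq_one h)).trans (by norm_num)
  · exact Nat.le_of_dvd (by norm_num) (orderOf_dvd_of_pow_eq_one h)

theorem pw_A4 : ∀ g : alternatingGroup (Fin 4), g ^ 2 = 1 ∨ g ^ 3 = 1 := by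
  decide +kernel

theorem ord_A4 (g : alternatingGroup (Fin 4)) : orderOf g ≤ 3 := by
  rcases pw_A4 g with h | h
  · exact (Nat.le_of_dvd (by norm_num) (orderOf_dvd_of_pow_eq_one h)).trans (by norm_num)
  · exact Nat.le_of_dvd (by norm_num) (orderOf_dvd_of_pow_eq_one h)

theorem dih_sq_comm (n : ℕ) (a b : DihedralGroup n) : (a * a) * (b * b) = (b * b) * (a * a) := by
  cases a <;> cases b <;> simp [add_comm]

theorem a4_sq : ∀ g : alternatingGroup (Fin 4), ∃ a b : alternatingGroup (Fin 4),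
    g = a * a * (b * b) := by
  decide +kernel

theorem a4_no_six (S : Subgroup (alternatingGroup (Fin 4))) : Nat.card S ≠ 6 := by
  intro h
  have hA : Nat.card (alternatingGroup (Fin 4)) = 12 := by
    rw [Nat.card_eq_fintype_card]; decide +kernel
  have hidx : S.index = 2 := by
    have := S.card_mul_index
    rw [h, hA] at this
    omega
  have htop : S = ⊤ := by
    rw [eq_top_iff]
    intro g _
    obtain ⟨a, b, rfl⟩ := a4_sq g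
    exact S.mul_mem (Subgroup.mul_self_mem_of_index_two hidx a)
      (Subgroup.mul_self_mem_of_index_two hidx b)
  rw [htop, Subgroup.card_top, hA] at h
  omega

def c1 : Equiv.Perm (Fin 4) := c[0, 1, 2]
def c2 : Equiv.Perm (Fin 4) := c[0, 1, 3]

theorem c_facts : c1 = ((c1 * c1) * (c1 * c1)) ∧ c2 = ((c2 * c2) * (c2 * c2)) ∧
    c1 * c2 ≠ c2 * c1 := by
  decide +kernel

end SmallGroups

section Combine

/-- the possible shapes of `M ∩ L` -/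
def MT (q : ℕ) (H : Type*) [Group H] : Prop :=
  (2 * Nat.card H = q * (q - 1)) ∨
  (q ≠ 5 ∧ Nat.card H = q - 1 ∧ ∃ y : H, 2 * orderOf y = q - 1) ∨
  (Nat.card H = q + 1 ∧ ∃ y : H, 2 * orderOf y = q + 1) ∨
  (q.Prime ∧ (q % 8 = 3 ∨ q % 8 = 5) ∧ Nat.card H = 12 ∧
    ∃ y₁ y₂ : H, y₁ = (y₁ * y₁) * (y₁ * y₁) ∧ y₂ = (y₂ * y₂) * (y₂ * y₂) ∧
      y₁ * y₂ ≠ y₂ * y₁) ∨
  (∃ q₀ r : ℕ, r.Prime ∧ Odd r ∧ q = q₀ ^ r ∧ 2 * Nat.card H = q₀ * (q₀ ^ 2 - 1))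

/-- the possible shapes of a maximal subgroup of `PSL₂(q)` -/
def KT (q : ℕ) (K : Type*) [Group K] : Prop :=
  (2 * Nat.card K = q * (q - 1)) ∨
  (13 ≤ q ∧ Nat.card K = q - 1 ∧ ∀ a b : K, (a * a) * (b * b) = (b * b) * (a * a)) ∨
  (Nat.card K = q + 1 ∧ ∀ a b : K, (a * a) * (b * b) = (b * b) * (a * a)) ∨
  (∃ q₁ : ℕ, q = q₁ ^ 2 ∧ Nat.card K = q₁ * (q₁ ^ 2 - 1) ∧
    ∀ g : K, (orderOf g).Coprime q₁ → orderOf g ≤ q₁ + 1) ∨
  (∃ q₁ r₁ : ℕ, r₁.Prime ∧ Odd r₁ ∧ q = q₁ ^ r₁ ∧ 2 * Nat.card K = q₁ * (q₁ ^ 2 - 1) ∧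
    ∀ g : K, (orderOf g).Coprime q₁ → orderOf g ≤ q₁ + 1) ∨
  ((q % 10 = 1 ∨ q % 10 = 9) ∧ Nat.card K = 60 ∧ ∀ g : K, orderOf g ≤ 5) ∨
  (q.Prime ∧ (q % 8 = 3 ∨ q % 8 = 5) ∧ ¬ (q % 10 = 1 ∨ q % 10 = 9) ∧ Nat.card K = 12 ∧
    (∀ g : K, orderOf g ≤ 3) ∧ ∀ S : Subgroup K, Nat.card S ≠ 6) ∨
  (q.Prime ∧ (q % 8 = 1 ∨ q % 8 = 7) ∧ Nat.card K = 24 ∧ ∀ g : K, orderOf g ≤ 4)

theorem odd_prime_ge (r : ℕ) (hr : r.Prime) (ho : Odd r) : 3 ≤ r := by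
  have := hr.two_le
  obtain ⟨j, hj⟩ := ho
  omega

variable {H K : Type*} [Group H] [Finite H] [Group K] [Finite K]

theorem combine1 (j : H →* K) (hj : Function.Injective j) (q : ℕ) (hodd : Odd q)
    (h5 : 5 ≤ q) (h7 : q ≠ 7) (h9 : q ≠ 9) (h11 : q ≠ 11)
    (hlt : 2 * Nat.card K < q * (q ^ 2 - 1))
    (hH : 2 * Nat.card H = q * (q - 1)) (hK : KT q K) : Nat.card K ≤ Nat.card H := by
  have hdvd : Nat.card H ∣ Nat.card K := Subgroup.card_dvd_of_injective j hj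
  have hle : Nat.card H ≤ Nat.card K := Nat.le_of_dvd Nat.card_pos hdvd
  rcases hK with h | ⟨h13, hk, -⟩ | ⟨hk, -⟩ | ⟨q₁, hq, hk, -⟩ | ⟨q₁, r₁, hr₁, ho₁, hq, hk, -⟩ |
    ⟨h10, hk, -⟩ | ⟨hp, h8, h10, hk, -, -⟩ | ⟨hp, h8, hk, -⟩
  · omega
  · exact (ar_1b q _ h5 hH (by omega)).elim
  · exact (ar_1c q _ h5 hH (by omega)).elim
  · exact (ar_1d q q₁ _ hq h5 hH (hk ▸ hdvd)).elim
  · exact (ar_1e q q₁ r₁ _ _ hq (odd_prime_ge r₁ hr₁ ho₁) h5 hH hk hle).elim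
  · have hq5 := ar_1f q _ hodd h5 h7 h9 h11 hH (by omega)
    subst hq5
    rw [hk] at hlt
    norm_num at hlt
  · exact (ar_1g q _ h5 hH (hk ▸ hdvd)).elim
  · exact (ar_1h q _ h5 h7 h8 hH (by omega)).elim

theorem combine2 (j : H →* K) (hj : Function.Injective j) (q : ℕ) (hodd : Odd q)
    (h13 : 13 ≤ q) (hH : Nat.card H = q - 1) (y : H) (hy : 2 * orderOf y = q - 1)
    (hK : KT q K) : Nat.card K ≤ Nat.card H := by
  have hdvd : Nat.card H ∣ Nat.card K := Subgroup.card_dvd_of_injective j hj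
  have hle : Nat.card H ≤ Nat.card K := Nat.le_of_dvd Nat.card_pos hdvd
  have hord : orderOf (j y) = orderOf y := orderOf_injective j hj y
  rcases hK with h | ⟨-, hk, -⟩ | ⟨hk, -⟩ | ⟨q₁, hq, hk, hb⟩ | ⟨q₁, r₁, hr₁, ho₁, hq, hk, hb⟩ |
    ⟨h10, hk, hb⟩ | ⟨hp, h8, h10, hk, hb, -⟩ | ⟨hp, h8, hk, hb⟩
  · exact (ar_2a q _ hodd (by omega) h (hH ▸ hdvd)).elim
  · omega
  · rw [hH, hk] at hdvd
    exact (ar_2c q (by omega) hdvd).elim
  · have hc := cop_2 q q₁ 2 (orderOf y) (by norm_num) hq (by omega) hy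
    have := hb (j y) (by rw [hord]; exact hc)
    rw [hord] at this
    exact (ar_2d q q₁ _ hq h13 hy this).elim
  · have hr3 := odd_prime_ge r₁ hr₁ ho₁
    have hc := cop_2 q q₁ r₁ (orderOf y) (by omega) hq (by omega) hy
    have := hb (j y) (by rw [hord]; exact hc)
    rw [hord] at this
    exact (ar_2e q q₁ r₁ _ hq hr3 (by omega) (Or.inl (by omega)) this).elim
  · have := hb (j y)
    rw [hord] at this
    omega
  · have := hb (j y)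
    rw [hord] at this
    omega
  · have := hb (j y)
    rw [hord] at this
    omega

theorem combine3 (j : H →* K) (hj : Function.Injective j) (q : ℕ) (hodd : Odd q)
    (h5 : 5 ≤ q) (h7 : q ≠ 7) (h9 : q ≠ 9) (h11 : q ≠ 11)
    (hlt : 2 * Nat.card K < q * (q ^ 2 - 1))
    (hH : Nat.card H = q + 1) (y : H) (hy : 2 * orderOf y = q + 1)
    (hK : KT q K) : Nat.card K ≤ Nat.card H := by
  have hdvd : Nat.card H ∣ Nat.card K := Subgroup.card_dvd_of_injective j hj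
  have hle : Nat.card H ≤ Nat.card K := Nat.le_of_dvd Nat.card_pos hdvd
  have hord : orderOf (j y) = orderOf y := orderOf_injective j hj y
  have hq513 : q = 5 ∨ 13 ≤ q := by
    obtain ⟨i, hi⟩ := hodd
    omega
  rcases hK with h | ⟨-, hk, -⟩ | ⟨hk, -⟩ | ⟨q₁, hq, hk, hb⟩ | ⟨q₁, r₁, hr₁, ho₁, hq, hk, hb⟩ |
    ⟨h10, hk, hb⟩ | ⟨hp, h8, h10, hk, hb, hno⟩ | ⟨hp, h8, hk, hb⟩
  · exact (ar_3a q _ h5 h (hH ▸ hdvd)).elim
  · omega
  · omega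
  · have hc := cop_3 q q₁ 2 (orderOf y) (by norm_num) hq h5 hy
    have := hb (j y) (by rw [hord]; exact hc)
    rw [hord] at this
    exact (ar_3d q q₁ _ hq h5 hy this).elim
  · have hr3 := odd_prime_ge r₁ hr₁ ho₁
    have hc := cop_3 q q₁ r₁ (orderOf y) (by omega) hq h5 hy
    have := hb (j y) (by rw [hord]; exact hc)
    rw [hord] at this
    exact (ar_2e q q₁ r₁ _ hq hr3 h5 (Or.inr hy) this).elim
  · rcases hq513 with h | h
    · subst h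
      rw [hk] at hlt
      norm_num at hlt
    · have := hb (j y)
      rw [hord] at this
      omega
  · rcases hq513 with h | h
    · subst h
      exfalso
      apply hno j.range
      rw [← Nat.card_congr (MonoidHom.ofInjective hj).toEquiv, hH]
    · have := hb (j y)
      rw [hord] at this
      omega
  · rcases hq513 with h | h
    · omega
    · have := hb (j y)
      rw [hord] at this
      omega

theorem combine4 (j : H →* K) (hj : Function.Injective j) (q : ℕ)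
    (h5 : 5 ≤ q) (h40 : q.Prime → q % 40 ∉ ({11, 19, 21, 29} : Finset ℕ))
    (hqp : q.Prime) (h8 : q % 8 = 3 ∨ q % 8 = 5)
    (hH : Nat.card H = 12) (y₁ y₂ : H) (hy₁ : y₁ = (y₁ * y₁) * (y₁ * y₁))
    (hy₂ : y₂ = (y₂ * y₂) * (y₂ * y₂)) (hne : y₁ * y₂ ≠ y₂ * y₁)
    (hK : KT q K) : Nat.card K ≤ Nat.card H := by
  have hdvd : Nat.card H ∣ Nat.card K := Subgroup.card_dvd_of_injective j hj
  have hcomm : (∀ a b : K, (a * a) * (b * b) = (b * b) * (a * a)) → False := by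
    intro hc
    apply hne
    apply hj
    rw [map_mul, map_mul]
    have e1 : j y₁ = (j (y₁ * y₁)) * (j (y₁ * y₁)) := by rw [← map_mul, ← hy₁]
    have e2 : j y₂ = (j (y₂ * y₂)) * (j (y₂ * y₂)) := by rw [← map_mul, ← hy₂]
    rw [e1, e2]
    exact hc _ _
  rcases hK with h | ⟨-, hk, hc⟩ | ⟨hk, hc⟩ | ⟨q₁, hq, hk, hb⟩ | ⟨q₁, r₁, hr₁, ho₁, hq, hk, hb⟩ |
    ⟨h10, hk, hb⟩ | ⟨hp, h8', h10, hk, hb, -⟩ | ⟨hp, h8', hk, hb⟩
  · exact (ar_4a q _ h8 h (hH ▸ hdvd)).elim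
  · exact (hcomm hc).elim
  · exact (hcomm hc).elim
  · rw [hq] at hqp
    exact (Nat.Prime.not_prime_pow (le_refl 2) hqp).elim
  · rw [hq] at hqp
    exact (Nat.Prime.not_prime_pow (by have := odd_prime_ge r₁ hr₁ ho₁; omega) hqp).elim
  · exfalso
    have := h40 hqp
    simp only [Finset.mem_insert, Finset.mem_singleton, not_or] at this
    omega
  · omega
  · omega

theorem combine5 (j : H →* K) (hj : Function.Injective j) (q : ℕ) (hodd : Odd q)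
    (h5 : 5 ≤ q) (p n : ℕ) (hp : p.Prime) (hqp : q = p ^ n) (hn : 0 < n)
    (q₀ r : ℕ) (hr : r.Prime) (hor : Odd r) (hq : q = q₀ ^ r)
    (hH : 2 * Nat.card H = q₀ * (q₀ ^ 2 - 1))
    (hK : KT q K) : Nat.card K ≤ Nat.card H := by
  have hdvd : Nat.card H ∣ Nat.card K := Subgroup.card_dvd_of_injective j hj
  have hr3 := odd_prime_ge r hr hor
  have hq₀odd : Odd q₀ := by
    rw [hq] at hodd
    exact (Nat.odd_pow_iff (by omega)).1 hodd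
  have hq₀3 : 3 ≤ q₀ := by
    obtain ⟨i, hi⟩ := hq₀odd
    by_contra hcon
    have : q₀ = 1 := by omega
    rw [this, one_pow] at hq
    omega
  have hq₀dvd : q₀ ∣ q := by rw [hq]; exact dvd_pow_self q₀ (by omega)
  obtain ⟨m, hm⟩ := hdvd
  rcases hK with h | ⟨-, hk, -⟩ | ⟨hk, -⟩ | ⟨q₁, hq1, hk, hb⟩ |
    ⟨q₁, r₁, hr₁, ho₁, hq1, hk, hb⟩ | ⟨h10, hk, hb⟩ | ⟨hp', h8', h10, hk, hb, -⟩ |
    ⟨hp', h8', hk, hb⟩
  · exfalso
    apply nt_borel q₀ r m hor hq₀3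
    rw [← hq, ← h, hm, ← hH]; ring
  · exfalso
    apply nt_torus q₀ q (Nat.card H) hq₀3 hq₀dvd (by omega) hH
    left
    rw [← hk, hm]; exact Dvd.intro _ rfl
  · exfalso
    apply nt_torus q₀ q (Nat.card H) hq₀3 hq₀dvd (by omega) hH
    right
    rw [← hk, hm]; exact Dvd.intro _ rfl
  · exfalso
    apply nt_pgl q₀ r q₁ m hor hq₀3 (by rw [← hq, hq1])
    rw [← hk, hm, ← hH]; ring
  · have heq : q₀ = q₁ := by
      apply nt_psl p n q₀ r q₁ r₁ m hp hr hr₁ (by rw [← hq, hqp]) (by rw [← hq1, hqp]) hn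
      rw [← hk, hm, ← hH]; ring
    rw [← heq] at hk
    omega
  · have hd60 : Nat.card H ∣ 60 := by rw [← hk, hm]; exact Dvd.intro _ rfl
    rcases ar_5f q₀ _ hq₀odd hq₀3 hH hd60 with h | ⟨-, h⟩
    · exfalso
      rw [h] at hq
      have := pow3_mod10 r hor
      rw [← hq] at this
      omega
    · omega
  · rw [hq] at hp'
    exact (Nat.Prime.not_prime_pow (by omega) hp').elim
  · rw [hq] at hp'
    exact (Nat.Prime.not_prime_pow (by omega) hp').elim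

theorem combine (j : H →* K) (hj : Function.Injective j) (q : ℕ) (hodd : Odd q)
    (h5 : 5 ≤ q) (h7 : q ≠ 7) (h9 : q ≠ 9) (h11 : q ≠ 11)
    (h40 : q.Prime → q % 40 ∉ ({11, 19, 21, 29} : Finset ℕ))
    (hlt : 2 * Nat.card K < q * (q ^ 2 - 1)) (p n : ℕ) (hp : p.Prime) (hqp : q = p ^ n)
    (hn : 0 < n) (hH : MT q H) (hK : KT q K) : Nat.card K ≤ Nat.card H := by
  rcases hH with h | ⟨hq5, hc, y, hy⟩ | ⟨hc, y, hy⟩ | ⟨hqpr, h8, hc, y₁, y₂, hy₁, hy₂, hne⟩ |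
    ⟨q₀, r, hr, hor, hq, hc⟩
  · exact combine1 j hj q hodd h5 h7 h9 h11 hlt h hK
  · have h13 : 13 ≤ q := by
      obtain ⟨i, hi⟩ := hodd
      omega
    exact combine2 j hj q hodd h13 hc y hy hK
  · exact combine3 j hj q hodd h5 h7 h9 h11 hlt hc y hy hK
  · exact combine4 j hj q h5 h40 hqpr h8 hc y₁ y₂ hy₁ hy₂ hne hK
  · exact combine5 j hj q hodd h5 p n hp hqp hn q₀ r hr hor hq hc hK

end Combine

end Cfsg.Agent.Lib.Helper19.DkT
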