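import Mathlib
import Cfsg.Agent.Lib.Helper19.DkS
import Cfsg.Agent.Lib.Helper19.DkT
import Cfsg.Agent.S5892

set_option autoImplicit false

/-! Glue for S5890: a maximal subgroup `M` of `PGL₂(q)` not containing the image `L` of `SL₂(q)`
meets `L` in a maximal subgroup of `L`, given the list of the possible `M` (S5891) and the list
of the maximal subgroups of `PSL₂(q)` (S5892). -/

namespace Cfsg.Agent.Lib.Helper19.DkU

open Matrix Cfsg.Agent.S0809 Cfsg.Agent.Lib.Helper19.Dk Cfsg.Agent.Lib.Helper19.DkT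

section Glue

/-- the image of `SL₂(F)` in `PGL₂(F)` -/
abbrev Lr (F : Type*) [Field F] : Subgroup (Matrix.ProjGenLinGroup (Fin 2) F) :=
  (Matrix.ProjGenLinGroup.mk.comp Matrix.SpecialLinearGroup.toGL).range

theorem Lr_eq (F : Type*) [Field F] :
    Lr F = (ProjectiveSpecialLinearGroup.toPGL (n := Fin 2) (R := F)).range := by
  ext g
  constructor
  · rintro ⟨s, rfl⟩
    exact ⟨QuotientGroup.mk s, rfl⟩
  · rintro ⟨h, rfl⟩
    induction h using QuotientGroup.induction_on with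
    | H s => exact ⟨s, rfl⟩

/-- `PSL₂(F)` is isomorphic to the image of `SL₂(F)` in `PGL₂(F)` -/
noncomputable def tau (F : Type*) [Field F] : P2 F ≃* ↥(Lr F) :=
  (MonoidHom.ofInjective ProjectiveSpecialLinearGroup.toPGL_injective).trans
    (MulEquiv.subgroupCongr (Lr_eq F).symm)

variable {F : Type*} [Field F] [Fintype F]

theorem finite_G : Finite (Matrix.ProjGenLinGroup (Fin 2) F) :=
  Finite.of_surjective _ Matrix.ProjGenLinGroup.mk_surjective

theorem card_G : Nat.card (Matrix.ProjGenLinGroup (Fin 2) F)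
    = Fintype.card F * (Fintype.card F ^ 2 - 1) := by
  rw [Cfsg.Agent.S0265.result 2, card_S2]

theorem card_Lr (hodd : Odd (Fintype.card F)) :
    2 * Nat.card ↥(Lr F) = Fintype.card F * (Fintype.card F ^ 2 - 1) := by
  rw [← Nat.card_congr (tau F).toEquiv]
  exact Cfsg.Agent.S5892.card_P2_odd hodd

theorem index_Lr (hodd : Odd (Fintype.card F)) : (Lr F).index = 2 := by
  haveI : Finite (Matrix.ProjGenLinGroup (Fin 2) F) := finite_G
  have h1 := Subgroup.card_mul_index (Lr F)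
  rw [card_G] at h1
  have h2 := card_Lr hodd
  have hpos : 0 < Nat.card ↥(Lr F) := Nat.card_pos
  have : Nat.card ↥(Lr F) * (Lr F).index = Nat.card ↥(Lr F) * 2 := by rw [h1, ← h2, mul_comm]
  exact Nat.eq_of_mul_eq_mul_left hpos this

theorem card_inf_two {G : Type*} [Group G] [Finite G] (M L : Subgroup G) [L.Normal]
    (hL : L.index = 2) (hsup : M ⊔ L = ⊤) : Nat.card M = 2 * Nat.card ↥(M ⊓ L) := by
  have h1 : L.relIndex M = 2 := by
    rw [← Subgroup.relIndex_sup_right, hsup, Subgroup.relIndex_top_right, hL]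
  have h2 := Subgroup.card_mul_index (L.subgroupOf M)
  have h3 : (L.subgroupOf M).index = 2 := h1
  rw [h3] at h2
  have h4 : Nat.card ↥(L.subgroupOf M) = Nat.card ↥(M ⊓ L) := by
    rw [← Subgroup.inf_subgroupOf_left L M]
    exact Nat.card_congr (Subgroup.subgroupOfEquivOfLe inf_le_left).toEquiv
  rw [← h2, h4, mul_comm]

end Glue

section KTof

variable {F : Type*} [Field F] [Fintype F]

theorem kt_of (p : ℕ) [Fact p.Prime] [CharP F p] (hodd : Odd (Fintype.card F))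
    (h5 : 5 ≤ Fintype.card F) (K₀ : Subgroup (P2 F)) (hK₀ : IsCoatom K₀) :
    KT (Fintype.card F) ↥K₀ := by
  have hqp : Fintype.card F = p → (Fintype.card F).Prime := fun h => h ▸ (Fact.out : p.Prime)
  rcases Cfsg.Agent.S5892.result p hodd h5 K₀ hK₀ with h | ⟨h13, k, hk, ⟨e⟩⟩ |
    ⟨h7, h9, k, hk, ⟨e⟩⟩ | ⟨F₁, _, _, hq, ⟨e⟩⟩ | ⟨F₁, _, _, r, hr, hor, hq, ⟨e⟩⟩ |
    ⟨h10, -, ⟨e⟩⟩ | ⟨hq, h8, h10, ⟨e⟩⟩ | ⟨hq, h8, ⟨e⟩⟩
  · exact Or.inl h
  · refine Or.inr (Or.inl ⟨h13, ?_, ?_⟩)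
    · rw [Nat.card_congr e.toEquiv, DihedralGroup.nat_card, hk]
    · intro a b
      apply e.injective
      simp only [map_mul]
      exact dih_sq_comm k (e a) (e b)
  · refine Or.inr (Or.inr (Or.inl ⟨?_, ?_⟩))
    · rw [Nat.card_congr e.toEquiv, DihedralGroup.nat_card, hk]
    · intro a b
      apply e.injective
      simp only [map_mul]
      exact dih_sq_comm k (e a) (e b)
  · refine Or.inr (Or.inr (Or.inr (Or.inl ⟨Fintype.card F₁, hq, ?_, ?_⟩)))
    · rw [Nat.card_congr e.toEquiv, card_G]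
    · intro g hg
      obtain ⟨p₁, hp₁⟩ := CharP.exists F₁
      haveI : Fact p₁.Prime := ⟨CharP.char_is_prime F₁ p₁⟩
      obtain ⟨n, -, hn⟩ := FiniteField.card F₁ p₁
      rw [← MulEquiv.orderOf_eq e g] at hg ⊢
      apply pgl_ord_le p₁ (e g)
      rw [hn] at hg
      exact Nat.Coprime.coprime_dvd_right (dvd_pow_self p₁ n.ne_zero) hg
  · have hodd₁ : Odd (Fintype.card F₁) := by
      rw [hq] at hodd
      exact (Nat.odd_pow_iff hr.ne_zero).1 hodd
    refine Or.inr (Or.inr (Or.inr (Or.inr (Or.inl ⟨Fintype.card F₁, r, hr, hor, hq, ?_, ?_⟩))))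
    · rw [Nat.card_congr e.toEquiv]
      exact Cfsg.Agent.S5892.card_P2_odd hodd₁
    · intro g hg
      obtain ⟨p₁, hp₁⟩ := CharP.exists F₁
      haveI : Fact p₁.Prime := ⟨CharP.char_is_prime F₁ p₁⟩
      obtain ⟨n, -, hn⟩ := FiniteField.card F₁ p₁
      rw [← MulEquiv.orderOf_eq e g] at hg ⊢
      apply psl_ord_le p₁ (e g)
      rw [hn] at hg
      exact Nat.Coprime.coprime_dvd_right (dvd_pow_self p₁ n.ne_zero) hg
  · refine Or.inr (Or.inr (Or.inr (Or.inr (Or.inr (Or.inl ⟨h10, ?_, ?_⟩)))))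
    · rw [Nat.card_congr e.toEquiv, card_A5]
    · intro g
      rw [← MulEquiv.orderOf_eq e g]
      exact ord_A5 (e g)
  · refine Or.inr (Or.inr (Or.inr (Or.inr (Or.inr (Or.inr
      (Or.inl ⟨hqp hq, ?_, ?_, ?_, ?_, ?_⟩))))))
    · rw [hq]; exact h8
    · rw [hq]; exact h10
    · rw [Nat.card_congr e.toEquiv, card_A4]
    · intro g
      rw [← MulEquiv.orderOf_eq e g]
      exact ord_A4 (e g)
    · intro S
      rw [Nat.card_congr (e.subgroupMap S).toEquiv]
      exact a4_no_six _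
  · refine Or.inr (Or.inr (Or.inr (Or.inr (Or.inr (Or.inr (Or.inr ⟨hqp hq, ?_, ?_, ?_⟩))))))
    · rw [hq]; exact h8
    · rw [Nat.card_congr e.toEquiv, card_S4]
    · intro g
      rw [← MulEquiv.orderOf_eq e g]
      exact ord_S4 (e g)

end KTof

section MTof

variable {F : Type*} [Field F] [Fintype F]

theorem mt_of (hodd : Odd (Fintype.card F)) (h5 : 5 ≤ Fintype.card F)
    (M : Subgroup (Matrix.ProjGenLinGroup (Fin 2) F)) (hM : IsCoatom M)
    (hML : ¬ Lr F ≤ M)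
    (hcls : Nat.card M = Fintype.card F * (Fintype.card F - 1) ∨
      (Fintype.card F ≠ 5 ∧ Nonempty (M ≃* DihedralGroup (Fintype.card F - 1))) ∨
      Nonempty (M ≃* DihedralGroup (Fintype.card F + 1)) ∨
      ((Fintype.card F).Prime ∧ (Fintype.card F % 8 = 3 ∨ Fintype.card F % 8 = 5) ∧
        Nonempty (M ≃* Equiv.Perm (Fin 4))) ∨
      (∃ (F₀ : Type) (_ : Field F₀) (_ : Fintype F₀) (r : ℕ), r.Prime ∧ Odd r ∧
        Fintype.card F = Fintype.card F₀ ^ r ∧
        Nonempty (M ≃* Matrix.ProjGenLinGroup (Fin 2) F₀))) :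
    MT (Fintype.card F) ↥(M ⊓ Lr F) := by
  haveI : Finite (Matrix.ProjGenLinGroup (Fin 2) F) := finite_G
  have hidx := index_Lr hodd
  haveI : (Lr F).Normal := Subgroup.normal_of_index_eq_two hidx
  have hsup : M ⊔ Lr F = ⊤ := hM.2 _ (left_lt_sup.2 hML)
  have hcard := card_inf_two M (Lr F) hidx hsup
  have hsq : ∀ a : Matrix.ProjGenLinGroup (Fin 2) F, a * a ∈ Lr F :=
    fun a => Subgroup.mul_self_mem_of_index_two hidx a
  obtain ⟨i, hi⟩ := hodd
  have hdih : ∀ n : ℕ, Even n → 0 < n → ∀ e : M ≃* DihedralGroup n,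
      Nat.card ↥(M ⊓ Lr F) = n ∧ ∃ y : ↥(M ⊓ Lr F), 2 * orderOf y = n := by
    intro n hn hpos e
    constructor
    · have := Nat.card_congr e.toEquiv
      rw [DihedralGroup.nat_card, hcard] at this
      omega
    · obtain ⟨m, hm⟩ : ∃ m : M, m = e.symm (DihedralGroup.r 1) := ⟨_, rfl⟩
      have hom : orderOf m = n := by
        rw [hm, MulEquiv.orderOf_eq, DihedralGroup.orderOf_r_one]
      refine ⟨⟨(m : Matrix.ProjGenLinGroup (Fin 2) F) * m,
        Subgroup.mem_inf.2 ⟨M.mul_mem m.2 m.2, hsq _⟩⟩, ?_⟩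
      rw [Subgroup.orderOf_mk]
      have h1 : ((m : Matrix.ProjGenLinGroup (Fin 2) F) * m)
          = ((m ^ 2 : M) : Matrix.ProjGenLinGroup (Fin 2) F) := by
        rw [pow_two]; rfl
      rw [h1, Subgroup.orderOf_coe, orderOf_pow' _ (by norm_num : (2 : ℕ) ≠ 0), hom]
      obtain ⟨j, hj⟩ := hn
      have : Nat.gcd n 2 = 2 := by
        rw [hj, ← two_mul]; exact Nat.gcd_eq_right (dvd_mul_right 2 j)
      rw [this]
      omega
  rcases hcls with h | ⟨hq5, ⟨e⟩⟩ | ⟨⟨e⟩⟩ | ⟨hqp, h8, ⟨e⟩⟩ | ⟨F₀, _, _, r, hr, hor, hq, ⟨e⟩⟩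
  · left
    rw [← hcard, h]
  · right; left
    obtain ⟨hc, y, hy⟩ := hdih (Fintype.card F - 1) ⟨i, by omega⟩ (by omega) e
    exact ⟨hq5, hc, y, hy⟩
  · right; right; left
    exact hdih (Fintype.card F + 1) ⟨i + 1, by omega⟩ (by omega) e
  · right; right; right; left
    refine ⟨hqp, h8, ?_, ?_⟩
    · have := Nat.card_congr e.toEquiv
      rw [card_S4, hcard] at this
      omega
    · obtain ⟨hc1, hc2, hc3⟩ := c_facts
      obtain ⟨ρ, hρ⟩ : ∃ ρ : Equiv.Perm (Fin 4) →* Matrix.ProjGenLinGroup (Fin 2) F,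
          ρ = M.subtype.comp e.symm.toMonoidHom := ⟨_, rfl⟩
      have hρi : Function.Injective ρ := by
        rw [hρ]
        exact M.subtype_injective.comp e.symm.injective
      have hρM : ∀ c, ρ c ∈ M := by
        intro c
        rw [hρ]
        exact (e.symm c).2
      have key : ∀ c : Equiv.Perm (Fin 4), c = (c * c) * (c * c) → ρ c ∈ M ⊓ Lr F := by
        intro c hc
        refine Subgroup.mem_inf.2 ⟨hρM c, ?_⟩
        have : ρ c = ρ (c * c) * ρ (c * c) := by rw [← map_mul, ← hc]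
        rw [this]
        exact hsq _
      refine ⟨⟨_, key c1 hc1⟩, ⟨_, key c2 hc2⟩, ?_, ?_, ?_⟩
      · apply Subtype.ext
        change ρ c1 = (ρ c1 * ρ c1) * (ρ c1 * ρ c1)
        rw [← map_mul, ← map_mul, ← hc1]
      · apply Subtype.ext
        change ρ c2 = (ρ c2 * ρ c2) * (ρ c2 * ρ c2)
        rw [← map_mul, ← map_mul, ← hc2]
      · intro hcon
        have h1 : ρ c1 * ρ c2 = ρ c2 * ρ c1 := congrArg Subtype.val hcon
        rw [← map_mul, ← map_mul] at h1
        exact hc3 (hρi h1)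
  · right; right; right; right
    refine ⟨Fintype.card F₀, r, hr, hor, hq, ?_⟩
    rw [← hcard, Nat.card_congr e.toEquiv, card_G]

end MTof

section Main

variable {F : Type*} [Field F] [Fintype F]

theorem odd_case (hodd : Odd (Fintype.card F)) (h5 : 5 ≤ Fintype.card F)
    (h7 : Fintype.card F ≠ 7) (h9 : Fintype.card F ≠ 9) (h11 : Fintype.card F ≠ 11)
    (h40 : (Fintype.card F).Prime → Fintype.card F % 40 ∉ ({11, 19, 21, 29} : Finset ℕ))
    (M : Subgroup (Matrix.ProjGenLinGroup (Fin 2) F)) (hM : IsCoatom M)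
    (hML : ¬ Lr F ≤ M)
    (hcls : Nat.card M = Fintype.card F * (Fintype.card F - 1) ∨
      (Fintype.card F ≠ 5 ∧ Nonempty (M ≃* DihedralGroup (Fintype.card F - 1))) ∨
      Nonempty (M ≃* DihedralGroup (Fintype.card F + 1)) ∨
      ((Fintype.card F).Prime ∧ (Fintype.card F % 8 = 3 ∨ Fintype.card F % 8 = 5) ∧
        Nonempty (M ≃* Equiv.Perm (Fin 4))) ∨
      (∃ (F₀ : Type) (_ : Field F₀) (_ : Fintype F₀) (r : ℕ), r.Prime ∧ Odd r ∧
        Fintype.card F = Fintype.card F₀ ^ r ∧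
        Nonempty (M ≃* Matrix.ProjGenLinGroup (Fin 2) F₀))) :
    IsCoatom ((M ⊓ Lr F).subgroupOf (Lr F)) := by
  haveI : Finite (Matrix.ProjGenLinGroup (Fin 2) F) := finite_G
  obtain ⟨p, hp⟩ := CharP.exists F
  haveI : Fact p.Prime := ⟨CharP.char_is_prime F p⟩
  obtain ⟨n, hpp, hn⟩ := FiniteField.card F p
  have hMT := mt_of hodd h5 M hM hML hcls
  have hne : (M ⊓ Lr F).subgroupOf (Lr F) ≠ ⊤ := by
    intro h
    rw [Subgroup.subgroupOf_eq_top] at h
    exact hML (h.trans inf_le_left)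
  rcases eq_top_or_exists_le_coatom ((M ⊓ Lr F).subgroupOf (Lr F)) with h | ⟨K', hK', hle⟩
  · exact (hne h).elim
  obtain ⟨K₀, hK₀d⟩ : ∃ K₀ : Subgroup (P2 F), K₀ = K'.map (tau F).symm.toMonoidHom := ⟨_, rfl⟩
  have hK₀ : IsCoatom K₀ := by
    rw [hK₀d]
    exact ((MulEquiv.mapSubgroup (tau F).symm).isCoatom_iff K').2 hK'
  have hKT := kt_of p hodd h5 K₀ hK₀
  have hP2c := Cfsg.Agent.S5892.card_P2_odd hodd
  haveI : Finite (P2 F) := by
    apply Nat.finite_of_card_ne_zero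
    intro h0
    rw [h0] at hP2c
    have hq2 : 2 ≤ Fintype.card F := by omega
    have : 0 < Fintype.card F * (Fintype.card F ^ 2 - 1) := by
      apply Nat.mul_pos (by omega)
      have : 2 ^ 2 ≤ Fintype.card F ^ 2 := Nat.pow_le_pow_left hq2 2
      omega
    omega
  have hlt : 2 * Nat.card ↥K₀ < Fintype.card F * (Fintype.card F ^ 2 - 1) := by
    rw [← hP2c]
    have h1 : Nat.card ↥K₀ ≤ Nat.card (P2 F) := Subgroup.card_le_card_group K₀
    have h2 : Nat.card ↥K₀ ≠ Nat.card (P2 F) := fun h => hK₀.1 (Subgroup.eq_top_of_card_eq K₀ h)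
    omega
  obtain ⟨e1, -⟩ : ∃ e1 : ↥(M ⊓ Lr F) ≃* ↥((M ⊓ Lr F).subgroupOf (Lr F)), True :=
    ⟨(Subgroup.subgroupOfEquivOfLe (inf_le_right : M ⊓ Lr F ≤ Lr F)).symm, trivial⟩
  obtain ⟨e2, -⟩ : ∃ e2 : ↥K' ≃* ↥K₀, True := by
    rw [hK₀d]
    exact ⟨K'.equivMapOfInjective (tau F).symm.toMonoidHom (tau F).symm.injective, trivial⟩
  have hcomb := combine (e2.toMonoidHom.comp ((Subgroup.inclusion hle).comp e1.toMonoidHom))
    (e2.injective.comp ((Subgroup.inclusion_injective hle).comp e1.injective))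
    (Fintype.card F) hodd h5 h7 h9 h11 h40 hlt p n hpp hn n.pos hMT hKT
  rw [← Nat.card_congr e2.toEquiv, Nat.card_congr e1.toEquiv] at hcomb
  rw [Subgroup.eq_of_le_of_card_ge hle hcomb]
  exact hK'

theorem Lr_top_of_even (heven : ¬ Odd (Fintype.card F)) : Lr F = ⊤ := by
  rw [Lr_eq, MonoidHom.range_eq_top]
  apply ProjectiveSpecialLinearGroup.toPGL_surj_of_roots
  intro r
  rw [Fintype.card_fin]
  have h2 : ringChar F = 2 :=
    FiniteField.even_card_iff_char_two.2 (Nat.even_iff.1 (Nat.not_odd_iff_even.1 heven))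
  obtain ⟨s, hs⟩ := FiniteField.isSquare_of_char_two h2 (r : F)
  have hs0 : s ≠ 0 := by
    rintro rfl
    rw [mul_zero] at hs
    exact r.ne_zero hs
  exact ⟨Units.mk0 s hs0, Units.ext (by rw [Units.val_pow_eq_pow_val, Units.val_mk0, pow_two, hs])⟩

theorem coatom_of_top {G : Type*} [Group G] (M L : Subgroup G) (hM : IsCoatom M)
    (hL : L = ⊤) : IsCoatom ((M ⊓ L).subgroupOf L) := by
  subst hL
  rw [inf_top_eq]
  exact ((MulEquiv.comapSubgroup Subgroup.topEquiv).isCoatom_iff M).2 hM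

theorem pgl_meet_coatom (h4 : 4 ≤ Fintype.card F) (h7 : Fintype.card F ≠ 7) (h9 : Fintype.card F ≠ 9)
    (h11 : Fintype.card F ≠ 11)
    (h40 : (Fintype.card F).Prime → Fintype.card F % 40 ∉ ({11, 19, 21, 29} : Finset ℕ))
    (M : Subgroup (Matrix.ProjGenLinGroup (Fin 2) F)) (hM : IsCoatom M)
    (hML : ¬ Lr F ≤ M)
    (hcls : Odd (Fintype.card F) → 3 < Fintype.card F →
      Nat.card M = Fintype.card F * (Fintype.card F - 1) ∨
      (Fintype.card F ≠ 5 ∧ Nonempty (M ≃* DihedralGroup (Fintype.card F - 1))) ∨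
      Nonempty (M ≃* DihedralGroup (Fintype.card F + 1)) ∨
      ((Fintype.card F).Prime ∧ (Fintype.card F % 8 = 3 ∨ Fintype.card F % 8 = 5) ∧
        Nonempty (M ≃* Equiv.Perm (Fin 4))) ∨
      (∃ (F₀ : Type) (_ : Field F₀) (_ : Fintype F₀) (r : ℕ), r.Prime ∧ Odd r ∧
        Fintype.card F = Fintype.card F₀ ^ r ∧
        Nonempty (M ≃* Matrix.ProjGenLinGroup (Fin 2) F₀))) :
    IsCoatom ((M ⊓ Lr F).subgroupOf (Lr F)) := by
  by_cases hodd : Odd (Fintype.card F)
  · have h5 : 5 ≤ Fintype.card F := by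
      obtain ⟨i, hi⟩ := hodd
      omega
    exact odd_case hodd h5 h7 h9 h11 h40 M hM hML (hcls hodd (by omega))
  · exact coatom_of_top M _ hM (Lr_top_of_even hodd)

end Main

end Cfsg.Agent.Lib.Helper19.DkU
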