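import Mathlib
import Cfsg.Agent.Lib.Helper19.DkS

set_option autoImplicit false

/-! Three lemmas for S5891 (maximal subgroups of `PGL₂(q)`), requested by helper54:
`small_P2` (subgroups of `PSL₂` of orders 24, 48, 120 with a non-abelian-square pair),
`c3_split` (the dihedral outcome: quaternion of order 8, or every automorphism preserving the
subgroup maps the torus element into its centraliser), `sq_of_sqrt_not_mem`. -/

namespace Cfsg.Agent.Lib.Helper19.Dk

open Matrix Cfsg.Agent.S0809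

section SmallP2

variable {F : Type*} [Field F]

theorem index_cenL [Finite F] (L : Subgroup (S2 F)) (x : S2 F)
    (hcard : Nat.card L = 2 * cA L x) : ((cenL L x).subgroupOf L).index = 2 := by
  have hCL : cenL L x ≤ L := inf_le_left
  have h1 := Subgroup.card_mul_index ((cenL L x).subgroupOf L)
  rw [Nat.card_congr (Subgroup.subgroupOfEquivOfLe hCL).toEquiv, hcard] at h1
  have hCpos : 0 < Nat.card (cenL L x) := Nat.card_pos
  have h2 : Nat.card (cenL L x) * ((cenL L x).subgroupOf L).index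
      = Nat.card (cenL L x) * 2 := by
    rw [h1]
    unfold cA
    ring
  exact Nat.eq_of_mul_eq_mul_left hCpos h2

theorem sq_mem_cenL [Finite F] (L : Subgroup (S2 F)) (x : S2 F)
    (hcard : Nat.card L = 2 * cA L x) (ℓ : S2 F) (hℓ : ℓ ∈ L) : ℓ * ℓ ∈ cenL L x := by
  have h := Subgroup.mul_self_mem_of_index_two (index_cenL L x hcard) (⟨ℓ, hℓ⟩ : L)
  rw [Subgroup.mem_subgroupOf] at h
  exact h

theorem conj_eq_or_inv2 [Finite F] (L : Subgroup (S2 F)) (x : S2 F) (hx : x ∈ L)
    (hss : tr x ^ 2 ≠ 4) (hcard : Nat.card L = 2 * cA L x) (ℓ : S2 F) (hℓ : ℓ ∈ L) :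
    ℓ * x * ℓ⁻¹ = x ∨ ℓ * x * ℓ⁻¹ = x⁻¹ := by
  have hnorm := Subgroup.normal_of_index_eq_two (index_cenL L x hcard)
  have hxC : (⟨x, hx⟩ : L) ∈ (cenL L x).subgroupOf L := by
    rw [Subgroup.mem_subgroupOf]; exact mem_cenL.2 ⟨hx, rfl⟩
  have h5 := hnorm.conj_mem _ hxC ⟨ℓ, hℓ⟩
  rw [Subgroup.mem_subgroupOf] at h5
  have h6 : ℓ * x * ℓ⁻¹ ∈ cenL L x := h5
  have h7 := (mem_cenL.1 h6).2
  exact eq_or_inv x (ℓ * x * ℓ⁻¹) hss h7 (tr_conj ℓ x)

/-- the commutator of two upper triangular matrices has trace `2` -/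
theorem tr_comm_bor (A B : S2 F) (hA : A 1 0 = 0) (hB : B 1 0 = 0) :
    tr (A * B * A⁻¹ * B⁻¹) = 2 := by
  have dA := det2 A
  have dB := det2 B
  rw [hA] at dA
  rw [hB] at dB
  unfold tr
  simp only [mul00, mul01, mul10, mul11, inv00, inv01, inv10, inv11, hA, hB]
  linear_combination (2 * B 0 0 * B 1 1) * dA + 2 * dB

theorem kq_bound (k q' N : ℕ) (hk1 : 1 ≤ k) (h : k * q' * (1 + q') = N) (m : ℕ)
    (hm : N < m * (1 + m)) : q' < m := by
  by_contra hcon
  push Not at hcon
  have h1 : m * (1 + m) ≤ q' * (1 + q') := Nat.mul_le_mul hcon (by omega)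
  have h2 : 1 * (q' * (1 + q')) ≤ k * (q' * (1 + q')) := Nat.mul_le_mul_right _ hk1
  rw [mul_assoc] at h
  omega

/-- subgroups of `PSL₂(E)` (odd characteristic) of order 24, 48, 120 containing two elements
whose squares do not commute and whose commutator is an involution -/
theorem small_P2 {E : Type*} [Field E] [Fintype E] (p : ℕ) [Fact p.Prime] [CharP E p]
    (h2 : (2 : E) ≠ 0)
    (H : Subgroup (P2 E)) (a b : P2 E) (ha : a ∈ H) (hb : b ∈ H)
    (hsq : a * a * (b * b) ≠ b * b * (a * a))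
    (hc : a * b * a⁻¹ * b⁻¹ ≠ 1) (hc2 : (a * b * a⁻¹ * b⁻¹) * (a * b * a⁻¹ * b⁻¹) = 1) :
    (Nat.card H = 24 → p = 3 ∨ Nonempty (H ≃* Equiv.Perm (Fin 4))) ∧
    (Nat.card H = 48 → False) ∧ (Nat.card H = 120 → p = 5) := by
  have hZ := center_le_Lof H
  have hz2 := center_card_two h2
  have hLc : Nat.card (Lof H) = 2 * Nat.card H := by rw [card_Lof, hz2]
  obtain ⟨ah, hah⟩ := prj_surj a
  obtain ⟨bh, hbh⟩ := prj_surj b
  have hahL : ah ∈ Lof H := by rw [mem_Lof, hah]; exact ha
  have hbhL : bh ∈ Lof H := by rw [mem_Lof, hbh]; exact hb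
  have hsq' : (ah * ah) * (bh * bh) ≠ (bh * bh) * (ah * ah) := by
    intro h
    apply hsq
    have := congrArg (prj E) h
    simpa only [map_mul, hah, hbh] using this
  have hp : p.Prime := Fact.out
  have hp2 : p ≠ 2 := char_ne_two p h2
  rcases main_cases p (Lof H) hZ with h | ⟨x, hx, hss, hcomm⟩ | ⟨x, hx, hss, hcard⟩ | ⟨g, hg⟩ |
    ⟨hcard, -⟩ | ⟨hcard, ⟨x, hx, hxs, hA⟩, hall⟩ | ⟨hcard, -⟩ |
    ⟨x₀, hx₀, hx₀s, hx₀4, q', k, hq', hcA, hcN, hcard, hk⟩
  · exfalso
    apply hsq'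
    have h1 : ah * ah ∈ Subgroup.center (S2 E) := by
      rw [← h]; exact (Lof H).mul_mem hahL hahL
    exact (Subgroup.mem_center_iff.1 h1 _).symm
  · exfalso
    have hxs := not_isSc_of_tr x hss
    exact hsq' (comm_trans _ x _ hxs (hcomm _ ((Lof H).mul_mem hahL hahL))
      (hcomm _ ((Lof H).mul_mem hbhL hbhL)))
  · exfalso
    have hxs := not_isSc_of_tr x hss
    have h1 := (mem_cenL.1 (sq_mem_cenL (Lof H) x hcard ah hahL)).2
    have h2' := (mem_cenL.1 (sq_mem_cenL (Lof H) x hcard bh hbhL)).2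
    exact hsq' (comm_trans _ x _ hxs h1 h2')
  · exfalso
    have h1 : tr (ah * bh * ah⁻¹ * bh⁻¹) = 2 := by
      have := tr_comm_bor (g * ah * g⁻¹) (g * bh * g⁻¹) (hg ah hahL) (hg bh hbhL)
      have e : (g * ah * g⁻¹) * (g * bh * g⁻¹) * (g * ah * g⁻¹)⁻¹ * (g * bh * g⁻¹)⁻¹
          = g * (ah * bh * ah⁻¹ * bh⁻¹) * g⁻¹ := by group
      rw [e, tr_conj] at this
      exact this
    have h3 := pow_char_of_tr p _ h1
    have h4 : (a * b * a⁻¹ * b⁻¹) ^ p = 1 := by
      have := congrArg (prj E) h3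
      simpa only [map_pow, map_mul, map_inv, map_one, hah, hbh] using this
    have h5 : (a * b * a⁻¹ * b⁻¹) ^ 2 = 1 := by rw [pow_two]; exact hc2
    have h6 : orderOf (a * b * a⁻¹ * b⁻¹) ∣ Nat.gcd p 2 :=
      Nat.dvd_gcd (orderOf_dvd_of_pow_eq_one h4) (orderOf_dvd_of_pow_eq_one h5)
    have h7 : Nat.gcd p 2 = 1 := (Nat.coprime_primes hp Nat.prime_two).2 hp2
    rw [h7, Nat.dvd_one, orderOf_eq_one_iff] at h6
    exact hc h6
  · have hH : Nat.card H = 12 := by rw [hz2] at hcard; omega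
    exact ⟨fun h => by omega, fun h => by omega, fun h => by omega⟩
  · have hH : Nat.card H = 24 := by rw [hz2] at hcard; omega
    exact ⟨fun _ => Or.inr (out_S4 H hcard x hx hxs hA hall), fun h => by omega,
      fun h => by omega⟩
  · have hH : Nat.card H = 60 := by rw [hz2] at hcard; omega
    exact ⟨fun h => by omega, fun h => by omega, fun h => by omega⟩
  · rw [hz2] at hcA hcard
    have hHc : k * q' * (1 + q') = Nat.card H := by
      have h1 : 2 * Nat.card H = 2 * (k * q' * (1 + q')) := by rw [← hLc, hcard]; ring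
      omega
    have hk1 : 1 ≤ k := by rcases hk with h | h <;> omega
    have hpq : ∀ r : ℕ, r.Prime → r ≠ 2 → q' = r → p = r := by
      intro r hr hr2 hqr
      haveI : Fact r.Prime := ⟨hr⟩
      have hdvd : r ∣ Nat.card (cenL (Lof H) x₀) := by
        have : Nat.card (cenL (Lof H) x₀) = 2 * q' := hcA
        rw [this, hqr]; exact dvd_mul_left r 2
      obtain ⟨y, hy⟩ := exists_prime_orderOf_dvd_card' (G := cenL (Lof H) x₀) r hdvd
      have hyc := (mem_cenL.1 y.2).2
      have hy4 : tr (y : S2 E) ^ 2 = 4 := tr_sq_of_comm x₀ y hx₀s hx₀4 hyc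
      have h1 := pow_two_p_of_tr p (y : S2 E) hy4
      have h3 : orderOf (y : S2 E) = r := by rw [Subgroup.orderOf_coe]; exact hy
      have h4 : r ∣ 2 * p := by rw [← h3]; exact orderOf_dvd_of_pow_eq_one h1
      rcases (Nat.Prime.dvd_mul hr).1 h4 with h | h
      · exact absurd ((Nat.prime_dvd_prime_iff_eq hr Nat.prime_two).1 h) hr2
      · exact ((Nat.prime_dvd_prime_iff_eq hr hp).1 h).symm
    refine ⟨fun h => ?_, fun h => ?_, fun h => ?_⟩
    · left
      rw [h] at hHc
      have hlt := kq_bound k q' 24 hk1 hHc 5 (by norm_num)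
      interval_cases q'
      · exact hpq 3 Nat.prime_three (by norm_num) rfl
      · omega
    · rw [h] at hHc
      have hlt := kq_bound k q' 48 hk1 hHc 7 (by norm_num)
      interval_cases q' <;> omega
    · rw [h] at hHc
      have hlt := kq_bound k q' 120 hk1 hHc 11 (by norm_num)
      interval_cases q'
      · omega
      · omega
      · exact hpq 5 Nat.prime_five (by norm_num) rfl
      · omega
      · omega
      · omega
      · omega
      · omega

end SmallP2

section C3Split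

variable {F : Type*} [Field F]

/-- the dihedral outcome: either `L` is quaternion of order 8, or every automorphism of `SL₂`
preserving `L` maps `x` into its centraliser -/
theorem c3_split [Fintype F] (h2 : (2 : F) ≠ 0) (L : Subgroup (S2 F))
    (hZ : Subgroup.center (S2 F) ≤ L) (x : S2 F) (hx : x ∈ L) (hss : tr x ^ 2 ≠ 4)
    (hcard : Nat.card L = 2 * cA L x) :
    (Nat.card L = 8 ∧ ∃ y ∈ L, x * x = negOne ∧ y * y = negOne ∧ y * x = negOne * (x * y)) ∨
    (∀ θ : S2 F ≃* S2 F, (∀ g ∈ L, θ g ∈ L) → θ x * x = x * θ x) := by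
  classical
  have hxs : ¬ IsSc x := not_isSc_of_tr x hss
  have hxA : x ∈ cenL L x := mem_cenL.2 ⟨hx, rfl⟩
  have hout : ∀ ℓ ∈ L, ℓ ∉ cenL L x → ℓ * x * ℓ⁻¹ = x⁻¹ ∧ ℓ * ℓ = negOne := by
    intro ℓ hℓ hℓA
    have h1 : ℓ * x * ℓ⁻¹ = x⁻¹ := by
      rcases conj_eq_or_inv2 L x hx hss hcard ℓ hℓ with h | h
      · exfalso
        apply hℓA
        rw [mem_cenL]
        exact ⟨hℓ, (conj_eq_iff ℓ x x).1 h⟩
      · exact h
    refine ⟨h1, ?_⟩
    rcases isSc_eq _ (sq_isSc_of_inv x ℓ hss h1) with h | h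
    · exfalso
      rcases sq_eq_one h2 ℓ h with h' | h'
      · apply hℓA
        rw [h']
        exact (cenL L x).one_mem
      · apply hℓA
        rw [mem_cenL]
        refine ⟨hℓ, ?_⟩
        rw [h']
        exact negOne_mul x
    · exact h
  haveI hcyc : IsCyclic (cenL L x) := by
    haveI := centralizer_isCyclic x hss
    have hle : cenL L x ≤ Subgroup.centralizer ({x} : Set (S2 F)) := inf_le_right
    exact isCyclic_of_injective (Subgroup.inclusion hle) (Subgroup.inclusion_injective hle)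
  obtain ⟨a₀, ha₀⟩ := hcyc.exists_generator
  have hord : orderOf (a₀ : S2 F) = cA L x := by
    rw [Subgroup.orderOf_coe]
    unfold cA
    exact orderOf_eq_card_of_forall_mem_zpowers ha₀
  have hgt : 2 < cA L x := by
    have := card_Z_lt L hZ x hx hxs
    rw [center_card_two h2] at this
    exact this
  by_cases h4 : cA L x = 4
  · left
    refine ⟨by rw [hcard, h4], ?_⟩
    have hx4 : x ^ 4 = 1 := by
      have h := pow_card_eq_one' (G := cenL L x) (x := ⟨x, hxA⟩)
      have h' : Nat.card (cenL L x) = 4 := h4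
      rw [h'] at h
      exact congrArg Subtype.val h
    have hxx : x * x = negOne := by
      have h1 : (x * x) * (x * x) = 1 := by
        rw [← hx4, show (4 : ℕ) = 2 + 2 from rfl, pow_add, pow_two]
      rcases sq_eq_one h2 _ h1 with h | h
      · exfalso
        rcases sq_eq_one h2 x h with h' | h'
        · exact hxs (h' ▸ isSc_one)
        · exact hxs (h' ▸ isSc_negOne)
      · exact h
    obtain ⟨y, hyL, hyA⟩ : ∃ y ∈ L, y ∉ cenL L x := by
      by_contra hcon
      push Not at hcon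
      have hle : L ≤ cenL L x := hcon
      have heq : cenL L x = L := le_antisymm inf_le_left hle
      have hpos : 0 < Nat.card L := Nat.card_pos
      unfold cA at hcard
      rw [heq] at hcard
      omega
    obtain ⟨hy1, hy2⟩ := hout y hyL hyA
    refine ⟨y, hyL, hxx, hy2, ?_⟩
    have hxinv : x⁻¹ = negOne * x := by
      apply inv_eq_of_mul_eq_one_right
      calc x * (negOne * x) = negOne * (x * x) := by rw [← mul_assoc, ← negOne_mul x, mul_assoc]
        _ = 1 := by rw [hxx, negOne_sq]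
    have h3 : y * x = x⁻¹ * y := (conj_eq_iff y x x⁻¹).1 hy1
    rw [h3, hxinv, mul_assoc]
  · right
    intro θ hθ
    have hθa : θ (a₀ : S2 F) ∈ cenL L x := by
      by_contra hcon
      obtain ⟨-, hsq⟩ := hout (θ (a₀ : S2 F)) (hθ _ (inf_le_left (a := L) a₀.2)) hcon
      have h4' : (θ (a₀ : S2 F)) ^ 4 = 1 := by
        have : (θ (a₀ : S2 F)) ^ 4
            = (θ (a₀ : S2 F) * θ (a₀ : S2 F)) * (θ (a₀ : S2 F) * θ (a₀ : S2 F)) := by
          rw [show (4 : ℕ) = 2 + 2 from rfl, pow_add, pow_two]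
        rw [this, hsq, negOne_sq]
      have hdvd : orderOf (θ (a₀ : S2 F)) ∣ 4 := orderOf_dvd_of_pow_eq_one h4'
      rw [MulEquiv.orderOf_eq, hord] at hdvd
      have hle := Nat.le_of_dvd (by norm_num) hdvd
      have h3 : cA L x = 3 := by omega
      rw [h3] at hdvd
      omega
    obtain ⟨k, hk⟩ := Subgroup.mem_zpowers_iff.1 (ha₀ ⟨x, hxA⟩)
    have hk' : (a₀ : S2 F) ^ k = x := by
      have := congrArg Subtype.val hk
      simpa using this
    have hθx : θ x ∈ cenL L x := by
      have e : θ x = (θ (a₀ : S2 F)) ^ k := by rw [← map_zpow, hk']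
      rw [e]
      exact (cenL L x).zpow_mem hθa k
    exact (mem_cenL.1 hθx).2

end C3Split

section SqrtSubfield

/-- if `s ∉ Kf` but `s² ∈ Kf` (odd characteristic), every element of `Kf` is a square in `F` -/
theorem sq_of_sqrt_not_mem {F : Type*} [Field F] [Fintype F] (h2 : (2 : F) ≠ 0)
    (Kf : Subfield F) (s : F) (hs : s ∉ Kf) (hss : s * s ∈ Kf) :
    ∀ d ∈ Kf, ∃ r : F, r * r = d := by
  classical
  haveI : Fintype Kf := Fintype.ofFinite Kf
  have hchar : ringChar Kf ≠ 2 := by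
    intro h
    have h0 : ((ringChar Kf : ℕ) : Kf) = 0 := ringChar.Nat.cast_ringChar
    rw [h] at h0
    apply h2
    have e : (2 : F) = Kf.subtype ((2 : ℕ) : Kf) := by
      rw [map_natCast]; norm_num
    rw [e, h0, map_zero]
  have hs0 : s ≠ 0 := by
    rintro rfl
    exact hs Kf.zero_mem
  have ht : ¬ IsSquare (⟨s * s, hss⟩ : Kf) := by
    rintro ⟨u, hu⟩
    have hu' : s * s = (u : F) * u := congrArg Subtype.val hu
    have h0 : (s - u) * (s + u) = 0 := by linear_combination hu'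
    rcases mul_eq_zero.1 h0 with h | h
    · exact hs (by rw [sub_eq_zero.1 h]; exact u.2)
    · exact hs (by rw [eq_neg_of_add_eq_zero_left h]; exact Kf.neg_mem u.2)
  have ht0 : (⟨s * s, hss⟩ : Kf) ≠ 0 := by
    intro h
    exact ht (h ▸ IsSquare.zero)
  intro d hd
  by_cases hdsq : IsSquare (⟨d, hd⟩ : Kf)
  · obtain ⟨u, hu⟩ := hdsq
    exact ⟨u, (congrArg Subtype.val hu).symm⟩
  · have hd0 : (⟨d, hd⟩ : Kf) ≠ 0 := by
      intro h
      exact hdsq (h ▸ IsSquare.zero)
    have h1 : (⟨d, hd⟩ : Kf) ^ (Fintype.card Kf / 2) = -1 :=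
      (FiniteField.pow_dichotomy hchar hd0).resolve_left
        (fun h => hdsq ((FiniteField.isSquare_iff hchar hd0).2 h))
    have h1' : (⟨s * s, hss⟩ : Kf) ^ (Fintype.card Kf / 2) = -1 :=
      (FiniteField.pow_dichotomy hchar ht0).resolve_left
        (fun h => ht ((FiniteField.isSquare_iff hchar ht0).2 h))
    have h3 : IsSquare ((⟨d, hd⟩ : Kf) * ⟨s * s, hss⟩) := by
      rw [FiniteField.isSquare_iff hchar (mul_ne_zero hd0 ht0), mul_pow, h1, h1']
      norm_num
    obtain ⟨w, hw⟩ := h3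
    have hw' : d * (s * s) = (w : F) * w := congrArg Subtype.val hw
    refine ⟨w / s, ?_⟩
    field_simp
    linear_combination -hw'

end SqrtSubfield

end Cfsg.Agent.Lib.Helper19.Dk
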