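import Mathlib
import Cfsg.Agent.Lib.Helper19.DkV
import Cfsg.Agent.Lib.Helper54.PgB
import Cfsg.Agent.S0805

set_option autoImplicit false

/-! The subfield case of S5891 (maximal subgroups of `PGL₂(q)` not containing `PSL₂(q)`):
`pg_field`. Uses helper54's `Pg` API. -/

namespace Cfsg.Agent.Lib.Helper19.Dk

open Matrix Cfsg.Agent.S0809 Cfsg.Agent.Lib.Helper54

section PgRange

variable {F : Type*} [Field F]

theorem mul_scalar_apply (γ : G2 F) (u : Fˣ) (i j : Fin 2) :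
    ((γ * GeneralLinearGroup.scalar (Fin 2) u : G2 F) : Matrix (Fin 2) (Fin 2) F) i j
      = (γ : Matrix (Fin 2) (Fin 2) F) i j * u := by
  rw [Units.val_mul, GeneralLinearGroup.coe_scalar]
  simp [Matrix.mul_apply, Matrix.diagonal_apply]

/-- a matrix which is a scalar multiple of a matrix over the image of `ι` has its class in the
image of `PGL₂(K)` -/
theorem mk_mem_range_map {K : Type*} [Field K] (ι : K →+* F) (γ : G2 F) (lam : F)
    (hlam : lam ≠ 0)
    (h : ∀ i j, ∃ a : K, ι a = lam * (γ : Matrix (Fin 2) (Fin 2) F) i j) :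
    ProjGenLinGroup.mk γ ∈ (ProjGenLinGroup.map (n := Fin 2) ι).range := by
  choose a ha using h
  have hdetγ := pg_det_ne γ
  have hdet : (Matrix.of a).det ≠ 0 := by
    intro h0
    apply hdetγ
    rw [Matrix.det_fin_two] at h0
    have h1 := congrArg ι h0
    simp only [map_sub, map_mul, map_zero, Matrix.of_apply, ha] at h1
    have h2 : lam ^ 2 * ((γ : Matrix (Fin 2) (Fin 2) F) 0 0 * (γ : Matrix (Fin 2) (Fin 2) F) 1 1
        - (γ : Matrix (Fin 2) (Fin 2) F) 0 1 * (γ : Matrix (Fin 2) (Fin 2) F) 1 0) = 0 := by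
      linear_combination h1
    rcases mul_eq_zero.1 h2 with h | h
    · exact absurd ((pow_eq_zero_iff two_ne_zero).1 h) hlam
    · exact h
  refine ⟨ProjGenLinGroup.mk (GeneralLinearGroup.mkOfDetNeZero (Matrix.of a) hdet), ?_⟩
  rw [ProjGenLinGroup.map_mk, eq_comm, ProjGenLinGroup.mk_eq_mk_iff]
  refine ⟨Units.mk0 lam hlam, ?_⟩
  ext i j
  rw [mul_scalar_apply, Units.val_mk0, mul_comm, ← ha i j]
  rfl

theorem exists_scaled_of_mem_range {K : Type*} [Field K] (ι : K →+* F) (γ : G2 F)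
    (h : ProjGenLinGroup.mk γ ∈ (ProjGenLinGroup.map (n := Fin 2) ι).range) :
    ∃ lam : F, lam ≠ 0 ∧ ∀ i j, ∃ a : K, ι a = lam * (γ : Matrix (Fin 2) (Fin 2) F) i j := by
  obtain ⟨g, hg⟩ := h
  induction g using ProjGenLinGroup.induction_on with | mk g₀ =>
  rw [ProjGenLinGroup.map_mk, ProjGenLinGroup.mk_eq_mk_iff] at hg
  obtain ⟨u, hu⟩ := hg
  refine ⟨((u⁻¹ : Fˣ) : F), Units.ne_zero _, fun i j => ⟨(g₀ : Matrix (Fin 2) (Fin 2) K) i j, ?_⟩⟩
  rw [← hu, mul_scalar_apply]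
  have e : ((GeneralLinearGroup.map ι g₀ : G2 F) : Matrix (Fin 2) (Fin 2) F) i j
      = ι ((g₀ : Matrix (Fin 2) (Fin 2) K) i j) := rfl
  rw [e, Units.val_inv_eq_inv_val]
  field_simp

theorem diag_mem_range {K : Type*} [Field K] (ι : K →+* F) (u : Fˣ) (h : ∃ a : K, ι a = u) :
    ProjGenLinGroup.mk (pgdiag u) ∈ (ProjGenLinGroup.map (n := Fin 2) ι).range := by
  obtain ⟨a, ha⟩ := h
  apply mk_mem_range_map ι (pgdiag u) 1 one_ne_zero
  intro i j
  rw [one_mul, pgdiag_coe]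
  fin_cases i <;> fin_cases j
  · exact ⟨a, ha⟩
  · exact ⟨0, by simp⟩
  · exact ⟨0, by simp⟩
  · exact ⟨1, by simp⟩

theorem diag_of_mem_range {K : Type*} [Field K] (ι : K →+* F) (u : Fˣ)
    (h : ProjGenLinGroup.mk (pgdiag u) ∈ (ProjGenLinGroup.map (n := Fin 2) ι).range) :
    ∃ a : K, ι a = u := by
  obtain ⟨lam, hlam, hent⟩ := exists_scaled_of_mem_range ι (pgdiag u) h
  obtain ⟨a, ha⟩ := hent 0 0
  obtain ⟨b, hb⟩ := hent 1 1
  rw [pgdiag_coe] at ha hb
  simp only [Matrix.of_apply, Matrix.cons_val', Matrix.cons_val_zero, Matrix.cons_val_one,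
    Matrix.cons_val_fin_one, mul_one] at ha hb
  refine ⟨a / b, ?_⟩
  rw [map_div₀, ha, hb]
  field_simp

/-- explicit conjugation formulas: if `γ` conjugates the two elementary unipotents into
matrices over `Kf`, a scalar multiple of `γ` has entries in `Kf` -/
theorem gconj_scaled (Kf : Subfield F) (γ : G2 F)
    (hX : gconj γ (uu 1) ∈ SLsub Kf) (hY : gconj γ (ll 1) ∈ SLsub Kf) :
    ∃ lam : F, lam ≠ 0 ∧ ∀ i j, lam * (γ : Matrix (Fin 2) (Fin 2) F) i j ∈ Kf := by
  obtain ⟨X, hXd⟩ : ∃ X : S2 F, X = gconj γ (uu 1) := ⟨_, rfl⟩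
  obtain ⟨Y, hYd⟩ : ∃ Y : S2 F, Y = gconj γ (ll 1) := ⟨_, rfl⟩
  rw [← hXd] at hX
  rw [← hYd] at hY
  have hXe := (gconj_eq_iff γ (uu 1) X).1 hXd.symm
  have hYe := (gconj_eq_iff γ (ll 1) Y).1 hYd.symm
  have hD := pg_det_ne γ
  obtain ⟨a, ha⟩ : ∃ a : F, a = (γ : Matrix (Fin 2) (Fin 2) F) 0 0 := ⟨_, rfl⟩
  obtain ⟨b, hb⟩ : ∃ b : F, b = (γ : Matrix (Fin 2) (Fin 2) F) 0 1 := ⟨_, rfl⟩
  obtain ⟨c, hc⟩ : ∃ c : F, c = (γ : Matrix (Fin 2) (Fin 2) F) 1 0 := ⟨_, rfl⟩
  obtain ⟨d, hd⟩ : ∃ d : F, d = (γ : Matrix (Fin 2) (Fin 2) F) 1 1 := ⟨_, rfl⟩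
  rw [← ha, ← hb, ← hc, ← hd] at hD
  have x00 := congrFun (congrFun hXe 0) 0
  have x01 := congrFun (congrFun hXe 0) 1
  have x10 := congrFun (congrFun hXe 1) 0
  have x11 := congrFun (congrFun hXe 1) 1
  have y00 := congrFun (congrFun hYe 0) 0
  have y01 := congrFun (congrFun hYe 0) 1
  have y10 := congrFun (congrFun hYe 1) 0
  have y11 := congrFun (congrFun hYe 1) 1
  simp only [Matrix.mul_apply, Fin.sum_univ_two, ← ha, ← hb, ← hc, ← hd] at x00 x01 x10 x11 y00 y01 y10 y11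
  have u00 : ((uu (1 : F) : S2 F) : Matrix (Fin 2) (Fin 2) F) 0 0 = 1 := rfl
  have u01 : ((uu (1 : F) : S2 F) : Matrix (Fin 2) (Fin 2) F) 0 1 = 1 := rfl
  have u10 : ((uu (1 : F) : S2 F) : Matrix (Fin 2) (Fin 2) F) 1 0 = 0 := rfl
  have u11 : ((uu (1 : F) : S2 F) : Matrix (Fin 2) (Fin 2) F) 1 1 = 1 := rfl
  have l00 : ((ll (1 : F) : S2 F) : Matrix (Fin 2) (Fin 2) F) 0 0 = 1 := rfl
  have l01 : ((ll (1 : F) : S2 F) : Matrix (Fin 2) (Fin 2) F) 0 1 = 0 := rfl
  have l10 : ((ll (1 : F) : S2 F) : Matrix (Fin 2) (Fin 2) F) 1 0 = 1 := rfl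
  have l11 : ((ll (1 : F) : S2 F) : Matrix (Fin 2) (Fin 2) F) 1 1 = 1 := rfl
  rw [u00, u10] at x00 x10
  rw [u01, u11] at x01 x11
  rw [l00, l10] at y00 y10
  rw [l01, l11] at y01 y11
  have hXm := (mem_SLsub Kf X).1 hX
  have hYm := (mem_SLsub Kf Y).1 hY
  obtain ⟨D, hDd⟩ : ∃ D : F, D = a * d - b * c := ⟨_, rfl⟩
  rw [← hDd] at hD
  -- explicit entries
  have X00 : X 0 0 = 1 - a * c / D := by
    field_simp
    rw [hDd]
    linear_combination (-d) * x00 + c * x01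
  have X01 : X 0 1 = a ^ 2 / D := by
    field_simp
    rw [hDd]
    linear_combination b * x00 - a * x01
  have X10 : X 1 0 = - c ^ 2 / D := by
    field_simp
    rw [hDd]
    linear_combination (-d) * x10 + c * x11
  have X11 : X 1 1 = 1 + a * c / D := by
    field_simp
    rw [hDd]
    linear_combination b * x10 - a * x11
  have Y00 : Y 0 0 = 1 + b * d / D := by
    field_simp
    rw [hDd]
    linear_combination (-d) * y00 + c * y01
  have Y01 : Y 0 1 = - b ^ 2 / D := by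
    field_simp
    rw [hDd]
    linear_combination b * y00 - a * y01
  have Y10 : Y 1 0 = d ^ 2 / D := by
    field_simp
    rw [hDd]
    linear_combination (-d) * y10 + c * y11
  have Y11 : Y 1 1 = 1 - b * d / D := by
    field_simp
    rw [hDd]
    linear_combination b * y10 - a * y11
  have one_mem : (1 : F) ∈ Kf := Kf.one_mem
  by_cases ha0 : a = 0
  · have hc0 : c ≠ 0 := by
      rintro rfl
      apply hD
      rw [hDd, ha0]; ring
    refine ⟨c / D, div_ne_zero hc0 hD, ?_⟩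
    intro i j
    fin_cases i <;> fin_cases j
    · show c / D * (γ : Matrix (Fin 2) (Fin 2) F) 0 0 ∈ Kf
      rw [← ha, ha0, mul_zero]
      exact Kf.zero_mem
    · show c / D * (γ : Matrix (Fin 2) (Fin 2) F) 0 1 ∈ Kf
      rw [← hb]
      have e : c / D * b = -(X 1 0 * Y 0 1 + (X 1 1 - 1) * (Y 1 1 - 1)) := by
        rw [X10, X11, Y01, Y11]
        field_simp
        rw [hDd, ha0]
        ring
      rw [e]
      exact Kf.neg_mem (Kf.add_mem (Kf.mul_mem (hXm 1 0) (hYm 0 1))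
        (Kf.mul_mem (Kf.sub_mem (hXm 1 1) one_mem) (Kf.sub_mem (hYm 1 1) one_mem)))
    · show c / D * (γ : Matrix (Fin 2) (Fin 2) F) 1 0 ∈ Kf
      rw [← hc]
      have e : c / D * c = -(X 1 0) := by
        rw [X10]
        field_simp
      rw [e]
      exact Kf.neg_mem (hXm 1 0)
    · show c / D * (γ : Matrix (Fin 2) (Fin 2) F) 1 1 ∈ Kf
      rw [← hd]
      have e : c / D * d = X 1 0 * (Y 0 0 - 1) + (X 1 1 - 1) * Y 1 0 := by
        rw [X10, X11, Y00, Y10]
        field_simp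
        rw [hDd, ha0]
        ring
      rw [e]
      exact Kf.add_mem (Kf.mul_mem (hXm 1 0) (Kf.sub_mem (hYm 0 0) one_mem))
        (Kf.mul_mem (Kf.sub_mem (hXm 1 1) one_mem) (hYm 1 0))
  · refine ⟨a / D, div_ne_zero ha0 hD, ?_⟩
    intro i j
    fin_cases i <;> fin_cases j
    · show a / D * (γ : Matrix (Fin 2) (Fin 2) F) 0 0 ∈ Kf
      rw [← ha]
      have e : a / D * a = X 0 1 := by
        rw [X01]
        field_simp
      rw [e]
      exact hXm 0 1
    · show a / D * (γ : Matrix (Fin 2) (Fin 2) F) 0 1 ∈ Kf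
      rw [← hb]
      have e : a / D * b = -((X 0 0 - 1) * Y 0 1 + X 0 1 * (Y 1 1 - 1)) := by
        rw [X00, X01, Y01, Y11]
        field_simp
        rw [hDd]
        ring
      rw [e]
      exact Kf.neg_mem (Kf.add_mem (Kf.mul_mem (Kf.sub_mem (hXm 0 0) one_mem) (hYm 0 1))
        (Kf.mul_mem (hXm 0 1) (Kf.sub_mem (hYm 1 1) one_mem)))
    · show a / D * (γ : Matrix (Fin 2) (Fin 2) F) 1 0 ∈ Kf
      rw [← hc]
      have e : a / D * c = 1 - X 0 0 := by
        rw [X00]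
        field_simp
        ring
      rw [e]
      exact Kf.sub_mem one_mem (hXm 0 0)
    · show a / D * (γ : Matrix (Fin 2) (Fin 2) F) 1 1 ∈ Kf
      rw [← hd]
      have e : a / D * d = (X 0 0 - 1) * (Y 0 0 - 1) + X 0 1 * Y 1 0 := by
        rw [X00, X01, Y00, Y10]
        field_simp
        rw [hDd]
        ring
      rw [e]
      exact Kf.add_mem (Kf.mul_mem (Kf.sub_mem (hXm 0 0) one_mem) (Kf.sub_mem (hYm 0 0) one_mem))
        (Kf.mul_mem (hXm 0 1) (hYm 1 0))

end PgRange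

section PgFieldMain

variable {F : Type*} [Field F] [Fintype F]

/-- the subfield case, in normal form -/
theorem pg_field_nf (hodd : Odd (Fintype.card F))
    (M : Subgroup (PG2 F)) (hM : IsCoatom M) (hML : ¬ pgL F ≤ M) (q' k : ℕ) (hq3 : 3 ≤ q')
    (hNF : NF (pgT M) q')
    (hcard : Nat.card (pgT M) = Nat.card (Subgroup.center (S2 F)) * k * q' * (1 + q'))
    (hk : k = q' - 1 ∨ 2 * k = q' - 1) : PgConcl F M := by
  classical
  have h2 := pg_two_ne hodd
  obtain ⟨p, hp⟩ := CharP.exists F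
  haveI : Fact p.Prime := ⟨CharP.char_is_prime F p⟩
  obtain ⟨Kf, hKfc, hSL, hsqL⟩ := field_conc p (pgT M) q' k hNF hq3 hcard hk
  haveI : Fintype Kf := Fintype.ofFinite _
  haveI : CharP Kf p := RingHom.charP Kf.subtype (fun a b hab => Subtype.ext hab) p
  obtain ⟨n, -, hn⟩ := FiniteField.card Kf p
  have hKfcard : Fintype.card Kf = q' := by rw [← Nat.card_eq_fintype_card]; exact hKfc
  haveI : Fintype (GaloisField p n) := Fintype.ofFinite _
  have hGc : Fintype.card (GaloisField p n) = Fintype.card Kf := by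
    rw [← Nat.card_eq_fintype_card, GaloisField.card p n n.ne_zero, hn]
  obtain ⟨ι, hι⟩ : ∃ ι : GaloisField p n →+* F, ∀ y : F, y ∈ Kf ↔ ∃ a, ι a = y := by
    let e : GaloisField p n ≃+* Kf := FiniteField.ringEquivOfCardEq hGc
    refine ⟨Kf.subtype.comp e.toRingHom, fun y => ⟨fun hy => ⟨e.symm ⟨y, hy⟩, ?_⟩, ?_⟩⟩
    · show ((e (e.symm ⟨y, hy⟩) : Kf) : F) = y
      rw [RingEquiv.apply_symm_apply]
    · rintro ⟨a, rfl⟩
      exact (e a).2
  have hhalf : (1 / 2 : F) ∈ Kf := by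
    have h2m : (2 : F) ∈ Kf := by
      have := Kf.add_mem Kf.one_mem Kf.one_mem
      rwa [one_add_one_eq_two] at this
    exact Kf.div_mem Kf.one_mem h2m
  have hhh : (1 / 2 : F) + 1 / 2 = 1 := by
    field_simp
    norm_num
  have hMle : M ≤ (ProjGenLinGroup.map (n := Fin 2) ι).range := by
    intro m hm
    obtain ⟨γ, rfl⟩ := ProjGenLinGroup.mk_surjective m
    have hpres : ∀ g ∈ pgT M, gconj γ g ∈ pgT M := by
      intro g hg
      rw [mem_pgT, pgφ_gconj]
      exact M.mul_mem (M.mul_mem hm hg) (M.inv_mem hm)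
    have hX : gconj γ (uu 1) ∈ SLsub Kf := by
      have h1 : uu (1 / 2 : F) ∈ pgT M := hSL ((uu_mem_SLsub Kf _).2 hhalf)
      have h3' := hsqL _ (hpres _ h1)
      rw [← map_mul, uu_mul, hhh] at h3'
      exact h3'
    have hY : gconj γ (ll 1) ∈ SLsub Kf := by
      have h0 : ll (1 / 2 : F) ∈ SLsub Kf := by
        rw [mem_SLsub]
        intro i j
        fin_cases i <;> fin_cases j
        · exact Kf.one_mem
        · exact Kf.zero_mem
        · exact hhalf
        · exact Kf.one_mem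
      have h3' := hsqL _ (hpres _ (hSL h0))
      rw [← map_mul, ll_mul, hhh] at h3'
      exact h3'
    obtain ⟨lam, hlam, hent⟩ := gconj_scaled Kf γ hX hY
    exact mk_mem_range_map ι γ lam hlam (fun i j => (hι _).1 (hent i j))
  have hne : Kf ≠ ⊤ := by
    intro h
    apply hML
    rintro _ ⟨g, rfl⟩
    have : g ∈ SLsub Kf := by rw [h, SLsub_top]; trivial
    exact hSL this
  have hRne : (ProjGenLinGroup.map (n := Fin 2) ι).range ≠ ⊤ := by
    intro h
    apply hne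
    rw [eq_top_iff]
    intro y _
    by_cases hy : y = 0
    · rw [hy]; exact Kf.zero_mem
    · have := diag_of_mem_range ι (Units.mk0 y hy) (by rw [h]; trivial)
      exact (hι y).2 this
  have hMeq : M = (ProjGenLinGroup.map (n := Fin 2) ι).range := by
    rcases eq_or_lt_of_le hMle with h | h
    · exact h
    · exact absurd (hM.2 _ h) hRne
  have hmax : ∀ K' : Subfield F, Kf ≤ K' → K' = Kf ∨ K' = ⊤ := by
    intro K' hle
    have h1 : M ≤ (ProjGenLinGroup.map (n := Fin 2) K'.subtype).range := by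
      rw [hMeq]
      rintro _ ⟨g, rfl⟩
      induction g using ProjGenLinGroup.induction_on with | mk g₀ =>
      rw [ProjGenLinGroup.map_mk]
      apply mk_mem_range_map K'.subtype _ 1 one_ne_zero
      intro i j
      rw [one_mul]
      exact ⟨⟨ι (g₀.1 i j), hle ((hι _).2 ⟨_, rfl⟩)⟩, rfl⟩
    rcases eq_or_lt_of_le h1 with h | h
    · left
      apply le_antisymm _ hle
      intro y hy
      by_cases hy0 : y = 0
      · rw [hy0]; exact Kf.zero_mem
      · have h5 : ProjGenLinGroup.mk (pgdiag (Units.mk0 y hy0)) ∈ M := by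
          rw [h]
          exact diag_mem_range K'.subtype _ ⟨⟨y, hy⟩, rfl⟩
        rw [hMeq] at h5
        exact (hι y).2 (diag_of_mem_range ι _ h5)
    · right
      have h5 := hM.2 _ h
      rw [eq_top_iff]
      intro y _
      by_cases hy0 : y = 0
      · rw [hy0]; exact K'.zero_mem
      · obtain ⟨a, ha⟩ := diag_of_mem_range K'.subtype (Units.mk0 y hy0) (by rw [h5]; trivial)
        rw [← show ((a : K') : F) = y from ha]
        exact a.2
  have hsq : ∀ s : F, s * s ∈ Kf → s ∈ Kf := by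
    intro s hss
    by_contra hs
    have hall := sq_of_sqrt_not_mem h2 Kf s hs hss
    obtain ⟨m, hm, hmL⟩ := pg_exists_not_L hodd M hM hML
    apply hmL
    rw [pgL_eq]
    apply Cfsg.Agent.S0805.rangeB ι (fun d _ => hall _ ((hι _).2 ⟨d, rfl⟩))
    rw [← hMeq]
    exact hm
  obtain ⟨r, hr1, hr2, hr3⟩ := odd_prime_degree p h2 Kf q' hKfc hne hmax hsq
  unfold PgConcl
  right; right; right; right
  refine ⟨GaloisField p n, inferInstance, inferInstance, r, hr1, hr2, ?_, ?_⟩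
  · rw [hGc, hKfcard]; exact hr3
  · rw [hMeq]
    exact ⟨(MonoidHom.ofInjective (Cfsg.Agent.S0805.pglmap_inj ι)).symm⟩

/-- the subfield case of the classification of the maximal subgroups of `PGL₂(q)` not
containing `PSL₂(q)` -/
theorem pg_field (hodd : Odd (Fintype.card F)) (h3 : 3 < Fintype.card F)
    (M : Subgroup (PG2 F)) (hM : IsCoatom M) (hML : ¬ pgL F ≤ M)
    (x₀ : S2 F) (hx₀ : x₀ ∈ pgT M) (hsc : ¬ IsSc x₀) (h4 : tr x₀ ^ 2 = 4) (q' k : ℕ)
    (hq3 : 3 ≤ q')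
    (hcA : cA (pgT M) x₀ = Nat.card (Subgroup.center (S2 F)) * q')
    (hcN : cN (pgT M) x₀ = Nat.card (Subgroup.center (S2 F)) * k * q')
    (hcard : Nat.card (pgT M) = Nat.card (Subgroup.center (S2 F)) * k * q' * (1 + q'))
    (hk : k = q' - 1 ∨ 2 * k = q' - 1) : PgConcl F M := by
  have hk1 : 1 ≤ k := by rcases hk with h | h <;> omega
  obtain ⟨γ, θ, hγ, hNF, hc'⟩ := exists_nf_conj (pgT M) (center_le_pgT M) x₀ hx₀ hsc h4 q' k
    (by omega) hk1 hcA hcN hcard
  obtain ⟨g₀, hg₀⟩ : ∃ g₀ : G2 F, (g₀ : Matrix (Fin 2) (Fin 2) F) = γ :=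
    ⟨GeneralLinearGroup.mkOfDetNeZero γ hγ.1, rfl⟩
  have hθ : θ = gconj g₀ := by
    apply MulEquiv.ext
    intro x
    symm
    rw [gconj_eq_iff, hg₀]
    exact hγ.2 x
  subst hθ
  obtain ⟨hM', hML', ⟨e⟩, hT⟩ := pg_conj hodd M g₀ hM hML
  rw [← hT] at hNF hc'
  exact PgConcl.congr e (pg_field_nf hodd _ hM' hML' q' k hq3 hNF hc' hk)

end PgFieldMain

end Cfsg.Agent.Lib.Helper19.Dk
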