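import Mathlib
import Cfsg.Agent.Lib.Helper81.SqDer

/-!
# S4632 piece KTBAR (for helper81): the image of `T × T` under a homomorphism whose kernel has
at most two elements.
-/

set_option autoImplicit false

namespace Cfsg.Agent.Lib.Helper19.G2

open Cfsg.Agent.Lib.Helper81.SqD

/-- KTBAR -/
theorem k_tbar {G S : Type*} [Group G] [Finite G] [Group S] (T : Subgroup S) [Finite T]
    (hT : IsPGroup 2 T) {c : ℕ} (hc1 : 1 ≤ c) (hc : 2 ^ c ∣ Nat.card T) (hsq : SqDer T)
    (ψ : S × S →* G)
    (hker : ∀ k₁ k₂ : S × S, ψ k₁ = 1 → ψ k₂ = 1 → k₁ ≠ 1 → k₂ ≠ 1 → k₁ = k₂) :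
    IsPGroup 2 ((T.prod T).map ψ) ∧ 2 ^ (2 * c - 1) ∣ Nat.card ((T.prod T).map ψ) ∧
      SqDer ((T.prod T).map ψ) := by
  classical
  haveI : Fact (Nat.Prime 2) := ⟨Nat.prime_two⟩
  -- the surjection `T × T → ψ (T × T)`
  let φ : T × T →* ((T.prod T).map ψ) :=
    { toFun := fun ab => ⟨ψ (ab.1.1, ab.2.1),
        Subgroup.mem_map_of_mem ψ (Subgroup.mem_prod.mpr ⟨ab.1.2, ab.2.2⟩)⟩
      map_one' := by
        apply Subtype.ext
        show ψ ((1 : T).1, (1 : T).1) = 1
        rw [Subgroup.coe_one, ← Prod.one_eq_mk, map_one]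
      map_mul' := by
        intro x y
        apply Subtype.ext
        show ψ ((x.1 * y.1 : T).1, (x.2 * y.2 : T).1) = ψ (x.1.1, x.2.1) * ψ (y.1.1, y.2.1)
        rw [← map_mul]
        rfl }
  have hφ_apply : ∀ ab : T × T, (φ ab : G) = ψ (ab.1.1, ab.2.1) := fun _ => rfl
  have hφ : Function.Surjective φ := by
    rintro ⟨g, hg⟩
    obtain ⟨⟨a, b⟩, hab, rfl⟩ := Subgroup.mem_map.mp hg
    obtain ⟨ha, hb⟩ := Subgroup.mem_prod.mp hab
    exact ⟨(⟨a, ha⟩, ⟨b, hb⟩), rfl⟩
  obtain ⟨n, hn⟩ := (IsPGroup.iff_card (p := 2)).mp hT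
  have hcn : c ≤ n := by
    rw [hn] at hc
    exact (Nat.pow_dvd_pow_iff_le_right (by norm_num)).mp hc
  have hcardTT : Nat.card (T × T) = 2 ^ (2 * n) := by
    rw [Nat.card_prod, hn, ← pow_add]
    congr 1
    ring
  have hPTT : IsPGroup 2 (T × T) := IsPGroup.of_card hcardTT
  have hP : IsPGroup 2 ((T.prod T).map ψ) := hPTT.of_surjective φ hφ
  refine ⟨hP, ?_, SqDer.of_surjective φ hφ (SqDer.prod hsq hsq)⟩
  -- the kernel of `φ` has at most two elements
  have hker2 : Nat.card φ.ker ≤ 2 := by
    have hinj : Function.Injective (fun k : φ.ker => decide (k = 1)) := by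
      intro k k' hkk
      have hkk' : decide (k = 1) = decide (k' = 1) := hkk
      by_cases hk1 : k = 1
      · have hk1' : k' = 1 := by
          by_contra hne
          rw [decide_eq_true hk1, decide_eq_false hne] at hkk'
          exact Bool.noConfusion hkk'
        rw [hk1, hk1']
      · have hk1' : k' ≠ 1 := by
          intro he
          rw [decide_eq_false hk1, decide_eq_true he] at hkk'
          exact Bool.noConfusion hkk'
        have e1 : ψ (k.1.1.1, k.1.2.1) = 1 := by
          have h := k.2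
          rw [MonoidHom.mem_ker] at h
          rw [← hφ_apply, h]
          rfl
        have e2 : ψ (k'.1.1.1, k'.1.2.1) = 1 := by
          have h := k'.2
          rw [MonoidHom.mem_ker] at h
          rw [← hφ_apply, h]
          rfl
        have n1 : ((k.1.1.1, k.1.2.1) : S × S) ≠ 1 := by
          intro he
          apply hk1
          have h1 : k.1.1.1 = 1 := congrArg Prod.fst he
          have h2 : k.1.2.1 = 1 := congrArg Prod.snd he
          apply Subtype.ext
          apply Prod.ext
          · exact Subtype.ext h1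
          · exact Subtype.ext h2
        have n2 : ((k'.1.1.1, k'.1.2.1) : S × S) ≠ 1 := by
          intro he
          apply hk1'
          have h1 : k'.1.1.1 = 1 := congrArg Prod.fst he
          have h2 : k'.1.2.1 = 1 := congrArg Prod.snd he
          apply Subtype.ext
          apply Prod.ext
          · exact Subtype.ext h1
          · exact Subtype.ext h2
        have he := hker _ _ e1 e2 n1 n2
        have h1 : k.1.1.1 = k'.1.1.1 := congrArg Prod.fst he
        have h2 : k.1.2.1 = k'.1.2.1 := congrArg Prod.snd he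
        apply Subtype.ext
        apply Prod.ext
        · exact Subtype.ext h1
        · exact Subtype.ext h2
    have h := Nat.card_le_card_of_injective _ hinj
    have hb : Nat.card Bool = 2 := by
      rw [Nat.card_eq_fintype_card, Fintype.card_bool]
    rwa [hb] at h
  have hmul : Nat.card (T × T) = Nat.card ((T.prod T).map ψ) * Nat.card φ.ker := by
    rw [Subgroup.card_eq_card_quotient_mul_card_subgroup φ.ker,
      Nat.card_congr (QuotientGroup.quotientKerEquivOfSurjective φ hφ).toEquiv]
  obtain ⟨m, hm⟩ := (IsPGroup.iff_card (p := 2)).mp hP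
  rw [hm]
  apply pow_dvd_pow
  by_contra hlt
  push Not at hlt
  have h1 : m + 2 ≤ 2 * n := by omega
  have h2 : 2 ^ (2 * n) ≤ 2 ^ m * 2 := by
    rw [← hcardTT, hmul, hm]
    exact Nat.mul_le_mul_left _ hker2
  have h3 : 2 ^ (m + 2) ≤ 2 ^ (2 * n) := Nat.pow_le_pow_right (by norm_num) h1
  have h4 : 2 ^ (m + 2) = 2 ^ m * 4 := by
    rw [pow_add]
    norm_num
  have h5 : 0 < 2 ^ m := by positivity
  linarith

end Cfsg.Agent.Lib.Helper19.G2
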