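import Mathlib

set_option autoImplicit false

/-! Piece OU-AL2 of helper52's `Out` project (note 938): `out_cyclic`. -/

namespace Cfsg.Agent.Lib.Helper19.OUAL2

theorem out_cyclic {A R : Type*} [Group A] [Group R] (N : Subgroup A) [N.Normal]
    (ρ : A →* R) (K : Subgroup A) (hK : ρ.ker = K) (f : ℕ) (hf : 1 ≤ f)
    (hR : Nat.card R = f) (hN : N ≤ K) (hidx : N.relIndex K = 2)
    (φ : A) (hφ : ∀ r : R, r ∈ Subgroup.zpowers (ρ φ)) (hφf : φ ^ f ∉ N) :
    IsCyclic (A ⧸ N) ∧ Nat.card (A ⧸ N) = 2 * f := by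
  haveI : Finite R := Nat.finite_of_card_ne_zero (by omega)
  have hord : orderOf (ρ φ) = f := by
    rw [← hR]
    exact orderOf_eq_card_of_forall_mem_zpowers hφ
  have hsurj : Function.Surjective ρ := by
    intro r
    obtain ⟨k, hk⟩ := Subgroup.mem_zpowers_iff.1 (hφ r)
    exact ⟨φ ^ k, by rw [map_zpow]; exact hk⟩
  have hKidx : K.index = f := by
    rw [← hK, Subgroup.index_ker, MonoidHom.range_eq_top.2 hsurj, Subgroup.card_top, hR]
  have hNidx : N.index = 2 * f := by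
    rw [← Subgroup.relIndex_mul_index hN, hidx, hKidx]
  have hcard : Nat.card (A ⧸ N) = 2 * f := by
    rw [← Subgroup.index_eq_card]; exact hNidx
  refine ⟨?_, hcard⟩
  haveI : Finite (A ⧸ N) := Nat.finite_of_card_ne_zero (by omega)
  have hφK : φ ^ f ∈ K := by
    rw [← hK, MonoidHom.mem_ker, map_pow, ← hord, pow_orderOf_eq_one]
  have hsq : φ ^ (2 * f) ∈ N := by
    have h1 := Subgroup.mul_self_mem_of_index_two (H := N.subgroupOf K) hidx ⟨φ ^ f, hφK⟩
    rw [Subgroup.mem_subgroupOf] at h1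
    have e : φ ^ (2 * f) = φ ^ f * φ ^ f := by rw [two_mul, pow_add]
    rw [e]
    exact h1
  have hx2 : (QuotientGroup.mk φ : A ⧸ N) ^ (2 * f) = 1 := by
    rw [← QuotientGroup.mk_pow, QuotientGroup.eq_one_iff]
    exact hsq
  have hdvd2 : orderOf (QuotientGroup.mk φ : A ⧸ N) ∣ 2 * f := orderOf_dvd_of_pow_eq_one hx2
  have hfdvd : f ∣ orderOf (QuotientGroup.mk φ : A ⧸ N) := by
    rw [← hord]
    apply orderOf_dvd_of_pow_eq_one
    have h1 : (QuotientGroup.mk φ : A ⧸ N) ^ orderOf (QuotientGroup.mk φ : A ⧸ N) = 1 :=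
      pow_orderOf_eq_one _
    rw [← QuotientGroup.mk_pow, QuotientGroup.eq_one_iff] at h1
    have h2 : φ ^ orderOf (QuotientGroup.mk φ : A ⧸ N) ∈ ρ.ker := by rw [hK]; exact hN h1
    rw [MonoidHom.mem_ker, map_pow] at h2
    exact h2
  have hne : orderOf (QuotientGroup.mk φ : A ⧸ N) ≠ f := by
    intro h
    apply hφf
    have h1 : (QuotientGroup.mk φ : A ⧸ N) ^ f = 1 := by rw [← h]; exact pow_orderOf_eq_one _
    rw [← QuotientGroup.mk_pow, QuotientGroup.eq_one_iff] at h1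
    exact h1
  have hordx : orderOf (QuotientGroup.mk φ : A ⧸ N) = 2 * f := by
    obtain ⟨m, hm⟩ := hfdvd
    rw [hm] at hdvd2 hne ⊢
    have h1 : m ∣ 2 := by
      have : f * m ∣ f * 2 := by rw [mul_comm f 2]; exact hdvd2
      exact (Nat.mul_dvd_mul_iff_left (by omega)).1 this
    have h2 : m ≤ 2 := Nat.le_of_dvd (by norm_num) h1
    interval_cases m
    · simp at h1
    · exact absurd (mul_one f) hne
    · exact mul_comm f 2
  exact isCyclic_of_orderOf_eq_card _ (hordx.trans hcard.symm)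

end Cfsg.Agent.Lib.Helper19.OUAL2
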