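import Mathlib
import Cfsg.Agent.Lib.Helper88.SSolDefs

set_option autoImplicit false

/-!
# Piece J5 of S5287 (helper88's job board): the structure of `⟨X, Y⟩` in `GL₂(q)`
-/

namespace Cfsg.Agent.Lib.Helper19.SSolJ5

open Cfsg.Agent.Lib.Helper88.SSol

/-- numerics of the order of `GL₂(q)` -/
theorem card_numerics (n q : ℕ) (hn : 3 ≤ n) (hq : q % 2 ^ n = 2 ^ (n - 1) - 1) :
    ∃ k : ℕ, (q ^ 2 - 1) * (q ^ 2 - q) = 2 ^ (n + 1) * k ∧ ¬ 2 ∣ k := by
  obtain ⟨m, rfl⟩ : ∃ m, n = m + 3 := ⟨n - 3, by omega⟩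
  have hqd := Nat.div_add_mod q (2 ^ (m + 3))
  set j := q / 2 ^ (m + 3) with hj
  have h1 : m + 3 - 1 = m + 2 := by omega
  rw [h1] at hq
  set a := 2 ^ m with ha
  have ha1 : 1 ≤ a := Nat.one_le_two_pow
  have e3 : 2 ^ (m + 3) = 8 * a := by rw [pow_add]; ring
  have e2 : 2 ^ (m + 2) = 4 * a := by rw [pow_add]; ring
  have e4 : 2 ^ (m + 3 + 1) = 16 * a := by rw [pow_add, pow_add]; ring
  rw [e3, e2] at hq
  rw [e3, hq] at hqd
  -- q = 8 a j + 4 a - 1
  obtain ⟨r, hr⟩ : ∃ r, r + 1 = 4 * a * j + 2 * a := ⟨4 * a * j + 2 * a - 1, by omega⟩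
  have hq2 : q = 2 * r + 1 := by
    have : 8 * a * j = 2 * (4 * a * j) := by ring
    omega
  refine ⟨r ^ 2 * (2 * j + 1) * (2 * r + 1), ?_, ?_⟩
  · rw [e4, hq2]
    have h3 : (2 * r + 1) ^ 2 - 1 = 4 * r * (r + 1) := by
      have : (2 * r + 1) ^ 2 = 4 * r * (r + 1) + 1 := by ring
      omega
    have h4 : (2 * r + 1) ^ 2 - (2 * r + 1) = 2 * r * (2 * r + 1) := by
      have : (2 * r + 1) ^ 2 = 2 * r * (2 * r + 1) + (2 * r + 1) := by ring
      omega
    rw [h3, h4, hr]
    ring
  · have hr_odd : ¬ 2 ∣ r := by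
      intro h
      obtain ⟨c, hc⟩ := h
      have : 4 * a * j + 2 * a = 2 * (2 * a * j + a) := by ring
      omega
    intro h
    have h2 : Nat.Prime 2 := Nat.prime_two
    rcases (Nat.Prime.dvd_mul h2).1 h with h | h
    · rcases (Nat.Prime.dvd_mul h2).1 h with h | h
      · exact hr_odd (h2.dvd_of_dvd_pow h)
      · omega
    · omega

theorem q_odd (n q : ℕ) (hn : 3 ≤ n) (hq : q % 2 ^ n = 2 ^ (n - 1) - 1) : q % 2 = 1 := by
  obtain ⟨m, rfl⟩ : ∃ m, n = m + 3 := ⟨n - 3, by omega⟩
  have h1 : m + 3 - 1 = m + 2 := by omega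
  rw [h1] at hq
  have e3 : 2 ^ (m + 3) = 2 * (4 * 2 ^ m) := by rw [pow_add]; ring
  have e2 : 2 ^ (m + 2) = 2 * (2 * 2 ^ m) := by rw [pow_add]; ring
  have ha1 : 1 ≤ 2 ^ m := Nat.one_le_two_pow
  have := Nat.mod_mul_right_mod q 2 (4 * 2 ^ m)
  rw [← e3, hq, e2] at this
  omega

theorem sdData_of_primeT {n q : ℕ} {t : ZMod q} (hn : 3 ≤ n) (h : PrimeT n q t) :
    SDData n q t := by
  obtain ⟨hqp, hqm, hpow⟩ := h
  haveI : Fact q.Prime := ⟨hqp⟩
  have hq2 : q ≠ 2 := by
    have := q_odd n q hn hqm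
    omega
  haveI : NeZero (2 : ZMod q) := by
    refine ⟨fun h0 => ?_⟩
    have : ((2 : ℕ) : ZMod q) = 0 := by exact_mod_cast h0
    rw [ZMod.natCast_eq_zero_iff] at this
    have := (Nat.prime_dvd_prime_iff_eq hqp Nat.prime_two).1 this
    exact hq2 this
  -- `-1 ≠ 1` in `GL₂(q)`
  have hneg : (-1 : GL2 q) ≠ 1 := by
    intro h1
    have h2 := congrArg (fun g : GL2 q => (g : Matrix (Fin 2) (Fin 2) (ZMod q)) 0 0) h1
    simp only [Units.val_neg, Units.val_one, Matrix.neg_apply, Matrix.one_apply_eq] at h2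
    have h3 : (2 : ZMod q) = 0 := by linear_combination -h2
    exact two_ne_zero h3
  have hX : xU q t ^ 2 ^ (n - 1) = -1 := by
    apply Units.ext
    rw [Units.val_pow_eq_pow_val, coe_xU, hpow]
    simp
  have hX1 : xU q t ^ 2 ^ (n - 1 + 1) = 1 := by
    rw [pow_succ, pow_mul, hX]
    simp
  have hord : orderOf (xU q t) = 2 ^ n := by
    have := orderOf_eq_prime_pow (p := 2) (n := n - 1) (x := xU q t) (by rw [hX]; exact hneg) hX1
    rw [this]
    congr 1
    omega
  have hconj : yU q t * xU q t * (yU q t)⁻¹ = xU q t ^ (2 ^ (n - 1) - 1) := by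
    rw [yU_conj_xU]
    have h1 : 1 ≤ 2 ^ (n - 1) := Nat.one_le_two_pow
    have h2 : xU q t ^ (2 ^ (n - 1) - 1) * xU q t = -1 := by
      rw [← pow_succ, Nat.sub_add_cancel h1, hX]
    rw [eq_mul_inv_of_mul_eq h2, neg_one_mul]
  have hynot : yU q t ∉ Subgroup.zpowers (xU q t) := by
    intro hy
    obtain ⟨k, hk⟩ := Subgroup.mem_zpowers_iff.1 hy
    have hc : yU q t * xU q t * (yU q t)⁻¹ = xU q t := by
      rw [← hk, ← zpow_add_one, ← zpow_neg, ← zpow_add]
      simp
    rw [yU_conj_xU] at hc
    have hsq : xU q t * xU q t = -1 := by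
      have h1 : xU q t * xU q t = -(xU q t)⁻¹ * xU q t := by rw [hc]
      rw [h1, neg_mul, inv_mul_cancel]
    have h4 : xU q t ^ 4 = 1 := by
      have : xU q t ^ 4 = (xU q t * xU q t) * (xU q t * xU q t) := by
        simp only [pow_succ, pow_zero, one_mul, mul_assoc]
      rw [this, hsq]
      simp
    have hdvd := orderOf_dvd_of_pow_eq_one h4
    rw [hord] at hdvd
    have hle := Nat.le_of_dvd (by norm_num) hdvd
    have h8 : 2 ^ 3 ≤ 2 ^ n := Nat.pow_le_pow_right (by norm_num) hn
    omega
  refine ⟨hord, hynot, hconj, ?_, ?_⟩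
  · -- the cardinality of the closure
    set N : Subgroup (GL2 q) := Subgroup.zpowers (xU q t) with hN
    set T : Subgroup (GL2 q) := Subgroup.closure {xU q t, yU q t} with hT
    have hxT : xU q t ∈ T := Subgroup.subset_closure (by simp)
    have hyT : yU q t ∈ T := Subgroup.subset_closure (by simp)
    have hNT : N ≤ T := by
      rw [hN, Subgroup.zpowers_le]
      exact hxT
    have hcardN : Nat.card N = 2 ^ n := by
      rw [hN, Nat.card_zpowers, hord]
    -- `Y` normalizes `N`
    have hnorm : ∀ g ∈ N, yU q t * g * yU q t ∈ N := by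
      intro g hg
      obtain ⟨k, rfl⟩ := Subgroup.mem_zpowers_iff.1 hg
      have : yU q t * xU q t ^ k * yU q t = (xU q t ^ (2 ^ (n - 1) - 1)) ^ k := by
        rw [← hconj, conj_zpow, yU_inv]
      rw [this]
      exact Subgroup.zpow_mem _ (Subgroup.pow_mem _ (Subgroup.mem_zpowers _) _) _
    have hcover : ∀ g ∈ T, g ∈ N ∨ g * yU q t ∈ N := by
      intro g hg
      induction hg using Subgroup.closure_induction with
      | mem x hx =>
        rcases hx with rfl | hx
        · exact Or.inl (Subgroup.mem_zpowers _)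
        · rw [Set.mem_singleton_iff] at hx
          subst hx
          right
          rw [yU_mul_self]
          exact Subgroup.one_mem _
      | one => exact Or.inl (Subgroup.one_mem _)
      | mul a b _ _ iha ihb =>
        rcases iha with ha | ha <;> rcases ihb with hb | hb
        · exact Or.inl (Subgroup.mul_mem _ ha hb)
        · right
          rw [mul_assoc]
          exact Subgroup.mul_mem _ ha hb
        · right
          have : a * b * yU q t = (a * yU q t) * (yU q t * b * yU q t) := by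
            have h1 := yU_mul_self q t
            calc a * b * yU q t = a * (yU q t * yU q t) * b * yU q t := by rw [h1, mul_one]
              _ = (a * yU q t) * (yU q t * b * yU q t) := by group
          rw [this]
          exact Subgroup.mul_mem _ ha (hnorm b hb)
        · left
          have : a * b = (a * yU q t) * (yU q t * (b * yU q t) * yU q t) := by
            have h1 := yU_mul_self q t
            calc a * b = a * (yU q t * yU q t) * b * (yU q t * yU q t) := by
                  rw [h1, mul_one, mul_one]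
              _ = (a * yU q t) * (yU q t * (b * yU q t) * yU q t) := by group
          rw [this]
          exact Subgroup.mul_mem _ ha (hnorm _ hb)
      | inv a _ iha =>
        rcases iha with ha | ha
        · exact Or.inl (Subgroup.inv_mem _ ha)
        · right
          have : a⁻¹ * yU q t = yU q t * (a * yU q t)⁻¹ * yU q t := by
            rw [mul_inv_rev, yU_inv]
            have h1 := yU_mul_self q t
            calc a⁻¹ * yU q t = (yU q t * yU q t) * a⁻¹ * yU q t := by rw [h1, one_mul]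
              _ = yU q t * (yU q t * a⁻¹) * yU q t := by group
          rw [this]
          exact hnorm _ (Subgroup.inv_mem _ ha)
    have hidx : (N.subgroupOf T).index = 2 := by
      rw [Subgroup.index_eq_two_iff]
      refine ⟨⟨yU q t, hyT⟩, fun b => ?_⟩
      have hb := hcover b.1 b.2
      simp only [Subgroup.mem_subgroupOf, Subgroup.coe_mul]
      rcases hb with hb | hb
      · refine Or.inr ⟨hb, fun hby => hynot ?_⟩
        have := Subgroup.mul_mem _ (Subgroup.inv_mem _ hb) hby
        rwa [inv_mul_cancel_left] at this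
      · refine Or.inl ⟨hb, fun hb' => hynot ?_⟩
        have := Subgroup.mul_mem _ (Subgroup.inv_mem _ hb') hb
        rwa [inv_mul_cancel_left] at this
    have hc1 : Nat.card (N.subgroupOf T) = 2 ^ n := by
      rw [Nat.card_congr (Subgroup.subgroupOfEquivOfLe hNT).toEquiv, hcardN]
    have := Subgroup.card_mul_index (N.subgroupOf T)
    rw [hidx, hc1] at this
    rw [← this, pow_succ]
  · -- the order of `GL₂(q)`
    have hcard : Nat.card (GL2 q) = (q ^ 2 - 1) * (q ^ 2 - q) := by
      have := Matrix.card_GL_field (𝔽 := ZMod q) 2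
      rw [this, Fin.prod_univ_two]
      simp [ZMod.card]
    rw [hcard]
    exact card_numerics n q hn hqm

end Cfsg.Agent.Lib.Helper19.SSolJ5
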