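import Mathlib
import Cfsg.Agent.Lib.Helper88.SSolDefs
import Cfsg.Agent.Lib.Helper12.NormAbCyc2

set_option autoImplicit false

namespace Cfsg.Agent.Lib.Helper19.SSolJ8

open Cfsg.Agent.Lib.Helper88.SSol


theorem det_xU (q : ℕ) (t : ZMod q) : Matrix.GeneralLinearGroup.det (xU q t) = -1 := by
  apply Units.ext
  simp [det_xMat]

theorem det_yU (q : ℕ) (t : ZMod q) : Matrix.GeneralLinearGroup.det (yU q t) = -1 := by
  apply Units.ext
  simp [det_yMat]

theorem two_ne_zero_of_odd_prime (q : ℕ) [Fact q.Prime] (hq2 : q ≠ 2) : (2 : ZMod q) ≠ 0 := by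
  intro h0
  have : ((2 : ℕ) : ZMod q) = 0 := by exact_mod_cast h0
  rw [ZMod.natCast_eq_zero_iff] at this
  exact hq2 ((Nat.prime_dvd_prime_iff_eq (Fact.out) Nat.prime_two).1 this)

theorem neg_one_ne_one (q : ℕ) [Fact q.Prime] (hq2 : q ≠ 2) : (-1 : GL2 q) ≠ 1 := by
  intro h1
  have h2 := congrArg (fun g : GL2 q => (g : Matrix (Fin 2) (Fin 2) (ZMod q)) 0 0) h1
  simp only [Units.val_neg, Units.val_one, Matrix.neg_apply, Matrix.one_apply_eq] at h2
  have h3 : (2 : ZMod q) = 0 := by linear_combination -h2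
  exact two_ne_zero_of_odd_prime q hq2 h3

theorem neg_one_ne_one_units (q : ℕ) [Fact q.Prime] (hq2 : q ≠ 2) : (-1 : (ZMod q)ˣ) ≠ 1 := by
  intro h1
  have h2 := congrArg (fun g : (ZMod q)ˣ => (g : ZMod q)) h1
  simp only [Units.val_neg, Units.val_one] at h2
  have h3 : (2 : ZMod q) = 0 := by linear_combination -h2
  exact two_ne_zero_of_odd_prime q hq2 h3

/-- the only involution of determinant one is `-1` -/
theorem eq_one_or_neg_one (q : ℕ) [Fact q.Prime] (hq2 : q ≠ 2) (w : GL2 q)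
    (hdet : Matrix.GeneralLinearGroup.det w = 1) (hw : w * w = 1) : w = 1 ∨ w = -1 := by
  have h2 := two_ne_zero_of_odd_prime q hq2
  have hM : (w : Matrix (Fin 2) (Fin 2) (ZMod q)) * (w : Matrix (Fin 2) (Fin 2) (ZMod q)) = 1 := by
    rw [← Units.val_mul, hw, Units.val_one]
  have hd : (w : Matrix (Fin 2) (Fin 2) (ZMod q)).det = 1 := by
    rw [← Matrix.GeneralLinearGroup.val_det_apply, hdet, Units.val_one]
  set M := (w : Matrix (Fin 2) (Fin 2) (ZMod q)) with hMdef
  rw [Matrix.det_fin_two] at hd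
  have e00 := congrFun (congrFun hM 0) 0
  have e01 := congrFun (congrFun hM 0) 1
  have e10 := congrFun (congrFun hM 1) 0
  have e11 := congrFun (congrFun hM 1) 1
  simp only [Matrix.mul_apply, Fin.sum_univ_two, Matrix.one_apply_eq, Matrix.one_apply_ne,
    ne_eq, Fin.isValue, zero_ne_one, one_ne_zero, not_false_eq_true] at e00 e01 e10 e11
  have hs : M 0 0 * (M 0 0 + M 1 1) = 2 := by linear_combination e00 + hd
  have hs0 : M 0 0 + M 1 1 ≠ 0 := by
    intro h0
    rw [h0, mul_zero] at hs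
    exact h2 hs.symm
  have hb : M 0 1 = 0 := by
    have : (M 0 0 + M 1 1) * M 0 1 = 0 := by linear_combination e01
    exact (mul_eq_zero.1 this).resolve_left hs0
  have hc : M 1 0 = 0 := by
    have : (M 0 0 + M 1 1) * M 1 0 = 0 := by linear_combination e10
    exact (mul_eq_zero.1 this).resolve_left hs0
  have ha2 : (M 0 0 - 1) * (M 0 0 + 1) = 0 := by
    rw [hb] at e00
    linear_combination e00
  have hdd : M 1 1 = M 0 0 := by
    rw [hb] at hd e00
    have h3 : M 0 0 * M 1 1 = 1 := by linear_combination hd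
    have h4 : M 0 0 * M 0 0 = 1 := by linear_combination e00
    calc M 1 1 = (M 0 0 * M 0 0) * M 1 1 := by rw [h4, one_mul]
      _ = M 0 0 * (M 0 0 * M 1 1) := by ring
      _ = M 0 0 := by rw [h3, mul_one]
  rcases mul_eq_zero.1 ha2 with ha | ha
  · left
    apply Units.ext
    rw [Units.val_one, ← hMdef]
    ext i j
    fin_cases i <;> fin_cases j <;> simp [hb, hc, hdd] <;> linear_combination ha
  · right
    apply Units.ext
    rw [Units.val_neg, Units.val_one, ← hMdef]
    ext i j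
    fin_cases i <;> fin_cases j <;> simp [hb, hc, hdd] <;> linear_combination ha

theorem det_surjective (q : ℕ) [Fact q.Prime] :
    Function.Surjective (Matrix.GeneralLinearGroup.det : GL2 q →* (ZMod q)ˣ) := by
  intro u
  have h : IsUnit (Matrix.det (Matrix.diagonal ![(u : ZMod q), 1])) := by
    rw [Matrix.det_diagonal]
    simp
  refine ⟨Matrix.GeneralLinearGroup.mk'' _ h, ?_⟩
  apply Units.ext
  rw [Matrix.GeneralLinearGroup.val_det_apply]
  show (Matrix.diagonal ![(u : ZMod q), 1]).det = u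
  rw [Matrix.det_diagonal]
  simp


theorem factorization_two_pow_mul (j k : ℕ) (hk : ¬ 2 ∣ k) : (2 ^ j * k).factorization 2 = j := by
  have hk0 : k ≠ 0 := by rintro rfl; exact hk (dvd_zero 2)
  rw [Nat.factorization_mul (by positivity) hk0, Nat.Prime.factorization_pow Nat.prime_two]
  simp [Nat.factorization_eq_zero_of_not_dvd hk]

theorem card_ker_det (n q : ℕ) [Fact q.Prime] (hq : q % 2 ^ (n + 3) = 2 ^ (n + 2) - 1)
    (hGL : ∃ k : ℕ, Nat.card (GL2 q) = 2 ^ (n + 4) * k ∧ ¬ 2 ∣ k) :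
    ∃ k : ℕ, Nat.card (Matrix.GeneralLinearGroup.det : GL2 q →* (ZMod q)ˣ).ker
      = 2 ^ (n + 3) * k ∧ ¬ 2 ∣ k := by
  obtain ⟨k, hk, hk2⟩ := hGL
  set K := (Matrix.GeneralLinearGroup.det : GL2 q →* (ZMod q)ˣ).ker with hK
  have h1 := Subgroup.card_mul_index K
  have hu : Nat.card (ZMod q)ˣ = q - 1 := by
    rw [Nat.card_eq_fintype_card, ZMod.card_units]
  rw [hK, Subgroup.index_ker, MonoidHom.range_eq_top_of_surjective _ (det_surjective q),
    Subgroup.card_top, hu, ← hK] at h1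
  have hk' : Nat.card (GL (Fin 2) (ZMod q)) = 2 ^ (n + 4) * k := hk
  rw [hk'] at h1
  -- numerics
  have hqd := Nat.div_add_mod q (2 ^ (n + 3))
  set j := q / 2 ^ (n + 3) with hj
  set a := 2 ^ n with ha
  have ha1 : 1 ≤ a := Nat.one_le_two_pow
  have e3 : 2 ^ (n + 3) = 8 * a := by rw [pow_add]; ring
  have e2 : 2 ^ (n + 2) = 4 * a := by rw [pow_add]; ring
  have e4 : 2 ^ (n + 4) = 2 * (8 * a) := by rw [pow_add]; ring
  rw [e3, e2] at hq
  rw [e3, hq] at hqd
  obtain ⟨r, hr⟩ : ∃ r, r + 1 = 4 * a * j + 2 * a := ⟨4 * a * j + 2 * a - 1, by omega⟩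
  have hq2 : q - 1 = 2 * r := by
    have : 8 * a * j = 2 * (4 * a * j) := by ring
    omega
  have hr_odd : ¬ 2 ∣ r := by
    intro h
    obtain ⟨c, hc⟩ := h
    have : 4 * a * j + 2 * a = 2 * (2 * a * j + a) := by ring
    omega
  rw [hq2, e4] at h1
  rw [e3]
  have h3 : Nat.card K * r = 8 * a * k := by
    have : 2 * (Nat.card K * r) = 2 * (8 * a * k) := by linarith
    omega
  have hcop : Nat.Coprime (8 * a) r := by
    rw [← e3]
    apply Nat.Coprime.pow_left
    exact (Nat.Prime.coprime_iff_not_dvd Nat.prime_two).2 hr_odd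
  obtain ⟨c, hc⟩ := Nat.Coprime.dvd_of_dvd_mul_right hcop (Dvd.intro k h3.symm)
  refine ⟨c, hc, fun h2 => hk2 ?_⟩
  have h4 : 8 * a * (c * r) = 8 * a * k := by rw [← h3, hc]; ring
  have h5 : c * r = k := Nat.eq_of_mul_eq_mul_left (by omega) h4
  rw [← h5]
  exact Dvd.dvd.mul_right h2 r


theorem xy_mul_self (q : ℕ) (t : ZMod q) : (xU q t * yU q t) * (xU q t * yU q t) = -1 := by
  have h := yx_mul_self q t
  calc (xU q t * yU q t) * (xU q t * yU q t)
      = xU q t * ((yU q t * xU q t) * (yU q t * xU q t)) * (xU q t)⁻¹ := by group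
    _ = -1 := by rw [h, mul_neg, mul_one, neg_mul, mul_inv_cancel]

theorem xy_conj_sq (q : ℕ) (t : ZMod q) :
    (xU q t * yU q t) * (xU q t ^ 2) * (xU q t * yU q t)⁻¹ = (xU q t ^ 2)⁻¹ := by
  have h := yU_conj_xU q t
  calc (xU q t * yU q t) * (xU q t ^ 2) * (xU q t * yU q t)⁻¹
      = xU q t * ((yU q t * xU q t * (yU q t)⁻¹) * (yU q t * xU q t * (yU q t)⁻¹)) * (xU q t)⁻¹ := by
        rw [pow_two]
        group
    _ = (xU q t ^ 2)⁻¹ := by
        rw [h, neg_mul_neg, pow_two]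
        group

theorem q_model {S : Type*} [Group S] [Finite S] (hS : IsPGroup 2 S) {m : ℕ} (hm : 2 ≤ m)
    (e : S ≃* QuaternionGroup m)
    (hdata : ∀ n : ℕ, 3 ≤ n → ∃ (q : ℕ) (t : ZMod q),
      PrimeT n q t ∧ SDData n q t ∧ C1Stmt q ∧ C2Stmt q) : StarModel S := by
  haveI : NeZero m := ⟨by omega⟩
  haveI : Fact (Nat.Prime 2) := ⟨Nat.prime_two⟩
  have hcardS : Nat.card S = 4 * m := by
    rw [Nat.card_congr e.toEquiv, Nat.card_eq_fintype_card, QuaternionGroup.card]
  obtain ⟨N, hN⟩ := (IsPGroup.iff_card).1 hS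
  have hN3 : 3 ≤ N := by
    by_contra h
    push Not at h
    have : 2 ^ N ≤ 2 ^ 2 := Nat.pow_le_pow_right (by norm_num) (by omega)
    omega
  obtain ⟨n, rfl⟩ : ∃ n, N = n + 3 := ⟨N - 3, by omega⟩
  have hm2 : m = 2 ^ (n + 1) := by
    have : 2 ^ (n + 3) = 4 * 2 ^ (n + 1) := by rw [pow_add, pow_add]; ring
    omega
  obtain ⟨q, t, hP, d, -, hC2⟩ := hdata (n + 3) (by omega)
  obtain ⟨hqp, hqm, hpow⟩ := hP
  haveI : Fact q.Prime := ⟨hqp⟩
  have hn1 : n + 3 - 1 = n + 2 := by omega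
  rw [hn1] at hqm hpow
  have hq2 : q ≠ 2 := by
    have e3 : 2 ^ (n + 3) = 2 * (4 * 2 ^ n) := by rw [pow_add]; ring
    have e2 : 2 ^ (n + 2) = 2 * (2 * 2 ^ n) := by rw [pow_add]; ring
    have ha1 : 1 ≤ 2 ^ n := Nat.one_le_two_pow
    have := Nat.mod_mul_right_mod q 2 (4 * 2 ^ n)
    rw [← e3, hqm, e2] at this
    omega
  have hneg := neg_one_ne_one q hq2
  set X := xU q t with hXdef
  set Y := yU q t with hYdef
  have hX : X ^ 2 ^ (n + 2) = -1 := by
    apply Units.ext
    rw [Units.val_pow_eq_pow_val, hXdef, coe_xU, hpow]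
    simp
  set a := X ^ 2 with hadef
  set b := X * Y with hbdef
  have ha1 : a ^ 2 ^ (n + 1) = -1 := by
    rw [hadef, ← pow_mul, ← pow_succ', hX]
  have ha_ord : orderOf a = 2 ^ (n + 2) := by
    refine orderOf_eq_prime_pow (p := 2) (n := n + 1) (x := a) (by rw [ha1]; exact hneg) ?_
    rw [pow_succ, pow_mul, ha1]
    simp
  have hbb : b * b = -1 := xy_mul_self q t
  have hconj : b * a * b⁻¹ = a⁻¹ := xy_conj_sq q t
  -- the kernel of the determinant
  set K : Subgroup (GL2 q) := (Matrix.GeneralLinearGroup.det : GL2 q →* (ZMod q)ˣ).ker with hK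
  have haK : a ∈ K := by
    rw [hK, MonoidHom.mem_ker, hadef, map_pow, hXdef, det_xU]
    simp
  have hbK : b ∈ K := by
    rw [hK, MonoidHom.mem_ker, hbdef, map_mul, hXdef, hYdef, det_xU, det_yU]
    simp
  have hXK : X ∉ K := by
    rw [hK, MonoidHom.mem_ker, hXdef, det_xU]
    exact neg_one_ne_one_units q hq2
  set T : Subgroup (GL2 q) := Subgroup.closure {X, Y} with hT
  have hxT : X ∈ T := Subgroup.subset_closure (by simp)
  have hyT : Y ∈ T := Subgroup.subset_closure (by simp)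
  set Q0 : Subgroup (GL2 q) := Subgroup.closure {a, b} with hQ0
  have haQ : a ∈ Q0 := Subgroup.subset_closure (by simp)
  have hbQ : b ∈ Q0 := Subgroup.subset_closure (by simp)
  have hQK : Q0 ≤ K := by
    rw [hQ0, Subgroup.closure_le]
    rintro x (rfl | hx)
    · exact haK
    · rw [Set.mem_singleton_iff] at hx
      subst hx
      exact hbK
  have hQT : Q0 ≤ T := by
    rw [hQ0, Subgroup.closure_le]
    rintro x (rfl | hx)
    · exact Subgroup.pow_mem _ hxT 2
    · rw [Set.mem_singleton_iff] at hx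
      subst hx
      exact Subgroup.mul_mem _ hxT hyT
  have hbna : b ∉ Subgroup.zpowers a := by
    intro hb
    obtain ⟨k, hk⟩ := Subgroup.mem_zpowers_iff.1 hb
    have hc : b * a * b⁻¹ = a := by
      rw [← hk, ← zpow_add_one, ← zpow_neg, ← zpow_add]
      simp
    rw [hconj] at hc
    have h2 : a ^ 2 = 1 := by
      rw [pow_two]
      nth_rewrite 1 [← hc]
      exact inv_mul_cancel a
    have hdvd := orderOf_dvd_of_pow_eq_one h2
    rw [ha_ord] at hdvd
    have hle := Nat.le_of_dvd (by norm_num) hdvd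
    have h4 : 2 ^ 2 ≤ 2 ^ (n + 2) := Nat.pow_le_pow_right (by norm_num) (by omega)
    omega
  have hcardQ : Nat.card Q0 = 4 * m := by
    have hcT : Nat.card T = 2 ^ (n + 3 + 1) := d.card_closure
    have h1 : Nat.card Q0 ∣ 2 ^ (n + 3 + 1) := hcT ▸ Subgroup.card_dvd_of_le hQT
    obtain ⟨j, hj, hjc⟩ := (Nat.dvd_prime_pow Nat.prime_two).1 h1
    have hza : Subgroup.zpowers a ≤ Q0 := by
      rw [Subgroup.zpowers_le]
      exact haQ
    have h2 : 2 ^ (n + 2) ∣ 2 ^ j := by
      have := Subgroup.card_dvd_of_le hza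
      rwa [Nat.card_zpowers, ha_ord, hjc] at this
    have h3 : n + 2 ≤ j := (Nat.pow_dvd_pow_iff_le_right (by norm_num)).1 h2
    have h4 : j ≠ n + 2 := by
      intro hj2
      have : Subgroup.zpowers a = Q0 := by
        apply Subgroup.eq_of_le_of_card_ge hza
        rw [Nat.card_zpowers, ha_ord, hjc, hj2]
      rw [← this] at hbQ
      exact hbna hbQ
    have h5 : j ≠ n + 4 := by
      intro hj2
      have : Q0 = T := by
        apply Subgroup.eq_of_le_of_card_ge hQT
        rw [hcT, hjc, hj2]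
      rw [← this] at hxT
      exact hXK (hQK hxT)
    have h6 : j = n + 3 := by omega
    rw [hjc, h6, hm2, pow_add, pow_add]
    ring
  obtain ⟨iso⟩ := Cfsg.Agent.Lib.Helper12.nonempty_mulEquiv_quaternion (G := Q0) hm
    ⟨a, haQ⟩ ⟨b, hbQ⟩ hcardQ (by rw [Subgroup.orderOf_mk, ha_ord, hm2, pow_succ]; ring)
    (by
      apply Subtype.ext
      rw [Subgroup.coe_pow, Subgroup.coe_pow]
      show b ^ 2 = a ^ m
      rw [hm2, ha1, pow_two, hbb])
    (by
      apply Subtype.ext
      rw [Subgroup.coe_mul, Subgroup.coe_mul, Subgroup.coe_inv, Subgroup.coe_inv]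
      exact hconj)
  set φ : S ≃* Q0 := e.trans iso.symm with hφ
  set ι : S →* K := (Subgroup.inclusion hQK).comp φ.toMonoidHom with hι
  have hιc : ∀ s : S, ((ι s : K) : GL2 q) = ((φ s : Q0) : GL2 q) := fun s => rfl
  have hinj : Function.Injective ι := by
    intro s s' h
    apply φ.injective
    apply Subtype.ext
    rw [← hιc, ← hιc, h]
  have hsurj : ∀ g ∈ Q0, ∃ s : S, ((ι s : K) : GL2 q) = g := by
    intro g hg
    refine ⟨φ.symm ⟨g, hg⟩, ?_⟩
    rw [hιc, MulEquiv.apply_symm_apply]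
  have hrange : ∀ s : S, ((ι s : K) : GL2 q) ∈ Q0 := fun s => (φ s).2
  -- two noncommuting elements
  set a' := X ^ 2 ^ (n + 1) with ha'def
  have ha'a : a' = a ^ 2 ^ n := by
    rw [ha'def, hadef, ← pow_mul, ← pow_succ']
  have ha'2 : a' * a' = -1 := by
    rw [ha'def, ← pow_add, ← two_mul, ← pow_succ', hX]
  have hba' : b * a' * b⁻¹ = a'⁻¹ := by
    rw [ha'a, ← conj_pow, hconj, inv_pow]
  have hnc : ∃ y₁ y₂ : S, ((ι y₁ : K) : GL2 q) = b ∧ ((ι y₂ : K) : GL2 q) = a' ∧
      y₁ * y₂ ≠ y₂ * y₁ := by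
    obtain ⟨y₁, hy₁⟩ := hsurj b hbQ
    obtain ⟨y₂, hy₂⟩ := hsurj a' (by rw [ha'a]; exact Subgroup.pow_mem _ haQ _)
    refine ⟨y₁, y₂, hy₁, hy₂, fun hcomm => ?_⟩
    have h1 := congrArg (fun s => ((ι s : K) : GL2 q)) hcomm
    simp only [map_mul, Subgroup.coe_mul, hy₁, hy₂] at h1
    have h2 : b * a' * b⁻¹ = a' := by rw [h1]; group
    rw [hba'] at h2
    have h3 : a' * a' = 1 := by
      nth_rewrite 1 [← h2]
      exact inv_mul_cancel a'
    rw [ha'2] at h3
    exact hneg h3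
  obtain ⟨k, hkK, hk2⟩ := card_ker_det n q hqm d.card_GL
  have hcardR : Nat.card ι.range = 2 ^ (Nat.card K).factorization 2 := by
    rw [hkK, factorization_two_pow_mul _ _ hk2, ← hN]
    exact (Nat.card_congr (MonoidHom.ofInjective hinj).toEquiv).symm
  refine ⟨K, inferInstance, inferInstance, ι, hinj, ⟨Sylow.ofCard ι.range hcardR,
    Sylow.coe_ofCard _ _⟩, ?_, ?_⟩
  · obtain ⟨y₁, y₂, -, -, hne⟩ := hnc
    exact ⟨y₁, y₂, hne⟩
  · intro s hs
    set u : GL2 q := ((ι s : K) : GL2 q) with hu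
    have hudet : Matrix.GeneralLinearGroup.det u = 1 := (ι s).2
    have hu1 : u ≠ 1 := by
      intro h1
      apply hs
      have : s = 1 := by
        apply hinj
        apply Subtype.ext
        rw [map_one]
        exact h1
      rw [this]
      exact Subgroup.one_mem _
    have hu2 : u ≠ -1 := by
      intro h1
      apply hs
      rw [Subgroup.mem_center_iff]
      intro g
      apply hinj
      apply Subtype.ext
      rw [map_mul, map_mul, Subgroup.coe_mul, Subgroup.coe_mul, ← hu, h1]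
      simp
    obtain ⟨c, hc⟩ : ∃ c, orderOf s = 2 ^ c := by
      obtain ⟨k, hk⟩ := hS s
      obtain ⟨c, -, hc⟩ := (Nat.dvd_prime_pow Nat.prime_two).1 (orderOf_dvd_of_pow_eq_one hk)
      exact ⟨c, hc⟩
    have hupow : ∀ i : ℕ, u ^ i = ((ι (s ^ i) : K) : GL2 q) := by
      intro i
      rw [map_pow, Subgroup.coe_pow]
    have hupow1 : ∀ i : ℕ, 0 < i → i < 2 ^ c → u ^ i ≠ 1 := by
      intro i hi0 hi h1
      rw [hupow] at h1
      have : s ^ i = 1 := by
        apply hinj
        apply Subtype.ext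
        rw [map_one]
        exact h1
      exact pow_ne_one_of_lt_orderOf hi0.ne' (hc ▸ hi) this
    have huc : u ^ 2 ^ c = 1 := by
      rw [hupow, ← hc, pow_orderOf_eq_one, map_one]
      rfl
    have hc2 : 2 ≤ c := by
      by_contra hlt
      push Not at hlt
      interval_cases c
      · apply hu1
        simpa using huc
      · have h1 : u * u = 1 := by simpa [pow_two] using huc
        rcases eq_one_or_neg_one q hq2 u hudet h1 with h | h
        · exact hu1 h
        · exact hu2 h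
    obtain ⟨c', rfl⟩ : ∃ c', c = c' + 2 := ⟨c - 2, by omega⟩
    set v := u ^ 2 ^ c' with hv
    have hvv : v * v = -1 := by
      have hw : (v * v) * (v * v) = 1 := by
        rw [hv, ← pow_add, ← pow_add, ← huc]
        congr 1
        rw [pow_add]
        ring
      have hwdet : Matrix.GeneralLinearGroup.det (v * v) = 1 := by
        rw [hv, map_mul, map_pow, hudet]
        simp
      rcases eq_one_or_neg_one q hq2 (v * v) hwdet hw with h | h
      · exfalso
        refine hupow1 (2 ^ c' + 2 ^ c') (by positivity) ?_ ?_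
        · have : 2 ^ (c' + 2) = 4 * 2 ^ c' := by rw [pow_add]; ring
          have h1 : 1 ≤ 2 ^ c' := Nat.one_le_two_pow
          omega
        · rw [pow_add]
          exact h
      · exact h
    obtain ⟨h₁, hd₁, hh₁⟩ := hC2 v b hvv hbb
    obtain ⟨h₂, hd₂, hh₂⟩ := hC2 v a' hvv ha'2
    obtain ⟨y₁, y₂, hy₁, hy₂, hne⟩ := hnc
    refine ⟨2 ^ c', y₁, y₂, ⟨h₁, hd₁⟩, ⟨h₂, hd₂⟩, ?_, ?_, hne⟩
    · apply Subtype.ext
      rw [Subgroup.coe_mul, Subgroup.coe_mul, Subgroup.coe_inv, ← hupow, hy₁]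
      exact hh₁.symm
    · apply Subtype.ext
      rw [Subgroup.coe_mul, Subgroup.coe_mul, Subgroup.coe_inv, ← hupow, hy₂]
      exact hh₂.symm

end Cfsg.Agent.Lib.Helper19.SSolJ8
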