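import Mathlib
import Cfsg.Agent.Lib.Helper93.Sp4Defs

/-!
# S2293 piece NACT (for helper93): `C2Data` implies `C2Act`
-/

set_option autoImplicit false

namespace Cfsg.Agent.Lib.Helper93.Sp4

open Cfsg.Agent.Lib.Helper93.Sl3 (cj)
open Cfsg.Agent.Lib.Helper93.Sl3 (mem_cj conj_mem_cj cj_mul cj_one cj_inv_cj cj_cj_inv)

variable {P : Type*} [Group P] {q : ℕ} {Ua Ub T : Subgroup P} {ta tb : P}

/-- a subgroup normalised by all of `T` is fixed by `cj τ` -/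
theorem h19_cj_eq_of_norm {T U : Subgroup P} (h : ∀ τ ∈ T, ∀ v ∈ U, τ * v * τ⁻¹ ∈ U) :
    ∀ τ ∈ T, cj τ U = U := by
  intro τ hτ
  apply le_antisymm
  · intro y hy
    obtain ⟨v, hv, rfl⟩ := mem_cj.1 hy
    exact h τ hτ v hv
  · intro v hv
    refine mem_cj.2 ⟨τ⁻¹ * v * τ, ?_, by group⟩
    have h' := h τ⁻¹ (T.inv_mem hτ) v hv
    rwa [inv_inv] at h'

/-- NACT -/
theorem c2Act (D : C2Data q Ua Ub T ta tb) : C2Act Ua Ub T ta tb := by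
  have ta2inv : (ta ^ 2)⁻¹ ∈ T := T.inv_mem D.ta2
  have tb2inv : (tb ^ 2)⁻¹ ∈ T := T.inv_mem D.tb2
  have Ttainv : ∀ τ ∈ T, ta⁻¹ * τ * ta ∈ T := by
    intro τ hτ
    have h : ta⁻¹ * τ * ta = (ta ^ 2)⁻¹ * (ta * τ * ta⁻¹) * ta ^ 2 := by group
    rw [h]
    exact T.mul_mem (T.mul_mem ta2inv (D.Tta τ hτ)) D.ta2
  have Ttbinv : ∀ τ ∈ T, tb⁻¹ * τ * tb ∈ T := by
    intro τ hτ
    have h : tb⁻¹ * τ * tb = (tb ^ 2)⁻¹ * (tb * τ * tb⁻¹) * tb ^ 2 := by group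
    rw [h]
    exact T.mul_mem (T.mul_mem tb2inv (D.Ttb τ hτ)) D.tb2
  have TUa' : ∀ τ ∈ T, cj τ Ua = Ua := h19_cj_eq_of_norm D.TUa
  have TUb' : ∀ τ ∈ T, cj τ Ub = Ub := h19_cj_eq_of_norm D.TUb
  have TUab : ∀ τ ∈ T, cj τ (cj tb Ua) = cj tb Ua := by
    intro τ hτ
    have e : τ * tb = tb * (tb⁻¹ * τ * tb) := by group
    rw [← cj_mul, e, cj_mul, TUa' _ (Ttbinv τ hτ)]
  have TUaab : ∀ τ ∈ T, cj τ (cj ta Ub) = cj ta Ub := by
    intro τ hτ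
    have e : τ * ta = ta * (ta⁻¹ * τ * ta) := by group
    rw [← cj_mul, e, cj_mul, TUb' _ (Ttainv τ hτ)]
  have tb_ab : cj tb (cj tb Ua) = Ua := by
    have e : tb * tb = tb ^ 2 := by rw [pow_two]
    rw [← cj_mul, e, TUa' _ D.tb2]
  have tbinv_a : cj tb⁻¹ Ua = cj tb Ua := by
    have e : tb⁻¹ = tb * (tb ^ 2)⁻¹ := by group
    rw [e, cj_mul, TUa' _ tb2inv]
  have ta_aab : cj ta (cj ta Ub) = Ub := by
    have e : ta * ta = ta ^ 2 := by rw [pow_two]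
    rw [← cj_mul, e, TUb' _ D.ta2]
  have tainv_b : cj ta⁻¹ Ub = cj ta Ub := by
    have e : ta⁻¹ = ta * (ta ^ 2)⁻¹ := by group
    rw [e, cj_mul, TUb' _ ta2inv]
  have tainv_ab : cj ta⁻¹ (cj tb Ua) = cj tb Ua := by
    have h := cj_inv_cj ta (cj tb Ua)
    rw [D.n1] at h
    exact h
  have tbinv_aab : cj tb⁻¹ (cj ta Ub) = cj ta Ub := by
    have h := cj_inv_cj tb (cj ta Ub)
    rw [D.n2] at h
    exact h
  exact
    { Ttainv := Ttainv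
      Ttbinv := Ttbinv
      TUab := TUab
      TUaab := TUaab
      TUa' := TUa'
      TUb' := TUb'
      tb_ab := tb_ab
      tbinv_a := tbinv_a
      tbinv_ab := cj_inv_cj tb Ua
      ta_aab := ta_aab
      tainv_b := tainv_b
      tainv_aab := cj_inv_cj ta Ub
      tainv_ab := tainv_ab
      tbinv_aab := tbinv_aab }

end Cfsg.Agent.Lib.Helper93.Sp4
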