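import Mathlib
import Cfsg.Agent.Lib.Helper93.Sp4Defs

/-!
# S2293 piece QSTEP (for helper93): `B * YQ` is closed under right multiplication by the
generators of the parabolic subgroup `Q = ⟨B, ta⟩`.
-/

set_option autoImplicit false

namespace Cfsg.Agent.Lib.Helper93.Sp4

open Cfsg.Agent.Lib.Helper93.Sl3 (cj)
open Cfsg.Agent.Lib.Helper93.Sl3 (mem_cj conj_mem_cj cj_mul cj_one cj_inv_cj cj_cj_inv)

section level3

variable {P : Type*} [Group P] {q : ℕ} {Ua Ub T : Subgroup P} {ta tb : P}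

/-- QSTEP -/
theorem c2_q_step (D : C2Data q Ua Ub T ta tb) (N : C2Act Ua Ub T ta tb) :
    ∀ y ∈ YQ Ua ta, ∀ s ∈ SB Ua Ub T ta tb ∪ {ta}, ∃ a ∈ Bsub Ua Ub T ta tb, ∃ y' ∈ YQ Ua ta,
      y * s = a * y' := by
  have hUa : ∀ x ∈ Ua, x ∈ Bsub Ua Ub T ta tb := fun x hx =>
    Subgroup.subset_closure (Or.inl (Or.inl (Or.inl (Or.inl hx))))
  have hUb : ∀ x ∈ Ub, x ∈ Bsub Ua Ub T ta tb := fun x hx =>
    Subgroup.subset_closure (Or.inl (Or.inl (Or.inl (Or.inr hx))))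
  have hUab : ∀ x ∈ cj tb Ua, x ∈ Bsub Ua Ub T ta tb := fun x hx =>
    Subgroup.subset_closure (Or.inl (Or.inl (Or.inr hx)))
  have hUaab : ∀ x ∈ cj ta Ub, x ∈ Bsub Ua Ub T ta tb := fun x hx =>
    Subgroup.subset_closure (Or.inl (Or.inr hx))
  have hT : ∀ x ∈ T, x ∈ Bsub Ua Ub T ta tb := fun x hx =>
    Subgroup.subset_closure (Or.inr hx)
  have h1Q : (1 : P) ∈ YQ Ua ta := Or.inl rfl
  have htQ : ∀ v ∈ Ua, ta * v ∈ YQ Ua ta := fun v hv => Or.inr ⟨v, hv, rfl⟩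
  -- `ta` maps `Uab` to `Uab`, `Uaab` to `Ub`, `Ub` to `Uaab`
  have ta_ab : ∀ z ∈ cj tb Ua, ta * z * ta⁻¹ ∈ cj tb Ua := by
    intro z hz
    have h : ta * z * ta⁻¹ ∈ cj ta (cj tb Ua) := conj_mem_cj hz
    rwa [D.n1] at h
  have ta_aab : ∀ z ∈ cj ta Ub, ta * z * ta⁻¹ ∈ Ub := by
    intro z hz
    have h : ta * z * ta⁻¹ ∈ cj ta (cj ta Ub) := conj_mem_cj hz
    rwa [N.ta_aab] at h
  intro y hy s hs
  rcases hy with hy | ⟨v, hv, rfl⟩
  · -- `y = 1`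
    have hy1 : y = 1 := hy
    subst hy1
    rcases hs with hs | hs
    · exact ⟨s, Subgroup.subset_closure hs, 1, h1Q, by group⟩
    · have hst : s = ta := hs
      subst hst
      exact ⟨1, one_mem _, s * 1, htQ 1 Ua.one_mem, by group⟩
  · -- `y = ta * v`
    rcases hs with ((((hs | hs) | hs) | hs) | hs) | hs
    · -- `s ∈ Ua`
      exact ⟨1, one_mem _, ta * (v * s), htQ _ (Ua.mul_mem hv hs), by group⟩
    · -- `s ∈ Ub`
      obtain ⟨z1, hz1, z2, hz2, hc⟩ := D.c1 v hv s hs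
      refine ⟨ta * z1 * ta⁻¹ * (ta * z2 * ta⁻¹) * (ta * s * ta⁻¹),
        mul_mem (mul_mem (hUab _ (ta_ab z1 hz1)) (hUb _ (ta_aab z2 hz2)))
          (hUaab _ (conj_mem_cj hs)), ta * v, htQ v hv, ?_⟩
      calc ta * v * s = ta * (v * s * v⁻¹ * s⁻¹) * s * v := by group
        _ = ta * (z1 * z2) * s * v := by rw [hc]
        _ = ta * z1 * ta⁻¹ * (ta * z2 * ta⁻¹) * (ta * s * ta⁻¹) * (ta * v) := by group
    · -- `s ∈ cj tb Ua`
      have hk : v * s * v⁻¹ * s⁻¹ ∈ cj ta Ub := D.c2 v hv s hs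
      refine ⟨ta * (v * s * v⁻¹ * s⁻¹) * ta⁻¹ * (ta * s * ta⁻¹),
        mul_mem (hUb _ (ta_aab _ hk)) (hUab _ (ta_ab s hs)), ta * v, htQ v hv, by group⟩
    · -- `s ∈ cj ta Ub`
      have h1 : v * s = s * v := (D.c3a v hv s hs).eq
      refine ⟨ta * s * ta⁻¹, hUb _ (ta_aab s hs), ta * v, htQ v hv, ?_⟩
      calc ta * v * s = ta * (v * s) := by group
        _ = ta * (s * v) := by rw [h1]
        _ = ta * s * ta⁻¹ * (ta * v) := by group
    · -- `s ∈ T`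
      have hsi : s⁻¹ ∈ T := T.inv_mem hs
      have hv' : s⁻¹ * v * s ∈ Ua := by
        have h := D.TUa s⁻¹ hsi v hv
        rwa [inv_inv] at h
      exact ⟨ta * s * ta⁻¹, hT _ (D.Tta s hs), ta * (s⁻¹ * v * s), htQ _ hv', by group⟩
    · -- `s = ta`
      have hst : s = ta := hs
      subst hst
      by_cases hv1 : v = 1
      · subst hv1
        refine ⟨s ^ 2, hT _ D.ta2, 1, h1Q, ?_⟩
        rw [pow_two]; group
      · obtain ⟨w, hw, τ, hτ, v', hv', hEq⟩ := D.rank1a v hv hv1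
        have hw' : s ^ 2 * w * (s ^ 2)⁻¹ ∈ Ua := D.TUa (s ^ 2) D.ta2 w hw
        refine ⟨s ^ 2 * w * (s ^ 2)⁻¹ * (s * τ * s⁻¹),
          mul_mem (hUa _ hw') (hT _ (D.Tta τ hτ)), s * v', htQ v' hv', ?_⟩
        calc s * v * s = s * (v * s) := by group
          _ = s * (s * w * s⁻¹ * τ * v') := by rw [hEq]
          _ = s ^ 2 * w * (s ^ 2)⁻¹ * (s * τ * s⁻¹) * (s * v') := by
              rw [pow_two]; group

end level3

end Cfsg.Agent.Lib.Helper93.Sp4
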