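import Mathlib

/-!
# Project TG (S2197, architect helper99): piece TG-OVG (helper19)

The order of an overgroup `M` of the point stabiliser `P` inside `T`: a union of suborbit classes.
-/

set_option autoImplicit false

namespace Cfsg.Agent.Lib.Helper99.TG

theorem tgovg_card {Γ : Type*} [Group Γ] [Finite Γ] {Ω : Type*}
    [MulAction Γ Ω] (P S : Subgroup Γ) (n : ℕ) (u : Fin n → Γ) (ω : Ω)
    (hfix : ∀ k ∈ P, k • ω = ω)
    (hinj : ∀ i j, u i • ω = u j • ω → i = j)
    (O : Finset (Fin n))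
    (hmem : ∀ i ∈ O, ∀ k ∈ P, u i * k ∈ S)
    (hdec : ∀ g ∈ S, ∃ i ∈ O, ∃ k ∈ P, g = u i * k) :
    Nat.card S = O.card * Nat.card P := by
  have e : (O × P) ≃ S := Equiv.ofBijective
    (fun p => ⟨u p.1.1 * p.2.1, hmem p.1.1 p.1.2 p.2.1 p.2.2⟩) ⟨?_, ?_⟩
  · rw [← Nat.card_congr e, Nat.card_prod, Nat.card_eq_fintype_card, Fintype.card_coe]
  · rintro ⟨⟨i, hi⟩, ⟨k, hk⟩⟩ ⟨⟨j, hj⟩, ⟨k', hk'⟩⟩ h
    have h1 : u i * k = u j * k' := congrArg Subtype.val h
    have h2 : u i • ω = u j • ω := by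
      have := congrArg (fun g => g • ω) h1
      simp only [mul_smul] at this
      rw [hfix k hk, hfix k' hk'] at this
      exact this
    have h3 : i = j := hinj i j h2
    subst h3
    have h4 : k = k' := mul_left_cancel h1
    subst h4
    rfl
  · rintro ⟨g, hg⟩
    obtain ⟨i, hi, k, hk, he⟩ := hdec g hg
    exact ⟨⟨⟨i, hi⟩, ⟨k, hk⟩⟩, Subtype.ext he.symm⟩

theorem tg_overgroup_card {Γ : Type*} [Group Γ] [Finite Γ] {Ω : Type*}
    [MulAction Γ Ω] (T P : Subgroup Γ) (n : ℕ) (u : Fin n → Γ) (ω : Ω) (i0 : Fin n)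
    (h0 : u i0 = 1) (hPT : P ≤ T) (hu : ∀ i, u i ∈ T)
    (hdec : ∀ g ∈ T, ∃ i, ∃ k ∈ P, g = u i * k) (hfix : ∀ k ∈ P, k • ω = ω)
    (hinj : ∀ i j, u i • ω = u j • ω → i = j)
    (r : ℕ) (c : Fin n → Fin r) (sz : Fin r → ℕ)
    (hsz : ∀ q, (Finset.univ.filter (fun i => c i = q)).card = sz q)
    (hconn : ∀ i j, c i = c j → ∃ k ∈ P, k • (u i • ω) = u j • ω)
    (M : Subgroup Γ) (hPM : P ≤ M) (hMT : M ≤ T) :
    ∃ C : Finset (Fin r), c i0 ∈ C ∧ Nat.card M = (∑ q ∈ C, sz q) * Nat.card P := by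
  classical
  set O : Finset (Fin n) := Finset.univ.filter (fun i => u i ∈ M) with hO
  have memO : ∀ i, i ∈ O ↔ u i ∈ M := by
    intro i
    rw [hO, Finset.mem_filter]
    simp
  have hi0 : i0 ∈ O := (memO i0).2 (by rw [h0]; exact M.one_mem)
  have hclos : ∀ i j, i ∈ O → c i = c j → j ∈ O := by
    intro i j hi hc
    obtain ⟨k, hk, hkω⟩ := hconn i j hc
    have hiM := (memO i).1 hi
    obtain ⟨j', k', hk', he⟩ := hdec (k * u i) (T.mul_mem (hPT hk) (hu i))
    have hj : j' = j := by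
      apply hinj
      have h1 := congrArg (fun g => g • ω) he
      simp only [mul_smul] at h1
      rw [hfix k' hk'] at h1
      rw [← h1]
      exact hkω
    subst hj
    refine (memO j').2 ?_
    have h2 : u j' = k * u i * k'⁻¹ := by rw [he]; group
    rw [h2]
    exact M.mul_mem (M.mul_mem (hPM hk) hiM) (M.inv_mem (hPM hk'))
  set C : Finset (Fin r) := O.image c with hC
  have hcard : O.card = ∑ q ∈ C, sz q := by
    rw [Finset.card_eq_sum_card_fiberwise (f := c) (t := C)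
      (fun i hi => Finset.mem_image_of_mem c hi)]
    refine Finset.sum_congr rfl (fun q hq => ?_)
    rw [← hsz q]
    congr 1
    ext i
    simp only [Finset.mem_filter, Finset.mem_univ, true_and]
    constructor
    · exact fun h => h.2
    · intro h
      obtain ⟨j, hj, hjq⟩ := Finset.mem_image.1 hq
      exact ⟨hclos j i hj (hjq.trans h.symm), h⟩
  refine ⟨C, Finset.mem_image_of_mem c hi0, ?_⟩
  rw [← hcard]
  apply tgovg_card P M n u ω hfix hinj O
  · intro i hi k hk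
    exact M.mul_mem ((memO i).1 hi) (hPM hk)
  · intro g hg
    obtain ⟨i, k, hk, he⟩ := hdec g (hMT hg)
    refine ⟨i, (memO i).2 ?_, k, hk, he⟩
    have h2 : u i = g * k⁻¹ := by rw [he]; group
    rw [h2]
    exact M.mul_mem hg (M.inv_mem (hPM hk))

end Cfsg.Agent.Lib.Helper99.TG
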