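import Mathlib

/-!
# Project TG (S2197, architect helper99): piece TG-PGRP (helper19)

Four small lemmas on finite 2-groups: subgroups of index two, squares, and `2 ^ j`-th powers.
-/

set_option autoImplicit false

namespace Cfsg.Agent.Lib.Helper99.TG

theorem tgpgrp_subgroupOf_map {Γ : Type*} [Group Γ] (H : Subgroup Γ) (M' : Subgroup ↥H) :
    (M'.map H.subtype).subgroupOf H = M' := by
  ext x
  rw [Subgroup.mem_subgroupOf]
  constructor
  · rintro ⟨y, hy, hxy⟩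
    have : y = x := Subtype.ext hxy
    rwa [← this]
  · intro hx
    exact ⟨x, hx, rfl⟩

theorem tg_exists_index_two {Γ : Type*} [Group Γ] [Finite Γ] (H K : Subgroup Γ) (hKH : K ≤ H)
    (hH : IsPGroup 2 ↥H) (hne : K ≠ H) :
    ∃ M : Subgroup Γ, K ≤ M ∧ M ≤ H ∧ M.relIndex H = 2 := by
  haveI : Fact (Nat.Prime 2) := ⟨Nat.prime_two⟩
  obtain ⟨b, hb⟩ := IsPGroup.iff_card.mp hH
  obtain ⟨a, ha⟩ := IsPGroup.iff_card.mp (hH.to_subgroup (K.subgroupOf H))
  have hnetop : K.subgroupOf H ≠ ⊤ := by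
    intro h
    rw [Subgroup.subgroupOf_eq_top] at h
    exact hne (le_antisymm hKH h)
  have hcardne : Nat.card ↥(K.subgroupOf H) ≠ Nat.card ↥H := fun h =>
    hnetop (Subgroup.eq_top_of_card_eq _ h)
  have hdvd : Nat.card ↥(K.subgroupOf H) ∣ Nat.card ↥H := Subgroup.card_subgroup_dvd_card _
  rw [ha, hb] at hdvd
  rw [ha, hb] at hcardne
  have hab : a ≤ b := (Nat.pow_dvd_pow_iff_le_right (by norm_num)).mp hdvd
  have hab' : a < b := lt_of_le_of_ne hab (fun h => hcardne (by rw [h]))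
  obtain ⟨M', hM'card, hKM'⟩ := Sylow.exists_subgroup_card_pow_prime_le 2 (m := b - 1)
    (by rw [hb]; exact pow_dvd_pow 2 (Nat.sub_le b 1)) (K.subgroupOf H) ha (by omega)
  refine ⟨M'.map H.subtype, ?_, ?_, ?_⟩
  · intro k hk
    exact ⟨⟨k, hKH hk⟩, hKM' (Subgroup.mem_subgroupOf.mpr hk), rfl⟩
  · rintro _ ⟨x, _, rfl⟩
    exact x.2
  · rw [Subgroup.relIndex, tgpgrp_subgroupOf_map]
    have h1 := Subgroup.card_mul_index M'
    rw [hM'card, hb] at h1
    have h2 : (2 : ℕ) ^ b = 2 ^ (b - 1) * 2 := by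
      rw [← pow_succ]
      congr 1
      omega
    rw [h2] at h1
    exact Nat.eq_of_mul_eq_mul_left (by positivity) h1

theorem tg_index_two_sq {Γ : Type*} [Group Γ] (H M : Subgroup Γ) (hMH : M ≤ H)
    (hidx : M.relIndex H = 2) (y : Γ) (hy : y ∈ H) : y * y ∈ M := by
  have h := Subgroup.mul_self_mem_of_index_two (H := M.subgroupOf H) hidx ⟨y, hy⟩
  rw [Subgroup.mem_subgroupOf] at h
  exact h

theorem tg_index_two_tri {Γ : Type*} [Group Γ] (H M : Subgroup Γ) (hMH : M ≤ H)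
    (hidx : M.relIndex H = 2) (u v : Γ) (hu : u ∈ H) (hv : v ∈ H) :
    u ∈ M ∨ v ∈ M ∨ u * v ∈ M := by
  by_cases h1 : u ∈ M
  · exact Or.inl h1
  by_cases h2 : v ∈ M
  · exact Or.inr (Or.inl h2)
  refine Or.inr (Or.inr ?_)
  have h := (Subgroup.mul_mem_iff_of_index_two (H := M.subgroupOf H) hidx
    (a := ⟨u, hu⟩) (b := ⟨v, hv⟩)).mpr
    (by rw [Subgroup.mem_subgroupOf, Subgroup.mem_subgroupOf]; exact iff_of_false h1 h2)
  rw [Subgroup.mem_subgroupOf] at h
  exact h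

theorem tg_pow_mem {Γ : Type*} [Group Γ] [Finite Γ] (H K : Subgroup Γ) (j : ℕ) (hKH : K ≤ H)
    (hH : IsPGroup 2 ↥H) (hidx : K.relIndex H = 2 ^ j) (y : Γ) (hy : y ∈ H) :
    y ^ (2 ^ j) ∈ K := by
  induction j generalizing H y with
  | zero =>
    rw [pow_zero, Subgroup.relIndex_eq_one] at hidx
    rw [pow_zero, pow_one]
    exact hidx hy
  | succ j ih =>
    have hne : K ≠ H := by
      rintro rfl
      rw [Subgroup.relIndex_self] at hidx
      have : 2 ≤ 2 ^ (j + 1) := by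
        calc 2 = 2 ^ 1 := by norm_num
          _ ≤ 2 ^ (j + 1) := Nat.pow_le_pow_right (by norm_num) (by omega)
      omega
    obtain ⟨M, hKM, hMH, hMidx⟩ := tg_exists_index_two H K hKH hH hne
    have h1 := Subgroup.relIndex_mul_relIndex K M H hKM hMH
    rw [hMidx, hidx, pow_succ] at h1
    have h2 : K.relIndex M = 2 ^ j := Nat.eq_of_mul_eq_mul_right (by norm_num) h1
    have h3 := ih M hKM (hH.to_le hMH) h2 (y * y) (tg_index_two_sq H M hMH hMidx y hy)
    have h4 : (y * y) ^ (2 ^ j) = y ^ (2 ^ (j + 1)) := by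
      rw [← pow_two, ← pow_mul, ← pow_succ']
    rw [← h4]
    exact h3

end Cfsg.Agent.Lib.Helper99.TG
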