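import Mathlib
import Cfsg.Agent.S0713

/-!
# Piece TP-SE of S4150 (helper76's board): an even two-point stabiliser is impossible
-/

set_option autoImplicit false


namespace Cfsg.Agent.Lib.Helper19.TwoPr

open Equiv Equiv.Perm MulAction

/-- TP-SE -/
theorem t13_solv_even {Ω : Type*} [Fintype Ω] [DecidableEq Ω] (hΩ : Fintype.card Ω = 13)
    (K : Subgroup (Perm Ω)) (hKA : K ≤ alternatingGroup Ω) {c : Perm Ω}
    (h11 : c.support.card = 11)
    (heven : Even (Nat.card (Cfsg.Agent.S0713.fixG K c.supportᶜ)))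
    (h2 : ∀ g ∈ K, g ≠ 1 → (∀ x, x ∉ c.support → g x = x) →
          ∀ x y, x ∈ c.support → y ∈ c.support → g x = x → g y = y → x = y) : False := by
  haveI : Fact (Nat.Prime 2) := ⟨Nat.prime_two⟩
  obtain ⟨t, ht⟩ := exists_prime_orderOf_dvd_card' (G := Cfsg.Agent.S0713.fixG K c.supportᶜ) 2
    heven.two_dvd
  have ht2 : orderOf (t : Perm Ω) = 2 := by rw [Subgroup.orderOf_coe]; exact ht
  obtain ⟨htK, htfix⟩ := (Cfsg.Agent.S0713.mem_fixG K c.supportᶜ (t : Perm Ω)).1 t.2
  set s : Perm Ω := (t : Perm Ω) with hs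
  have hs1 : s ≠ 1 := by
    intro h
    rw [h, orderOf_one] at ht2
    omega
  have hout : ∀ x, x ∉ c.support → s x = x := fun x hx => htfix x (Finset.mem_compl.2 hx)
  have hsub : s.support ⊆ c.support := by
    intro x hx
    by_contra hxc
    exact (Perm.mem_support.1 hx) (hout x hxc)
  have hle : s.support.card ≤ 11 := h11 ▸ Finset.card_le_card hsub
  have hge : 10 ≤ s.support.card := by
    have h1 : (c.support \ s.support).card ≤ 1 := by
      rw [Finset.card_le_one]
      intro x hx y hy
      rw [Finset.mem_sdiff, Perm.notMem_support] at hx hy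
      exact h2 s htK hs1 hout x y hx.1 hy.1 hx.2 hy.2
    have h3 := Finset.card_sdiff_add_card_eq_card hsub
    omega
  obtain ⟨n, hn⟩ := Perm.cycleType_prime_order (σ := s) (by rw [ht2]; exact Nat.prime_two)
  rw [ht2] at hn
  have hsum : s.cycleType.sum = s.support.card := Perm.sum_cycleType s
  rw [hn, Multiset.sum_replicate, smul_eq_mul] at hsum
  have hn4 : n = 4 := by omega
  have hsign : Perm.sign s = 1 := Perm.mem_alternatingGroup.1 (hKA htK)
  rw [Perm.sign_of_cycleType, hn, Multiset.sum_replicate, Multiset.card_replicate, hn4] at hsign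
  revert hsign
  decide

end Cfsg.Agent.Lib.Helper19.TwoPr
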